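import Cfsg.Agent.IsometryClasses.Two.Forms

/-!
# The choice of a piece in characteristic two
-/

set_option autoImplicit false
set_option linter.style.haveILetI false

namespace CfsgLib.IsometryClasses.Two

open Polynomial Module

variable {F : Type*} [Field F] {V : Type*} [AddCommGroup V] [Module F V]
  {B : LinearMap.BilinForm F V} {g : V ≃ₗ[F] V}

/-- `g + 1`. -/
noncomputable def tEnd (g : V ≃ₗ[F] V) : Module.End F V := endo g + 1

/-- `g + g⁻¹`. -/
noncomputable def sEnd (g : V ≃ₗ[F] V) : Module.End F V := endo g + endo g.symm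

/-- The value of `(g + 1) (g + g⁻¹) ^ i`. -/
noncomputable def tv (B : LinearMap.BilinForm F V) (g : V ≃ₗ[F] V) (i : ℕ) (x y : V) : F :=
  B (tEnd g ((sEnd g ^ i) x)) y

/-- The value of `(g + g⁻¹) ^ i`. -/
noncomputable def sv (B : LinearMap.BilinForm F V) (g : V ≃ₗ[F] V) (i : ℕ) (x y : V) : F :=
  B ((sEnd g ^ i) x) y

theorem psi_sU_pow {k : ℕ} {x : V} (hx : x ∈ kill g (uMod F k)) (i : ℕ) :
    psi g (recip_uMod k).monic x (sU F k ^ i) = (sEnd g ^ i) x := by
  induction i with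
  | zero => rw [pow_zero, psi_one _ hx]; rfl
  | succ i ih =>
    have h1 : ∀ a, psi g (recip_uMod k).monic x (rinv (uMod F k) * a) =
        g.symm (psi g (recip_uMod k).monic x a) := fun a => by
      rw [LinearEquiv.eq_symm_apply, ← psi_root _ hx, ← mul_assoc, root_mul_rinv_U, one_mul]
    rw [pow_succ', sU, add_mul, map_add, psi_root _ hx, h1, ← sU, ih, pow_succ', Module.End.mul_apply]
    rfl

theorem PhU_sU {k : ℕ} {x : V} (hx : x ∈ kill g (uMod F k)) (y : V) (i : ℕ) :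
    PhU B g k x y (sU F k ^ i) = sv B g i x y := by
  rw [PhU, Phi_apply, psi_sU_pow hx]; rfl

theorem PhU_tU {k : ℕ} {x : V} (hx : x ∈ kill g (uMod F k)) (y : V) (i : ℕ) :
    PhU B g k x y (tU F k * sU F k ^ i) = tv B g i x y := by
  rw [PhU, Phi_apply, tU, add_mul, one_mul, map_add, psi_root _ hx, psi_sU_pow hx]
  rfl

theorem tv_add_smul (i : ℕ) (x y : V) (c : F) :
    tv B g i (x + c • y) (x + c • y) =
      tv B g i x x + c * (tv B g i x y + tv B g i y x) + c ^ 2 * tv B g i y y := by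
  simp only [tv, map_add, map_smul, LinearMap.add_apply, LinearMap.smul_apply, smul_eq_mul]
  ring

theorem sv_add_smul_right (i : ℕ) (x y z : V) (c : F) :
    sv B g i x (y + c • z) = sv B g i x y + c * sv B g i x z := by
  simp only [sv, map_add, map_smul, smul_eq_mul]

theorem kill_mono {H : F[X]} {k k' : ℕ} (h : k ≤ k') {x : V} (hx : x ∈ kill g (H ^ k)) :
    x ∈ kill g (H ^ k') := by
  rw [kill, LinearMap.mem_ker] at hx ⊢
  rw [← Nat.sub_add_cancel h, pow_add, map_mul, Module.End.mul_apply, hx, map_zero]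

theorem exists_atomData2 [FiniteDimensional F V] (hE : IsEps (1 : F) B g) {H : F[X]} (hH : Recip H)
    (hne : kill g H ≠ ⊥) :
    ∃ k, k ≠ 0 ∧ (∃ x ∈ kill g (H ^ k), psi g (hH.pow k).monic x (top H k) ≠ 0) ∧
      (∀ x ∈ kill g (H ^ k), (∀ y ∈ kill g (H ^ k), B x y = 0) → x = 0) ∧
      ∀ k' x, x ∈ kill g (H ^ k') → x ∈ kill g (H ^ k) := by
  classical
  obtain ⟨k, hk, ⟨x, hx, hxt⟩, hnd⟩ := exists_atomData hE hH hne
  -- a vector killed by a higher power pairs to zero after one step, so the kernels are stable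
  refine ⟨k, hk, ⟨x, hx, hxt⟩, hnd, ?_⟩
  set f := aeval (endo g) H with hf
  have hkill : ∀ n, kill g (H ^ n) = LinearMap.ker (f ^ n) := fun n => by rw [kill, map_pow]
  have hstep : ∀ z ∈ kill g (H ^ (k + 1)), z ∈ kill g (H ^ k) := by
    intro z hz
    set y := aeval (endo g) (H ^ k) z with hy
    have hy1 : y ∈ kill g (H ^ 1) := by
      rw [kill, LinearMap.mem_ker, hy, ← Module.End.mul_apply, ← map_mul, ← pow_add, add_comm]
      exact LinearMap.mem_ker.1 hz
    have hyk := kill_mono (k' := k) (by omega) hy1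
    refine LinearMap.mem_ker.2 (hnd _ hyk fun w hw => ?_)
    have h1 : B w y = 0 := by
      conv_lhs => rw [hy, ← psi_one (hH.pow k).monic hw]
      rw [B_psi_aeval hE (hH.pow k) hw, AdjoinRoot.mk_self, map_zero, mul_zero, map_zero, map_zero,
        LinearMap.zero_apply]
    exact hE.eq_zero_comm h1
  intro k'
  induction k' with
  | zero => exact fun x hx => kill_mono (Nat.zero_le k) hx
  | succ m ih =>
    intro x hx
    rcases Nat.lt_or_ge k (m + 1) with h | h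
    · refine hstep x ?_
      have h1 : f x ∈ kill g (H ^ m) := by
        rw [hkill, LinearMap.mem_ker, ← Module.End.mul_apply, ← pow_succ]
        exact LinearMap.mem_ker.1 ((hkill (m + 1)) ▸ hx)
      have h2 := ih _ h1
      rw [hkill, LinearMap.mem_ker, pow_succ, Module.End.mul_apply]
      rw [hkill, LinearMap.mem_ker] at h2
      exact h2
    · exact kill_mono h hx

/-- What is known about a chosen token: it is the best possible one. -/
def Best (B : LinearMap.BilinForm F V) (g : V ≃ₗ[F] V) : Tok F → Prop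
  | .gen _ _ => True
  | .uv l p =>
    (∀ x ∈ kill g (uMod F (2 * (l + 1))), ∀ y ∈ kill g (uMod F (2 * (l + 1))),
      tv B g l x x = 0 → tv B g l y y = 0 → tv B g l x y = 0) ∧
    (p = false → ∀ x ∈ kill g (uMod F (2 * (l + 1))), tv B g l x x ≠ 0 →
      ¬ (l = 0 ∨ ASq (tv B g (l - 1) x x / tv B g l x x)))
  | .uw k p => p = false → ∀ l, k = 2 * (l + 1) + 1 → ∀ x ∈ kill g (uMod F k), ∀ y ∈ kill g (uMod F k),
      sv B g (l + 1) x y ≠ 0 → tv B g l y y ≠ 0

/-- Facts about a token which has been used. -/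
def Tok.Good : Tok F → Prop
  | .uv l p => VProp l p (vFun F l p)
  | _ => True

/-- A realisation of the shape of a token. -/
def Realised (B : LinearMap.BilinForm F V) (g : V ≃ₗ[F] V) (t : Tok F) : Prop :=
  ∃ (hr : Recip t.shape.f) (xs : Fin t.shape.m → V), (∀ j, xs j ∈ kill g t.shape.f) ∧
    (∀ i j, Phi B g hr.monic (xs i) (xs j) = t.shape.G i j) ∧ t.shape.Nondeg ∧ 0 < t.shape.m

variable [Fintype F] [CharP F 2]

omit [Fintype F] in
theorem nd_pair {k : ℕ} (hk : k ≠ 0) {α β γ : UA F k →ₗ[F] F} (hα : α (tU F k ^ (k - 1)) = 0)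
    (hβ : β (tU F k ^ (k - 1)) = 0) (hγ : γ (tU F k ^ (k - 1)) ≠ 0) (a : Fin 2 → UA F k)
    (h : ∀ j c, ∑ i, (![![α, γ], ![γ ∘ₗ (sigU F k).toLinearMap, β]] : Fin 2 → Fin 2 → UA F k →ₗ[F] F) i j
      (a i * c) = 0) : a = 0 := by
  obtain ⟨r0, r1⟩ := nd_two hk hα hβ hγ (a₀ := a 0) (a₁ := a 1)
    (fun c => by have h' := h 0 c; rwa [Fin.sum_univ_two] at h')
    (fun c => by have h' := h 1 c; rwa [Fin.sum_univ_two] at h')
  funext i
  fin_cases i
  exacts [r0, r1]

theorem realised_uw (hE : IsAlt2 B g) {k : ℕ} (hk : k ≠ 0) (p : Bool) {x y : V}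
    (hx : x ∈ kill g (uMod F k)) (hy : y ∈ kill g (uMod F k))
    (h0 : PhU B g k x x = if p then dFun F k 0 else dFun F k 1)
    (h1 : PhU B g k y y = if p then dFun F k 0 else dFun F k (omega0 F))
    (hγ : PhU B g k x y = deltaU F k)
    (ha : PhU B g k x x (tU F k ^ (k - 1)) = 0) (hb : PhU B g k y y (tU F k ^ (k - 1)) = 0) :
    Realised B g (Tok.uw k p) := by
  refine ⟨recip_uMod k, ![x, y], Fin.forall_fin_two.2 ⟨hx, hy⟩, Fin.forall_fin_two.2 ⟨Fin.forall_fin_two.2 ⟨h0, hγ⟩,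
    Fin.forall_fin_two.2 ⟨?_, h1⟩⟩, fun a h => ?_, two_pos⟩
  · exact LinearMap.ext fun c => (PhU_swap hE hx hy c).trans (LinearMap.congr_fun hγ _)
  · exact nd_pair hk (α := if p then dFun F k 0 else dFun F k 1)
      (β := if p then dFun F k 0 else dFun F k (omega0 F)) (γ := deltaU F k) (by rw [← h0]; exact ha)
      (by rw [← h1]; exact hb) (by rw [deltaU_top hk]; exact one_ne_zero) a h

theorem exists_plain_tok (hE : IsAlt2 B g) {k : ℕ} (hk : k ≠ 0) {x y : V} (hp : IsUPair B g k x y)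
    (hα : PhU B g k x x (tU F k ^ (k - 1)) = 0) (hβ : PhU B g k y y (tU F k ^ (k - 1)) = 0)
    (hodd : ∀ l, k = 2 * l + 1 → PhU B g k y y (tU F k * sU F k ^ (l - 1)) = 0) :
    Realised B g (Tok.uw k true) := by
  obtain ⟨x', y', hx', hy', h0, h1, hγ⟩ := exists_plain hE hk hp hα hβ hodd
  refine realised_uw hE hk true hx' hy' (by rw [h0, if_pos rfl]) (by rw [h1, if_pos rfl]) hγ ?_ ?_
  · rw [h0, dFun_zero]; rfl
  · rw [h1, dFun_zero]; rfl

theorem exists_utok_odd (hE : IsAlt2 B g) {l : ℕ}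
    (hne : ∃ x y, IsUPair B g (2 * l + 1) x y) :
    ∃ t : Tok F, t.Valid ∧ t.Good ∧ (∃ p, t = .uw (2 * l + 1) p) ∧ Realised B g t ∧ Best B g t := by
  classical
  set k := 2 * l + 1 with hk
  have hk0 : k ≠ 0 := by omega
  by_cases hplain : ∃ x y, IsUPair B g k x y ∧ PhU B g k y y (tU F k * sU F k ^ (l - 1)) = 0
  · obtain ⟨x, y, hp, h0⟩ := hplain
    refine ⟨.uw k true, ⟨hk0, fun h => absurd h (by simp)⟩, trivial, ⟨true, rfl⟩, ?_, fun h => absurd h (by simp)⟩
    refine exists_plain_tok hE hk0 hp ?_ ?_ fun l' h => by rw [show l' = l by omega]; exact h0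
    · exact IsDiag.top_odd (l := l) (isDiag_PhU hE hp.1)
    · exact IsDiag.top_odd (l := l) (isDiag_PhU hE hp.2.1)
  push Not at hplain
  obtain ⟨x, y, hp⟩ := hne
  have hl : l ≠ 0 := by
    rintro rfl
    exact hplain x y hp (by rw [tU_sU_pow_eq_zero (by omega), map_zero])
  obtain ⟨l, rfl⟩ : ∃ l', l = l' + 1 := ⟨l - 1, by omega⟩
  simp only [Nat.add_sub_cancel] at hplain
  have hv1 := hplain y x (hp.symm hE hk0)
  have hv2 := hplain x y hp
  have hw : ¬ ASq (PhU B g k x x (tU F k * sU F k ^ l) * PhU B g k y y (tU F k * sU F k ^ l) /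
      PhU B g k x y (tU F k ^ (k - 1)) ^ 2) := by
    rintro ⟨z, hz⟩
    obtain ⟨hx, hy, ht⟩ := hp
    set v₁ := PhU B g k x x (tU F k * sU F k ^ l)
    set v₂ := PhU B g k y y (tU F k * sU F k ^ l)
    set t := PhU B g k x y (tU F k ^ (k - 1)) with htd
    set hm := recip_uMod (F := F) k
    set c := z * t / v₁ with hc
    set y' := psi g hm.monic x (algebraMap F _ c) + psi g hm.monic y 1 with hy'
    have hy'k : y' ∈ kill g (uMod F k) := add_mem (psi_mem _ hx _) (psi_mem _ hy _)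
    have h0 : PhU B g k x x (tU F k ^ (k - 1)) = 0 := IsDiag.top_odd (l := l + 1) (isDiag_PhU hE hx)
    have hp' : IsUPair B g k x y' := by
      refine ⟨hx, hy'k, ?_⟩
      rw [hy', PhU, Phi_add_right]
      change PhU B g k _ _ _ + PhU B g k _ _ _ ≠ _
      rw [top_psi_right hE hk0 hx hx, psi_one _ hy, h0, mul_zero, zero_add]
      exact ht
    refine hplain x y' hp' ?_
    have e : sU F k ^ (l + 1) * (algebraMap F _ c * sigU F k 1) = c • tU F k ^ (k - 1) := by
      rw [map_one, mul_one, Algebra.smul_def, show tU F k ^ (k - 1) = sU F k ^ (l + 1) from tU_pow_top_odd]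
      ring
    rw [hy', PhU_combine hE hx hy, e, map_smul, ← htd, nmU_Rs (Subalgebra.algebraMap_mem _ c),
      show nmU (1 : UA F k) = 1 by rw [nmU, map_one, mul_one], mul_one,
      mul_comm (tU F k * sU F k ^ l), ← map_pow, ← Algebra.smul_def, map_smul, smul_eq_mul, smul_eq_mul, hc]
    have h2 : (z ^ 2 + z) * t ^ 2 = v₁ * v₂ := by rw [hz]; field_simp
    field_simp
    linear_combination v₁ * h2 + v₁ ^ 2 * v₂ * (CharTwo.two_eq_zero (R := F))
  obtain ⟨x', y', hx', hy', h0, h1, hγ⟩ := exists_aniso hE hp hv1 hw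
  refine ⟨.uw k false, ⟨hk0, fun _ => ⟨l, rfl⟩⟩, trivial, ⟨false, rfl⟩,
    realised_uw hE hk0 false hx' hy' (by rw [if_neg (by simp)]; exact h0) (by rw [if_neg (by simp)]; exact h1) hγ
      (IsDiag.top_odd (l := l + 1) (isDiag_PhU hE hx')) (IsDiag.top_odd (l := l + 1) (isDiag_PhU hE hy')), ?_⟩
  intro _ l' hl' u hu v hv hs
  obtain rfl : l' = l := by omega
  have h := hplain u v ⟨hu, hv, by rwa [show tU F k ^ (k - 1) = sU F k ^ (l' + 1) from tU_pow_top_odd, PhU_sU hu]⟩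
  rwa [PhU_tU hv] at h

theorem exists_utok_even (hE : IsAlt2 B g) {l : ℕ}
    (hne : ∃ x y, IsUPair B g (2 * (l + 1)) x y) :
    ∃ t : Tok F, t.Valid ∧ t.Good ∧ ((∃ p, t = .uv l p) ∨ t = .uw (2 * (l + 1)) true) ∧
      Realised B g t ∧ Best B g t := by
  classical
  set k := 2 * (l + 1) with hk
  have hk0 : k ≠ 0 := by omega
  have htop : tU F k ^ (k - 1) = tU F k * sU F k ^ l := tU_pow_top_even
  by_cases hplain : ∃ x y, IsUPair B g k x y ∧ PhU B g k x x (tU F k ^ (k - 1)) = 0 ∧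
      PhU B g k y y (tU F k ^ (k - 1)) = 0
  · obtain ⟨x, y, hp, h0, h1⟩ := hplain
    exact ⟨.uw k true, ⟨hk0, fun h => absurd h (by simp)⟩, trivial, Or.inr rfl,
      exists_plain_tok hE hk0 hp h0 h1 (fun l' h => by omega), fun h => absurd h (by simp)⟩
  push Not at hplain
  obtain ⟨x0, hx0, hx0'⟩ : ∃ x ∈ kill g (uMod F k), PhU B g k x x (tU F k * sU F k ^ l) ≠ 0 := by
    obtain ⟨x, y, hp⟩ := hne
    by_cases h : PhU B g k x x (tU F k ^ (k - 1)) = 0
    · exact ⟨y, hp.2.1, htop ▸ hplain x y hp h⟩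
    · exact ⟨x, hp.1, htop ▸ h⟩
  obtain ⟨x, hx, hxt, p, hb, hbest⟩ : ∃ x ∈ kill g (uMod F k), PhU B g k x x (tU F k * sU F k ^ l) ≠ 0 ∧
      ∃ p : Bool, (VBit l (PhU B g k x x) ↔ p = true) ∧
        (p = false → ∀ z ∈ kill g (uMod F k), PhU B g k z z (tU F k * sU F k ^ l) ≠ 0 →
          ¬ VBit l (PhU B g k z z)) := by
    by_cases h : ∃ x ∈ kill g (uMod F k), PhU B g k x x (tU F k * sU F k ^ l) ≠ 0 ∧ VBit l (PhU B g k x x)
    · obtain ⟨x, hx, hxt, hv⟩ := h
      exact ⟨x, hx, hxt, true, iff_of_true hv rfl, fun e => absurd e (by simp)⟩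
    · push Not at h
      exact ⟨x0, hx0, hx0', false, iff_of_false (h x0 hx0 hx0') (by simp), fun _ => h⟩
  have hP : VProp l p (PhU B g k x x) := ⟨isDiag_PhU hE hx, hxt, hb⟩
  have hS : VProp l p (vFun F l p) := Classical.epsilon_spec ⟨_, hP⟩
  obtain ⟨b, -, hbe⟩ := exists_scale_V hP.1 hS.1 hP.2.1 hS.2.1 (hb.trans hS.2.2.symm)
  refine ⟨.uv l p, ?_, hS, Or.inl ⟨p, rfl⟩, ⟨recip_uMod k, fun _ => psi g (recip_uMod k).monic x b,
    fun _ => psi_mem _ hx _, fun i j => LinearMap.ext fun a => ?_, fun a h => ?_, one_pos⟩, ?_, ?_⟩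
  · rintro rfl
    cases p with
    | true => rfl
    | false => exact absurd (Or.inl rfl) (hbest rfl x hx hxt)
  · exact (Phi_psi hE.eps (recip_uMod k) hx hx b b a).trans (hbe a).symm
  · have hnd : Nd (vFun F l p) := nd_linear hk0 (by rw [htop]; exact hS.2.1)
    funext i
    obtain rfl : i = (0 : Fin 1) := Subsingleton.elim (α := Fin 1) _ _
    refine hnd _ fun c => ?_
    have h' := h (0 : Fin 1) c
    change ∑ i : Fin 1, _ = _ at h'
    rwa [Fin.sum_univ_one] at h'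
  · intro u hu v hv e0 e1
    by_contra hne'
    have hu' : u ∈ kill g (uMod F k) := hu
    refine hplain u v ⟨hu, hv, ?_⟩ ?_ ?_
    · rw [htop, PhU_tU hu']; exact hne'
    · rw [htop, PhU_tU hu']; exact e0
    · rw [htop, PhU_tU (show v ∈ kill g (uMod F k) from hv)]; exact e1
  · intro hpf u hu hut
    have hu' : u ∈ kill g (uMod F k) := hu
    have h := hbest hpf u hu (by rwa [PhU_tU hu'])
    rwa [VBit, PhU_tU hu', PhU_tU hu'] at h

theorem exists_utok (hE : IsAlt2 B g) {k : ℕ} (hk : k ≠ 0)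
    (hne : ∃ x ∈ kill g (uMod F k), psi g (recip_uLin.pow k).monic x (top (X - C 1) k) ≠ 0)
    (hnd : ∀ x ∈ kill g (uMod F k), (∀ y ∈ kill g (uMod F k), B x y = 0) → x = 0) :
    ∃ t : Tok F, t.Valid ∧ t.Good ∧ Realised B g t ∧ Best B g t ∧
      ((∃ p, t = .uw k p) ∨ ∃ l p, k = 2 * (l + 1) ∧ t = .uv l p) := by
  obtain ⟨x, hx, y, hy, hxy⟩ := exists_pair_ne hE.eps recip_uLin hne hnd
  rw [top_eq_pow] at hxy
  have hp : ∃ x y, IsUPair B g k x y := ⟨x, y, hx, hy, hxy⟩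
  obtain ⟨l, rfl | rfl⟩ := Nat.even_or_odd' k
  · obtain ⟨l, rfl⟩ : ∃ l', l = l' + 1 := ⟨l - 1, by omega⟩
    obtain ⟨t, h1, h2, h3, h4, h5⟩ := exists_utok_even hE hp
    refine ⟨t, h1, h2, h4, h5, ?_⟩
    rcases h3 with ⟨p, rfl⟩ | rfl
    exacts [Or.inr ⟨l, p, rfl, rfl⟩, Or.inl ⟨true, rfl⟩]
  · obtain ⟨t, h1, h2, h3, h4, h5⟩ := exists_utok_odd hE hp
    exact ⟨t, h1, h2, h4, h5, Or.inl h3⟩

omit [CharP F 2] in
theorem exists_gtok (hE : IsAlt2 B g) {H : F[X]} (hH : Recip H) (hat : Lab.IsGenAtom H) {k : ℕ}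
    (hk : k ≠ 0) (hne : ∃ x ∈ kill g (H ^ k), psi g (hH.pow k).monic x (top H k) ≠ 0)
    (hnd : ∀ x ∈ kill g (H ^ k), (∀ y ∈ kill g (H ^ k), B x y = 0) → x = 0) :
    Realised B g (Tok.gen k H) := by
  obtain ⟨x, hx, hgood⟩ := exists_good_gen hE.eps hH hat hk hne hnd
  have hS : ∀ h : Recip H, GoodFun 1 h k (genFun k H) :=
    Classical.epsilon_spec (p := fun φ : AdjoinRoot (H ^ k) →ₗ[F] F => ∀ h : Recip H, GoodFun 1 h k φ)
      ⟨_, fun _ => hgood⟩
  obtain ⟨b, -, hb⟩ := exists_scale_atom hH hat hk hgood (hS hH)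
  refine ⟨hH.pow k, fun _ => psi g (hH.pow k).monic x b, fun _ => psi_mem _ hx _,
    fun i j => LinearMap.ext fun a => (Phi_psi hE.eps (hH.pow k) hx hx b b a).trans (hb a).symm,
    fun a h => ?_, one_pos⟩
  funext i
  obtain rfl : i = (0 : Fin 1) := Subsingleton.elim (α := Fin 1) _ _
  refine (hS hH).2 _ fun c => ?_
  have h' := h (0 : Fin 1) c
  change ∑ i : Fin 1, _ = _ at h'
  rwa [Fin.sum_univ_one] at h'

end CfsgLib.IsometryClasses.Two
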