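import Mathlib

/-!
# The generating function of unipotent data in characteristic two, at `1 / 2`
-/

set_option autoImplicit false

namespace CfsgLib.IsometryClasses.Two

/-- Data of one level: number of pairs of odd exponent, whether one of them is anisotropic, number of
pairs of even exponent, number of single generators, whether one of them is negative. -/
abbrev Dat := ℕ × Bool × ℕ × ℕ × Bool

/-- The half dimension used by a datum. -/
def datW (L : ℕ) (d : Dat) : ℕ := (2 * L + 1) * d.1 + (2 * L + 2) * d.2.2.1 + (L + 1) * d.2.2.2.1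

/-- The data of one level, after a level with (`p`) or without single generators, itself with (`f`) or
without single generators. -/
def stepSet (N : ℕ) (p f : Bool) : Finset Dat :=
  let cs := Finset.range (N + 1)
  let plain : Finset (ℕ × Bool) := Finset.range (N + 1) ×ˢ {false}
  let aa : Finset (ℕ × Bool) := plain ∪ if p then ∅ else Finset.Icc 1 N ×ˢ {true}
  if f then
    ((aa ×ˢ cs ×ˢ ({1, 2} : Finset ℕ)).image fun x => (x.1.1, x.1.2, x.2.1, x.2.2, false)) ∪
      (if p then ∅ else (cs ×ˢ ({1, 2} : Finset ℕ)).image fun x => (0, false, x.1, x.2, true))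
  else
    (aa ×ˢ cs).image fun x => (x.1.1, x.1.2, x.2, 0, false)

/-- The data of the first `K` levels. -/
def datSet (N : ℕ) : (K : ℕ) → Bool → Finset (Fin K → Dat)
  | 0, f => if f then {Fin.elim0} else ∅
  | K + 1, f => ((stepSet N true f ×ˢ datSet N K true).image fun x => Fin.snoc x.2 x.1) ∪
      ((stepSet N false f ×ˢ datSet N K false).image fun x => Fin.snoc x.2 x.1)

/-- Whether the previous level has single generators; true at the start. -/
def prevFlag (d : ℕ → Dat) : ℕ → Bool
  | 0 => true
  | L + 1 => decide (0 < (d L).2.2.2.1)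

/-- The conditions on the data of one level. -/
def LevelOK (N : ℕ) (d : ℕ → Dat) (L : ℕ) : Prop :=
  (d L).1 ≤ N ∧ (d L).2.2.1 ≤ N ∧ (d L).2.2.2.1 ≤ 2 ∧
    ((d L).2.1 = true → 1 ≤ (d L).1 ∧ prevFlag d L = false) ∧
    ((d L).2.2.2.2 = true → prevFlag d L = false ∧ 0 < (d L).2.2.2.1 ∧ (d L).1 = 0)

theorem mem_datSet (N : ℕ) (d : ℕ → Dat) : ∀ K, (∀ L < K, LevelOK N d L) →
    (fun i : Fin K => d i) ∈ datSet N K (prevFlag d K)
  | 0, _ => by
    simp only [datSet, prevFlag, if_true, Finset.mem_singleton]
    exact funext fun i => i.elim0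
  | K + 1, h => by
    have ih := mem_datSet N d K fun L hL => h L (by omega)
    obtain ⟨h1, h2, h3, h4, h5⟩ := h K (by omega)
    have hsn : (fun i : Fin (K + 1) => d i) = Fin.snoc (fun i : Fin K => d i) (d K) := by
      funext i
      refine Fin.lastCases ?_ (fun j => ?_) i <;> simp
    have hmem : d K ∈ stepSet N (prevFlag d K) (prevFlag d (K + 1)) := by
      rw [show prevFlag d (K + 1) = decide (0 < (d K).2.2.2.1) from rfl]
      generalize prevFlag d K = p at h4 h5
      generalize d K = x at h1 h2 h3 h4 h5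
      obtain ⟨a, al, c, b, ng⟩ := x
      simp only at h1 h2 h3 h4 h5
      cases p <;> cases al <;> cases ng <;> interval_cases b <;>
        simp_all [stepSet]
    rw [hsn, datSet]
    cases hp : prevFlag d K <;> rw [hp] at hmem ih
    · exact Finset.mem_union_right _ (Finset.mem_image.2 ⟨(d K, _), Finset.mem_product.2 ⟨hmem, ih⟩, rfl⟩)
    · exact Finset.mem_union_left _ (Finset.mem_image.2 ⟨(d K, _), Finset.mem_product.2 ⟨hmem, ih⟩, rfl⟩)

theorem geom_le {x : ℝ} (h0 : 0 ≤ x) (h1 : x < 1) (N : ℕ) :
    ∑ e ∈ Finset.range N, x ^ e ≤ 1 / (1 - x) := by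
  rw [le_div_iff₀ (by linarith), geom_sum_mul_neg]
  linarith [pow_nonneg h0 N]

theorem geom_pos_le {x : ℝ} (h0 : 0 ≤ x) (h1 : x < 1) (N : ℕ) :
    ∑ e ∈ Finset.Icc 1 N, x ^ e ≤ x / (1 - x) := by
  have h : ∑ e ∈ Finset.Icc 1 N, x ^ e = x * ∑ e ∈ Finset.range N, x ^ e := by
    rw [Finset.mul_sum, show Finset.Icc 1 N = (Finset.range N).image (· + 1) by
      ext e
      simp only [Finset.mem_Icc, Finset.mem_image, Finset.mem_range]
      exact ⟨fun h => ⟨e - 1, by omega, by omega⟩, by rintro ⟨a, ha, rfl⟩; omega⟩,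
      Finset.sum_image (fun a _ b _ h => by simpa using h)]
    exact Finset.sum_congr rfl fun e _ => by rw [pow_succ']
  rw [h, div_eq_mul_one_div]
  exact mul_le_mul_of_nonneg_left (geom_le h0 h1 N) h0

theorem sum_union_le' {α : Type*} [DecidableEq α] (s t : Finset α) {f : α → ℝ} (hf : ∀ a, 0 ≤ f a) :
    ∑ a ∈ s ∪ t, f a ≤ ∑ a ∈ s, f a + ∑ a ∈ t, f a := by
  rw [← Finset.sum_union_inter]
  linarith [Finset.sum_nonneg (s := s ∩ t) fun a _ => hf a]

theorem sum_image_le' {α β : Type*} [DecidableEq β] (s : Finset α) (g : α → β) {f : β → ℝ}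
    (hf : ∀ a, 0 ≤ f a) : ∑ a ∈ s.image g, f a ≤ ∑ a ∈ s, f (g a) :=
  Finset.sum_image_le_of_nonneg fun u _ => hf u

/-- `1 / 2` to the weight. -/
noncomputable def halfPow (m : ℕ) : ℝ := (1 / 2 : ℝ) ^ m

theorem halfPow_nonneg (m : ℕ) : 0 ≤ halfPow m := by unfold halfPow; positivity

theorem halfPow_add (a b : ℕ) : halfPow (a + b) = halfPow a * halfPow b := pow_add _ _ _

/-- The bound at one level after a level with (`p = true`) or without single generators, for a level
without single generators. -/
noncomputable def stepA (L : ℕ) (p : Bool) : ℝ :=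
  (if p then 1 else 1 + halfPow (2 * L + 1)) / (1 - halfPow (2 * L + 1)) / (1 - halfPow (2 * L + 2))

/-- The same for a level with single generators. -/
noncomputable def stepB (L : ℕ) (p : Bool) : ℝ :=
  (halfPow (L + 1) + halfPow (L + 1) ^ 2) * (if p then 1 else 2) / (1 - halfPow (2 * L + 1)) /
    (1 - halfPow (2 * L + 2))

theorem halfPow_lt_one {m : ℕ} (hm : m ≠ 0) : halfPow m < 1 := pow_lt_one₀ (by norm_num) (by norm_num) hm

theorem sum_stepSet (N L : ℕ) (p f : Bool) :
    ∑ x ∈ stepSet N p f, halfPow (datW L x) ≤ if f then stepB L p else stepA L p := by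
  set w := halfPow (2 * L + 1)
  set y := halfPow (2 * L + 2)
  set z := halfPow (L + 1)
  have hw0 : 0 ≤ w := halfPow_nonneg _
  have hy0 : 0 ≤ y := halfPow_nonneg _
  have hz0 : 0 ≤ z := halfPow_nonneg _
  have hw1 : w < 1 := halfPow_lt_one (by omega)
  have hy1 : y < 1 := halfPow_lt_one (by omega)
  have hd : ∀ a c b (u v : Bool), halfPow (datW L (a, u, c, b, v)) = w ^ a * (y ^ c * z ^ b) := fun a c b u v => by
    simp only [datW, w, y, z, halfPow, ← pow_mul, ← pow_add]
    congr 1
    ring
  set aa : Finset (ℕ × Bool) :=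
    (Finset.range (N + 1) ×ˢ {false}) ∪ if p then ∅ else Finset.Icc 1 N ×ˢ {true} with haa
  have hA : ∑ x ∈ aa, w ^ x.1 ≤ (if p then 1 else 1 + w) / (1 - w) := by
    refine (sum_union_le' _ _ fun _ => by positivity).trans ?_
    rw [Finset.sum_product]
    simp only [Finset.sum_singleton]
    cases p
    · simp only [Bool.false_eq_true, if_false, Finset.sum_product, Finset.sum_singleton]
      rw [add_div]
      exact add_le_add (geom_le hw0 hw1 _) (geom_pos_le hw0 hw1 _)
    · simp only [if_true, Finset.sum_empty, add_zero]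
      exact geom_le hw0 hw1 _
  have hC : ∑ c ∈ Finset.range (N + 1), y ^ c ≤ 1 / (1 - y) := geom_le hy0 hy1 _
  have hA0 : 0 ≤ (if p then 1 else 1 + w) / (1 - w) := div_nonneg (by split_ifs <;> linarith) (by linarith)
  have hC0 : 0 ≤ 1 / (1 - y) := div_nonneg zero_le_one (by linarith)
  cases f
  · simp only [stepSet, Bool.false_eq_true, if_false, ← haa]
    refine (sum_image_le' _ _ fun _ => halfPow_nonneg _).trans ?_
    rw [Finset.sum_product]
    simp only [hd, pow_zero, mul_one, ← Finset.mul_sum, ← Finset.sum_mul, stepA]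
    refine (mul_le_mul hA hC (Finset.sum_nonneg fun _ _ => by positivity) hA0).trans (le_of_eq ?_)
    simp only [w, y]; ring
  · simp only [stepSet, if_true, ← haa, stepB]
    refine (sum_union_le' _ _ fun _ => halfPow_nonneg _).trans ?_
    have h1 : ∑ x ∈ (aa ×ˢ Finset.range (N + 1) ×ˢ ({1, 2} : Finset ℕ)).image
        (fun x => ((x.1.1, x.1.2, x.2.1, x.2.2, false) : Dat)), halfPow (datW L x) ≤
        (if p then 1 else 1 + w) / (1 - w) * (1 / (1 - y) * (z + z ^ 2)) := by
      refine (sum_image_le' _ _ fun _ => halfPow_nonneg _).trans ?_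
      rw [Finset.sum_product]
      simp only [hd, Finset.sum_product, ← Finset.mul_sum, ← Finset.sum_mul]
      rw [Finset.sum_pair (by norm_num : (1 : ℕ) ≠ 2), pow_one]
      exact mul_le_mul hA (mul_le_mul_of_nonneg_right hC (by positivity))
        (mul_nonneg (Finset.sum_nonneg fun _ _ => by positivity) (by positivity)) hA0
    have h2 : ∑ x ∈ (if p then ∅ else (Finset.range (N + 1) ×ˢ ({1, 2} : Finset ℕ)).image
        (fun x => ((0, false, x.1, x.2, true) : Dat))), halfPow (datW L x) ≤
        (if p then 0 else 1) * (1 / (1 - y) * (z + z ^ 2)) := by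
      cases p
      · simp only [Bool.false_eq_true, if_false, one_mul]
        refine (sum_image_le' _ _ fun _ => halfPow_nonneg _).trans ?_
        rw [Finset.sum_product]
        simp only [hd, pow_zero, one_mul, ← Finset.mul_sum, ← Finset.sum_mul]
        rw [Finset.sum_pair (by norm_num : (1 : ℕ) ≠ 2), pow_one]
        exact mul_le_mul_of_nonneg_right hC (by positivity)
      · simp
    refine (add_le_add h1 h2).trans (le_of_eq ?_)
    have e1 : (1 - w : ℝ) ≠ 0 := by linarith
    have e2 : (1 - y : ℝ) ≠ 0 := by linarith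
    simp only [w, y, z] at e1 e2 ⊢
    cases p <;> simp only [if_true, Bool.false_eq_true, if_false] <;> field_simp <;> ring

/-- The bounds for data without (`(genVal K).1`) or with single generators at the last level. -/
noncomputable def genVal : ℕ → ℝ × ℝ
  | 0 => (0, 1)
  | K + 1 => (stepA K false * (genVal K).1 + stepA K true * (genVal K).2,
      stepB K false * (genVal K).1 + stepB K true * (genVal K).2)

theorem step_nonneg (L : ℕ) (p : Bool) : 0 ≤ stepA L p ∧ 0 ≤ stepB L p := by
  have h1 : halfPow (2 * L + 1) < 1 := halfPow_lt_one (by omega)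
  have h2 : halfPow (2 * L + 2) < 1 := halfPow_lt_one (by omega)
  have h0 := halfPow_nonneg (2 * L + 1)
  have h3 := halfPow_nonneg (L + 1)
  constructor
  · exact div_nonneg (div_nonneg (by split_ifs <;> linarith) (by linarith)) (by linarith)
  · exact div_nonneg (div_nonneg (mul_nonneg (by positivity) (by split_ifs <;> norm_num)) (by linarith))
      (by linarith)

theorem genVal_nonneg : ∀ K, 0 ≤ (genVal K).1 ∧ 0 ≤ (genVal K).2
  | 0 => by simp [genVal]
  | K + 1 => by
    obtain ⟨h1, h2⟩ := genVal_nonneg K
    obtain ⟨a0, b0⟩ := step_nonneg K false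
    obtain ⟨a1, b1⟩ := step_nonneg K true
    exact ⟨by rw [genVal]; positivity, by rw [genVal]; positivity⟩

/-- The total weight of data. -/
def datWt {K : ℕ} (D : Fin K → Dat) : ℕ := ∑ i : Fin K, datW i (D i)

theorem sum_datSet (N : ℕ) : ∀ K f,
    ∑ D ∈ datSet N K f, halfPow (datWt D) ≤ if f then (genVal K).2 else (genVal K).1
  | 0, f => by cases f <;> simp [datSet, genVal, datWt, halfPow]
  | K + 1, f => by
    have hpart : ∀ p, ∑ D ∈ (stepSet N p f ×ˢ datSet N K p).image (fun x => Fin.snoc x.2 x.1),
        halfPow (datWt D) ≤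
        (if f then stepB K p else stepA K p) * (if p then (genVal K).2 else (genVal K).1) := by
      intro p
      refine (sum_image_le' _ _ fun _ => halfPow_nonneg _).trans ?_
      have e : ∀ (x : Dat) (D : Fin K → Dat), halfPow (datWt (Fin.snoc D x : Fin (K + 1) → Dat)) =
          halfPow (datW K x) * halfPow (datWt D) := fun x D => by
        rw [datWt, Fin.sum_univ_castSucc, halfPow_add, mul_comm]
        simp [datWt]
      simp only [e, Finset.sum_product, ← Finset.mul_sum, ← Finset.sum_mul]
      refine mul_le_mul (sum_stepSet N K p f) (sum_datSet N K p)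
        (Finset.sum_nonneg fun _ _ => halfPow_nonneg _) ?_
      cases f
      exacts [(step_nonneg K p).1, (step_nonneg K p).2]
    rw [datSet]
    refine (sum_union_le' _ _ fun _ => halfPow_nonneg _).trans ?_
    have h1 := hpart true
    have h2 := hpart false
    cases f <;> simp only [genVal, if_true, Bool.false_eq_true, if_false] at * <;> linarith

theorem genVal_step {K : ℕ} {A B A' B' : ℝ} (h : (genVal K).1 ≤ A ∧ (genVal K).2 ≤ B)
    (hA : stepA K false * A + stepA K true * B ≤ A') (hB : stepB K false * A + stepB K true * B ≤ B') :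
    (genVal (K + 1)).1 ≤ A' ∧ (genVal (K + 1)).2 ≤ B' := by
  obtain ⟨a0, b0⟩ := step_nonneg K false
  obtain ⟨a1, b1⟩ := step_nonneg K true
  rw [genVal]
  exact ⟨le_trans (add_le_add (mul_le_mul_of_nonneg_left h.1 a0) (mul_le_mul_of_nonneg_left h.2 a1)) hA,
    le_trans (add_le_add (mul_le_mul_of_nonneg_left h.1 b0) (mul_le_mul_of_nonneg_left h.2 b1)) hB⟩

theorem genVal_fourteen : (genVal 14).1 + (genVal 14).2 ≤ 76 / 5 * (1 - 6 * halfPow 14) := by
  have h0 : (genVal 0).1 ≤ 0 ∧ (genVal 0).2 ≤ 1 := by simp [genVal]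
  have h1 := genVal_step h0 (A' := 2666667 / 1000000) (B' := 2) (by norm_num [stepA, halfPow])
    (by norm_num [stepB, halfPow])
  have h2 := genVal_step h1 (A' := 6095239 / 1000000) (B' := 698413 / 250000) (by norm_num [stepA, halfPow])
    (by norm_num [stepB, halfPow])
  have h3 := genVal_step h2 (A' := 1190127 / 125000) (B' := 1104821 / 500000) (by norm_num [stepA, halfPow])
    (by norm_num [stepB, halfPow])
  have h4 := genVal_step h3 (A' := 11944653 / 1000000) (B' := 285587 / 200000) (by norm_num [stepA, halfPow])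
    (by norm_num [stepB, halfPow])
  have h5 := genVal_step h4 (A' := 13435253 / 1000000) (B' := 204571 / 250000) (by norm_num [stepA, halfPow])
    (by norm_num [stepB, halfPow])
  have h6 := genVal_step h5 (A' := 3567637 / 250000) (B' := 10993 / 25000) (by norm_num [stepA, halfPow])
    (by norm_num [stepB, halfPow])
  have h7 := genVal_step h6 (A' := 2942941 / 200000) (B' := 3566 / 15625) (by norm_num [stepA, halfPow])
    (by norm_num [stepB, halfPow])
  have h8 := genVal_step h7 (A' := 14944063 / 1000000) (B' := 29077 / 250000) (by norm_num [stepA, halfPow])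
    (by norm_num [stepB, halfPow])
  have h9 := genVal_step h8 (A' := 7530329 / 500000) (B' := 29359 / 500000) (by norm_num [stepA, halfPow])
    (by norm_num [stepB, halfPow])
  have h10 := genVal_step h9 (A' := 1889931 / 125000) (B' := 14751 / 500000) (by norm_num [stepA, halfPow])
    (by norm_num [stepB, halfPow])
  have h11 := genVal_step h10 (A' := 15148969 / 1000000) (B' := 14787 / 1000000) (by norm_num [stepA, halfPow])
    (by norm_num [stepB, halfPow])
  have h12 := genVal_step h11 (A' := 15163761 / 1000000) (B' := 7403 / 1000000) (by norm_num [stepA, halfPow])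
    (by norm_num [stepB, halfPow])
  have h13 := genVal_step h12 (A' := 7585583 / 500000) (B' := 463 / 125000) (by norm_num [stepA, halfPow])
    (by norm_num [stepB, halfPow])
  have h14 := genVal_step h13 (A' := 15174871 / 1000000) (B' := 1853 / 1000000) (by norm_num [stepA, halfPow])
    (by norm_num [stepB, halfPow])
  refine (add_le_add h14.1 h14.2).trans ?_
  norm_num [halfPow]

theorem genVal_le (n : ℕ) : (genVal n).1 + (genVal n).2 ≤ 76 / 5 := by
  have hmono : ∀ K, (genVal K).1 + (genVal K).2 ≤ (genVal (K + 1)).1 + (genVal (K + 1)).2 := fun K => by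
    obtain ⟨h1, h2⟩ := genVal_nonneg K
    have key : ∀ p, 1 ≤ stepA K p := fun p => by
      have ha := halfPow_nonneg (2 * K + 1)
      have hb := halfPow_nonneg (2 * K + 2)
      have ha1 := halfPow_lt_one (m := 2 * K + 1) (by omega)
      have hb1 := halfPow_lt_one (m := 2 * K + 2) (by omega)
      rw [stepA, le_div_iff₀ (by linarith), le_div_iff₀ (by linarith)]
      split_ifs <;> nlinarith
    have k1 := key false
    have k2 := key true
    have b0 := (step_nonneg K false).2
    have b1 := (step_nonneg K true).2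
    simp only [genVal]
    nlinarith [mul_nonneg b0 h1, mul_nonneg b1 h2]
  have hbig : ∀ K, 14 ≤ K → (genVal K).1 + (genVal K).2 ≤ 76 / 5 * (1 - 6 * halfPow K) := by
    intro K hK
    induction K, hK using Nat.le_induction with
    | base => exact genVal_fourteen
    | succ K hK ih =>
      obtain ⟨h1, h2⟩ := genVal_nonneg K
      set z := halfPow (K + 1) with hz
      have hz0 : 0 ≤ z := halfPow_nonneg _
      have hz1 : z ≤ 1 / 1024 := by
        refine (pow_le_pow_of_le_one (by norm_num) (by norm_num) (show 10 ≤ K + 1 by omega)).trans ?_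
        norm_num
      have ew : halfPow (2 * K + 1) = 2 * z ^ 2 := by
        rw [hz, halfPow, halfPow, ← pow_mul, show (K + 1) * 2 = (2 * K + 1) + 1 by ring, pow_succ (1 / 2 : ℝ) (2 * K + 1)]
        ring
      have ey : halfPow (2 * K + 2) = z ^ 2 := by
        rw [hz, halfPow, halfPow, ← pow_mul]; ring_nf
      have ez : halfPow K = 2 * z := by rw [hz, halfPow, halfPow, pow_succ]; ring
      rw [ez] at ih
      have key : ∀ p, stepA K p + stepB K p ≤ 1 + 3 * z := fun p => by
        rw [stepA, stepB, ← hz, ew, ey, ← add_div, ← add_div, div_div, div_le_iff₀ (mul_pos (by nlinarith) (by nlinarith))]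
        cases p <;> simp <;> nlinarith [pow_le_pow_left₀ hz0 hz1 2, pow_nonneg hz0 3, pow_nonneg hz0 4]
      have k1 := key false
      have k2 := key true
      calc (genVal (K + 1)).1 + (genVal (K + 1)).2
          = (stepA K false + stepB K false) * (genVal K).1 + (stepA K true + stepB K true) * (genVal K).2 := by
            simp only [genVal]; ring
        _ ≤ (1 + 3 * z) * ((genVal K).1 + (genVal K).2) := by nlinarith
        _ ≤ (1 + 3 * z) * (76 / 5 * (1 - 6 * (2 * z))) := mul_le_mul_of_nonneg_left ih (by linarith)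
        _ ≤ 76 / 5 * (1 - 6 * z) := by nlinarith
  rcases Nat.lt_or_ge n 14 with h | h
  · have : (genVal n).1 + (genVal n).2 ≤ (genVal 14).1 + (genVal 14).2 :=
      monotone_nat_of_le_succ hmono h.le
    linarith [genVal_fourteen, halfPow_nonneg 14]
  · linarith [hbig n h, halfPow_nonneg n]

end CfsgLib.IsometryClasses.Two
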