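import Cfsg.Agent.IsometryClasses.Two.Decomp
import Cfsg.Agent.IsometryClasses.Two.Numeric
import Cfsg.Agent.IsometryClasses.LabelSets
import Cfsg.Agent.GLClassCount.Polys

/-!
# Counting admissible tokens in characteristic two
-/

set_option autoImplicit false
set_option linter.style.haveILetI false

namespace CfsgLib.IsometryClasses.Two

open Polynomial Module

variable {F : Type*} [Field F] [Fintype F] [CharP F 2]

open scoped Classical

/-! ### The upper half of a self-reciprocal polynomial -/

/-- The upper half. -/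
noncomputable def upperHalf (G : F[X]) : F[X] :=
  ∑ i ∈ Finset.range (G.natDegree / 2 + 1), monomial i (G.coeff (G.natDegree / 2 + i))

omit [Fintype F] [CharP F 2] in
theorem coeff_upperHalf (G : F[X]) (i : ℕ) :
    (upperHalf G).coeff i = if i ≤ G.natDegree / 2 then G.coeff (G.natDegree / 2 + i) else 0 := by
  rw [upperHalf, finsetSum_coeff]
  simp only [coeff_monomial, Finset.sum_ite_eq', Finset.mem_range, Nat.lt_succ_iff]

omit [Fintype F] in
theorem recip_coeff_zero {G : F[X]} (hG : Recip G) : G.coeff 0 = 1 := by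
  rcases mul_self_eq_one_iff.1 hG.coeff_zero_sq with e | e
  · exact e
  · rwa [CharTwo.neg_eq] at e

omit [Fintype F] in
theorem eval_one_eq_mid {G : F[X]} (hG : Recip G) {d : ℕ} (hd : G.natDegree = d + d) :
    G.eval 1 = G.coeff d := by
  rw [eval_eq_sum_range]
  simp only [one_pow, mul_one]
  rw [← Finset.add_sum_erase _ _ (Finset.mem_range.2 (show d < G.natDegree + 1 by omega)), add_eq_left]
  refine Finset.sum_involution (fun i _ => G.natDegree - i) ?_ ?_ ?_ ?_
  · intro i hi
    rw [Finset.mem_erase, Finset.mem_range] at hi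
    rw [hG.coeff_rev (by omega), recip_coeff_zero hG, one_mul, CharTwo.add_self_eq_zero]
  · intro i hi _ e
    rw [Finset.mem_erase, Finset.mem_range] at hi
    omega
  · intro i hi
    rw [Finset.mem_erase, Finset.mem_range] at hi ⊢
    omega
  · intro i hi
    rw [Finset.mem_erase, Finset.mem_range] at hi
    omega

omit [Fintype F] in
theorem upperHalf_spec {G : F[X]} (hG : Recip G) (he : Even G.natDegree) (h1 : G.eval 1 ≠ 0) :
    (upperHalf G).Monic ∧ (upperHalf G).natDegree = G.natDegree / 2 ∧ (upperHalf G).coeff 0 ≠ 0 := by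
  obtain ⟨d, hd⟩ := he
  have hd2 : G.natDegree / 2 = d := by omega
  have hlead : (upperHalf G).coeff d = 1 := by
    rw [coeff_upperHalf, hd2, if_pos le_rfl, ← hd, hG.monic.coeff_natDegree]
  have hle : (upperHalf G).natDegree ≤ d := natDegree_le_iff_coeff_eq_zero.2 fun i hi => by
    rw [coeff_upperHalf, hd2, if_neg (by omega)]
  refine ⟨monic_of_natDegree_le_of_coeff_eq_one d hle hlead, ?_, ?_⟩
  · exact hd2.symm ▸ natDegree_eq_of_le_of_coeff_ne_zero hle (by rw [hlead]; exact one_ne_zero)
  · rw [coeff_upperHalf, hd2, if_pos (Nat.zero_le _), add_zero, ← eval_one_eq_mid hG hd]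
    exact h1

omit [Fintype F] in
theorem upperHalf_inj {G G' : F[X]} (hG : Recip G) (hG' : Recip G') (he : Even G.natDegree)
    (he' : Even G'.natDegree) (h1 : G.eval 1 ≠ 0) (h1' : G'.eval 1 ≠ 0) (h : upperHalf G = upperHalf G') :
    G = G' := by
  obtain ⟨-, e, -⟩ := upperHalf_spec hG he h1
  obtain ⟨-, e', -⟩ := upperHalf_spec hG' he' h1'
  rw [h, e'] at e
  obtain ⟨d, hd⟩ := he
  obtain ⟨d', hd'⟩ := he'
  obtain rfl : d' = d := by omega
  have hup : ∀ i ≤ d', G.coeff (d' + i) = G'.coeff (d' + i) := fun i hi => by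
    have h2 := congrArg (fun p : F[X] => p.coeff i) h
    simp only [coeff_upperHalf] at h2
    rw [show G.natDegree / 2 = d' by omega, show G'.natDegree / 2 = d' by omega, if_pos hi, if_pos hi] at h2
    exact h2
  ext j
  rcases Nat.lt_or_ge (d' + d') j with hj | hj
  · rw [coeff_eq_zero_of_natDegree_lt (by omega), coeff_eq_zero_of_natDegree_lt (by omega)]
  rcases Nat.lt_or_ge j d' with hj' | hj'
  · have e1 := hG.coeff_rev (i := d' + d' - j) (by omega)
    have e2 := hG'.coeff_rev (i := d' + d' - j) (by omega)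
    rw [hd, show d' + d' - (d' + d' - j) = j by omega, recip_coeff_zero hG, one_mul] at e1
    rw [hd', show d' + d' - (d' + d' - j) = j by omega, recip_coeff_zero hG', one_mul] at e2
    rw [e1, e2, show d' + d' - j = d' + (d' - j) by omega, hup _ (by omega)]
  · rw [show j = d' + (j - d') by omega, hup _ (by omega)]

/-! ### The data of a multiset of tokens -/

/-- The data of the unipotent tokens. -/
noncomputable def uDat (M : Multiset (Tok F)) (L : ℕ) : Dat :=
  (M.count (.uw (2 * L + 1) true) + M.count (.uw (2 * L + 1) false),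
    decide (0 < M.count (.uw (2 * L + 1) false)),
    M.count (.uw (2 * L + 2) true),
    M.count (.uv L true) + M.count (.uv L false),
    decide (0 < M.count (.uv L false)))

/-- The atom of a generic token of exponent `k`, else `1`. -/
noncomputable def genPart (k : ℕ) : Tok F → F[X]
  | .gen k' H => if k' = k then H else 1
  | _ => 1

/-- The product of the atoms of exponent `k`. -/
noncomputable def genProd (k : ℕ) (M : Multiset (Tok F)) : F[X] := (M.map (genPart k)).prod

omit [Fintype F] in
theorem genProd_spec {M : Multiset (Tok F)} (hM : ∀ t ∈ M, t.Valid) (k : ℕ) :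
    Recip (genProd k M) ∧ Even (genProd k M).natDegree ∧ (genProd k M).eval 1 ≠ 0 := by
  induction M using Multiset.induction_on with
  | empty => simp [genProd, Recip.one]
  | cons t M ih =>
    obtain ⟨h1, h2, h3⟩ := ih fun s hs => hM s (Multiset.mem_cons_of_mem hs)
    have ht : Recip (genPart k t) ∧ Even (genPart k t).natDegree ∧ (genPart k t).eval 1 ≠ 0 := by
      have hv := hM t (Multiset.mem_cons_self _ _)
      cases t with
      | gen k' H =>
        simp only [genPart]
        split_ifs
        · exact ⟨hv.2.1, genAtom_even hv.2.1 hv.2.2, hv.2.2.1.2.1⟩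
        · simp [Recip.one]
      | uv l p => simp [genPart, Recip.one]
      | uw k' p => simp [genPart, Recip.one]
    rw [genProd, Multiset.map_cons, Multiset.prod_cons]
    refine ⟨ht.1.mul h1, ?_, ?_⟩
    · show Even (genPart k t * genProd k M).natDegree
      rw [ht.1.monic.natDegree_mul h1.monic]; exact ht.2.1.add h2
    · rw [eval_mul]; exact mul_ne_zero ht.2.2 h3

theorem weight_split (n : ℕ) {M : Multiset (Tok F)} (hM : ∀ t ∈ M, t.Valid) (hle : ∀ t ∈ M, t.hw ≤ n) :
    ∑ L : Fin n, datW L (uDat M L) + ∑ k : Fin n, ((k : ℕ) + 1) * ((genProd ((k : ℕ) + 1) M).natDegree / 2) =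
      (M.map Tok.hw).sum := by
  induction M using Multiset.induction_on with
  | empty => simp [uDat, datW, genProd]
  | cons t M ih =>
    have hM' : ∀ s ∈ M, s.Valid := fun s hs => hM s (Multiset.mem_cons_of_mem hs)
    have hle' : ∀ s ∈ M, s.hw ≤ n := fun s hs => hle s (Multiset.mem_cons_of_mem hs)
    have hv := hM t (Multiset.mem_cons_self _ _)
    have hn := hle t (Multiset.mem_cons_self _ _)
    rw [Multiset.map_cons, Multiset.sum_cons, ← ih hM' hle']
    have hg : ∀ k, (genProd k (t ::ₘ M)).natDegree / 2 =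
        (genPart k t).natDegree / 2 + (genProd k M).natDegree / 2 := fun k => by
      obtain ⟨h1, ⟨b, hb⟩, -⟩ := genProd_spec hM' k
      have ht := genProd_spec (M := {t}) (by simpa using hv) k
      rw [genProd, Multiset.map_singleton, Multiset.prod_singleton] at ht
      obtain ⟨h2, ⟨a, ha⟩, -⟩ := ht
      rw [genProd, Multiset.map_cons, Multiset.prod_cons, ← genProd, h2.monic.natDegree_mul h1.monic]
      omega
    simp only [hg, mul_add, Finset.sum_add_distrib]
    cases t with
    | gen k H =>
      have e1 : ∀ L : Fin n, uDat (Tok.gen k H ::ₘ M) L = uDat M L := fun L => by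
        simp [uDat]
      have e2 : ∑ i : Fin n, ((i : ℕ) + 1) * ((genPart ((i : ℕ) + 1) (Tok.gen k H)).natDegree / 2) =
          Tok.hw (Tok.gen k H) := by
        have hk : k ≤ n := by
          obtain ⟨r, hr⟩ := genAtom_even hv.2.1 hv.2.2
          have h1 := hv.2.2.1.1
          have h2 : 1 ≤ H.natDegree / 2 := by omega
          have h3 : k ≤ k * (H.natDegree / 2) := Nat.le_mul_of_pos_right _ h2
          simp only [Tok.hw] at hn
          omega
        have hk1 := hv.1
        rw [Finset.sum_eq_single (⟨k - 1, by omega⟩ : Fin n)]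
        · simp only [genPart, Tok.hw]
          rw [show k - 1 + 1 = k by omega, if_pos rfl]
        · intro i _ hi
          simp only [genPart]
          rw [if_neg (fun e => hi (Fin.ext (by simp only; omega)))]
          simp
        · exact fun h => absurd (Finset.mem_univ _) h
      simp only [e1, e2]
      ring
    | uv l p =>
      simp only [genPart, natDegree_one, Nat.zero_div, mul_zero, Finset.sum_const_zero, zero_add]
      have e1 : ∀ L : Fin n, datW L (uDat (Tok.uv l p ::ₘ M) L) =
          datW L (uDat M L) + if (L : ℕ) = l then l + 1 else 0 := fun L => by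
        cases p <;> simp only [datW, uDat, Multiset.count_cons, Tok.uv.injEq, reduceCtorEq,
          Bool.false_eq_true, Bool.true_eq_false, and_true, and_false, if_false, add_zero] <;>
          split_ifs with h <;> first | (subst h; ring) | ring
      simp only [e1, Finset.sum_add_distrib, Tok.hw] at hn ⊢
      rw [Finset.sum_eq_single (⟨l, by omega⟩ : Fin n) (fun i _ hi => if_neg fun e => hi (Fin.ext e))
        (fun h => absurd (Finset.mem_univ _) h), if_pos rfl]
      ring
    | uw k p =>
      simp only [genPart, natDegree_one, Nat.zero_div, mul_zero, Finset.sum_const_zero, zero_add]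
      simp only [Tok.hw] at hn
      have hk1 := hv.1
      have hp : ∀ L, p = false → k ≠ 2 * L + 2 := fun L hp e => by
        obtain ⟨l, hl⟩ := hv.2 hp; omega
      have e1 : ∀ L : Fin n, datW L (uDat (Tok.uw k p ::ₘ M) L) =
          datW L (uDat M L) + if (L : ℕ) = (k - 1) / 2 then k else 0 := fun L => by
        simp only [datW, uDat, Multiset.count_cons, Tok.uw.injEq, reduceCtorEq, if_false, add_zero]
        have hp' := hp L
        by_cases h1 : k = 2 * (L : ℕ) + 1
        · rw [if_pos (show (L : ℕ) = (k - 1) / 2 by omega), if_neg (show ¬ (2 * (L : ℕ) + 2 = k ∧ true = p) by omega)]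
          subst h1
          cases p <;> simp <;> ring
        · by_cases h2 : k = 2 * (L : ℕ) + 2
          · rw [if_pos (show (L : ℕ) = (k - 1) / 2 by omega), if_neg (show ¬ (2 * (L : ℕ) + 1 = k ∧ true = p) by omega),
              if_neg (show ¬ (2 * (L : ℕ) + 1 = k ∧ false = p) by omega)]
            cases p
            · exact absurd h2 (hp' rfl)
            · subst h2; simp; ring
          · rw [if_neg (show ¬ (L : ℕ) = (k - 1) / 2 by omega), if_neg (show ¬ (2 * (L : ℕ) + 1 = k ∧ true = p) by omega),
              if_neg (show ¬ (2 * (L : ℕ) + 1 = k ∧ false = p) by omega),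
              if_neg (show ¬ (2 * (L : ℕ) + 2 = k ∧ true = p) by omega)]
            ring
      simp only [e1, Finset.sum_add_distrib, Tok.hw]
      rw [Finset.sum_eq_single (⟨(k - 1) / 2, by omega⟩ : Fin n) (fun i _ hi => if_neg fun e => hi (Fin.ext e))
        (fun h => absurd (Finset.mem_univ _) h), if_pos rfl]
      ring

omit [Fintype F] [CharP F 2] in
theorem levelOK {n : ℕ} {M : Multiset (Tok F)} (hM : Rules M) (hn : (M.map Tok.hw).sum ≤ n) (L : ℕ) :
    LevelOK n (uDat M) L := by
  have hcount : ∀ t : Tok F, M.count t * t.hw ≤ n := fun t => by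
    refine le_trans ?_ hn
    clear hn hM
    induction M using Multiset.induction_on with
    | empty => simp
    | cons a M ih =>
      rw [Multiset.count_cons, Multiset.map_cons, Multiset.sum_cons]
      split_ifs with h
      · subst h; rw [add_mul, one_mul]; omega
      · rw [add_zero]; omega
  refine ⟨?_, ?_, hM.v_le L, fun h => ?_, fun h => ?_⟩
  · show _ + _ ≤ n
    rcases Nat.eq_zero_or_pos L with rfl | hL
    · have h2 : M.count (Tok.uw (2 * 0 + 1) false : Tok F) = 0 := Multiset.count_eq_zero.2 fun h => by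
        obtain ⟨l, hl⟩ := (hM.valid _ h).2 rfl; omega
      have h1 := hcount (Tok.uw (2 * 0 + 1) true)
      simp only [Tok.hw] at h1
      omega
    · have h1 := hcount (Tok.uw (2 * L + 1) true)
      have h2 := hcount (Tok.uw (2 * L + 1) false)
      simp only [Tok.hw] at h1 h2
      have h3 : M.count (Tok.uw (2 * L + 1) true : Tok F) * 3 ≤ M.count (Tok.uw (2 * L + 1) true) * (2 * L + 1) :=
        Nat.mul_le_mul_left _ (by omega)
      have h4 : M.count (Tok.uw (2 * L + 1) false : Tok F) * 3 ≤ M.count (Tok.uw (2 * L + 1) false) * (2 * L + 1) :=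
        Nat.mul_le_mul_left _ (by omega)
      omega
  · show M.count _ ≤ n
    refine le_trans ?_ (hcount (Tok.uw (2 * L + 2) true))
    exact Nat.le_mul_of_pos_right _ (show 0 < 2 * L + 2 by omega)
  · simp only [uDat, decide_eq_true_eq] at h
    have hmem := Multiset.count_pos.1 h
    obtain ⟨l, hl⟩ := (hM.valid _ hmem).2 rfl
    obtain rfl : L = l + 1 := by omega
    refine ⟨show 1 ≤ _ + _ by omega, ?_⟩
    have hmem' : Tok.uw (2 * (l + 1) + 1) false ∈ M := hmem
    simp only [prevFlag, uDat]
    refine decide_eq_false ?_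
    rw [Multiset.count_eq_zero.2 (hM.w_mid l true hmem'), Multiset.count_eq_zero.2 (hM.w_mid l false hmem')]
    exact lt_irrefl 0
  · simp only [uDat, decide_eq_true_eq] at h
    have hmem := Multiset.count_pos.1 h
    obtain ⟨l, rfl⟩ : ∃ l, L = l + 1 := ⟨L - 1, by
      have := Nat.pos_of_ne_zero (fun e : L = 0 => Bool.false_ne_true (hM.valid _ hmem e)); omega⟩
    refine ⟨?_, show 0 < _ + _ by omega, ?_⟩
    · simp only [prevFlag, uDat]
      refine decide_eq_false ?_
      rw [Multiset.count_eq_zero.2 (hM.v_prev l true hmem), Multiset.count_eq_zero.2 (hM.v_prev l false hmem)]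
      exact lt_irrefl 0
    · simp only [uDat, Nat.add_eq_zero_iff, Multiset.count_eq_zero]
      exact ⟨hM.v_low (l + 1) true hmem, hM.v_low (l + 1) false hmem⟩

omit [Fintype F] [CharP F 2] in
theorem mult_genProd {M : Multiset (Tok F)} (hM : ∀ t ∈ M, t.Valid) {k : ℕ} {H P : F[X]}
    (hv : (Tok.gen k H).Valid) (hP : Irreducible P) (hPm : P.Monic) (hPd : P ∣ H) :
    mult P (genProd k M) = M.count (Tok.gen k H) * mult P H := by
  induction M using Multiset.induction_on with
  | empty => simp [genProd, mult]
  | cons t M ih =>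
    have ih' := ih fun s hs => hM s (Multiset.mem_cons_of_mem hs)
    have htv := hM t (Multiset.mem_cons_self _ _)
    have hne : ∀ s : Tok F, s.Valid → genPart k s ≠ 0 := fun s hs => by
      cases s with
      | gen k' H' => simp only [genPart]; split_ifs; exacts [hs.2.1.ne_zero, one_ne_zero]
      | uv l p => exact one_ne_zero
      | uw k' p => exact one_ne_zero
    rw [genProd, Multiset.map_cons, Multiset.prod_cons, mult_mul (hne t htv)
      (Multiset.prod_ne_zero (by
        simp only [Multiset.mem_map, not_exists, not_and]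
        exact fun s hs => hne s (hM s (Multiset.mem_cons_of_mem hs)))), ← genProd, ih']
    have hone : mult P (1 : F[X]) = 0 := mult_eq_zero fun h => hP.not_isUnit (isUnit_of_dvd_one h)
    cases t with
    | gen k' H' =>
      rw [Multiset.count_cons]
      simp only [genPart, Tok.gen.injEq]
      by_cases hk : k' = k
      · subst hk
        rw [if_pos rfl]
        by_cases hH : H = H'
        · subst hH; simp; ring
        · rw [if_neg (fun e => hH e.2), add_zero, mult_eq_zero fun hd => hH
            (atom_eq_of_dvd hv.2.1 htv.2.1 (Or.inl hv.2.2) (Or.inl htv.2.2) hP hPm hPd hd), zero_add]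
      · rw [if_neg hk, hone, zero_add, if_neg (fun e => hk e.1.symm), add_zero]
    | uv l p => simp [genPart, hone]
    | uw k' p => simp [genPart, hone]

theorem data_injective {n : ℕ} {M M' : Multiset (Tok F)} (hM : Rules M) (hM' : Rules M')
    (hn : ∀ t ∈ M, t.hw ≤ n) (hn' : ∀ t ∈ M', t.hw ≤ n)
    (hu : ∀ L : Fin n, uDat M L = uDat M' L)
    (hg : ∀ k : Fin n, upperHalf (genProd ((k : ℕ) + 1) M) = upperHalf (genProd ((k : ℕ) + 1) M')) : M = M' := by
  refine Multiset.ext.2 fun t => ?_
  by_cases hmem : t ∈ M ∨ t ∈ M'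
  swap
  · push Not at hmem
    rw [Multiset.count_eq_zero.2 hmem.1, Multiset.count_eq_zero.2 hmem.2]
  have hv : t.Valid ∧ t.hw ≤ n := hmem.elim (fun h => ⟨hM.valid t h, hn t h⟩) fun h => ⟨hM'.valid t h, hn' t h⟩
  cases t with
  | gen k H =>
    obtain ⟨⟨hk, hH, hat⟩, hkn⟩ := hv
    obtain ⟨r, hr⟩ := genAtom_even hH hat
    have h1 := hat.1.1
    have h3 : k ≤ k * (H.natDegree / 2) := Nat.le_mul_of_pos_right _ (by omega)
    simp only [Tok.hw] at hkn
    have hg' := hg ⟨k - 1, by omega⟩
    simp only [show k - 1 + 1 = k by omega] at hg'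
    obtain ⟨a1, a2, a3⟩ := genProd_spec hM.valid k
    obtain ⟨b1, b2, b3⟩ := genProd_spec hM'.valid k
    have he := upperHalf_inj a1 b1 a2 b2 a3 b3 hg'
    obtain ⟨P, hPm, hP, hPd⟩ := exists_monic_irreducible_factor H
      (fun hu => hat.1.1 (natDegree_eq_zero_of_isUnit hu))
    have e := mult_genProd hM.valid ⟨hk, hH, hat⟩ hP hPm hPd
    rw [he, mult_genProd hM'.valid ⟨hk, hH, hat⟩ hP hPm hPd] at e
    exact (Nat.eq_of_mul_eq_mul_right (mult_pos hP hPm hH.ne_zero hPd) e).symm
  | uv l p =>
    have hl : l < n := by have := hv.2; simp only [Tok.hw] at this; omega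
    have h := hu ⟨l, hl⟩
    simp only [uDat, Prod.mk.injEq, decide_eq_decide] at h
    have a := hM.v_neg l
    have b := hM'.v_neg l
    cases p <;> omega
  | uw k p =>
    obtain ⟨⟨hk, hp⟩, hkn⟩ := hv
    simp only [Tok.hw] at hkn
    obtain ⟨L, rfl | rfl⟩ := Nat.even_or_odd' k
    · obtain ⟨L, rfl⟩ : ∃ x, L = x + 1 := ⟨L - 1, by omega⟩
      have h := hu ⟨L, by omega⟩
      simp only [uDat, Prod.mk.injEq] at h
      cases p
      · obtain ⟨l, hl⟩ := hp rfl; omega
      · exact h.2.2.1
    · have h := hu ⟨L, by omega⟩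
      simp only [uDat, Prod.mk.injEq, decide_eq_decide] at h
      have a := hM.w_neg (2 * L + 1)
      have b := hM'.w_neg (2 * L + 1)
      cases p <;> omega

/-! ### The bound -/

/-- Admissible multisets of tokens of half dimension `n`. -/
def tokSet (F : Type*) [Field F] [Fintype F] [CharP F 2] (n : ℕ) : Set (Multiset (Tok F)) :=
  {M | Admissible M ∧ (M.map Tok.hw).sum = n}

theorem tokSet_card_le (n : ℕ) :
    (tokSet F n).Finite ∧ 5 * (tokSet F n).ncard ≤ 76 * Fintype.card F ^ n := by
  set q := Fintype.card F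
  let D0 : Finset (Fin n → Dat) := (datSet n n true ∪ datSet n n false).filter fun D => datWt D ≤ n
  let S : Finset ((_ : Fin n → Dat) × (Fin n → F[X])) :=
    D0.sigma fun D => GLClassCount.tupleSet (n - datWt D) n
  let f : Multiset (Tok F) → (_ : Fin n → Dat) × (Fin n → F[X]) := fun M =>
    ⟨fun L => uDat M L, fun k => upperHalf (genProd ((k : ℕ) + 1) M)⟩
  have hle : ∀ M ∈ tokSet F n, ∀ t ∈ M, t.hw ≤ n := fun M hM t ht =>
    hM.2 ▸ Multiset.le_sum_of_mem (Multiset.mem_map_of_mem _ ht)
  have hmaps : Set.MapsTo f (tokSet F n) S := by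
    intro M hM
    have hw := weight_split n hM.1.1.valid (hle M hM)
    rw [hM.2] at hw
    have hwt : datWt (fun L : Fin n => uDat M L) = ∑ L : Fin n, datW L (uDat M L) := rfl
    refine Finset.mem_sigma.2 ⟨Finset.mem_filter.2 ⟨?_, by rw [hwt]; omega⟩, ?_⟩
    · have := mem_datSet n (uDat M) n fun L _ => levelOK hM.1.1 (le_of_eq hM.2) L
      cases h : prevFlag (uDat M) n <;> rw [h] at this
      exacts [Finset.mem_union_right _ this, Finset.mem_union_left _ this]
    · refine GLClassCount.mem_tupleSet n _ _ (fun k => ?_) ?_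
      · obtain ⟨a, b, c⟩ := genProd_spec hM.1.1.valid ((k : ℕ) + 1)
        obtain ⟨h1, -, h3⟩ := upperHalf_spec a b c
        exact ⟨h1, h3⟩
      · rw [hwt]
        have he : ∀ k : Fin n, (upperHalf (genProd ((k : ℕ) + 1) M)).natDegree =
            (genProd ((k : ℕ) + 1) M).natDegree / 2 := fun k => by
          obtain ⟨a, b, c⟩ := genProd_spec hM.1.1.valid ((k : ℕ) + 1)
          exact (upperHalf_spec a b c).2.1
        simp only [f, he]
        omega
  have hinj : Set.InjOn f (tokSet F n) := fun M hM M' hM' e => by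
    simp only [f, Sigma.mk.injEq, heq_eq_eq] at e
    exact data_injective hM.1.1 hM'.1.1 (hle M hM) (hle M' hM') (fun L => congrFun e.1 L) (fun k => congrFun e.2 k)
  refine ⟨Set.Finite.of_injOn hmaps hinj S.finite_toSet, ?_⟩
  have h1 : (tokSet F n).ncard ≤ S.card := by
    rw [← Set.ncard_coe_finset]
    exact Set.ncard_le_ncard_of_injOn f hmaps hinj S.finite_toSet
  have hq : 2 ≤ q := Fintype.one_lt_card
  have h2 : (S.card : ℝ) ≤ (q : ℝ) ^ n * ∑ D ∈ D0, halfPow (datWt D) := by
    rw [Finset.card_sigma, Nat.cast_sum, Finset.mul_sum]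
    refine Finset.sum_le_sum fun D hD => ?_
    have hD' : datWt D ≤ n := (Finset.mem_filter.1 hD).2
    have h3 : ((GLClassCount.tupleSet (F := F) (n - datWt D) n).card : ℝ) ≤ (q : ℝ) ^ (n - datWt D) := by
      exact_mod_cast (GLClassCount.card_tupleSet_le n _).trans (GLClassCount.tupleCard_le Fintype.card_pos _ n)
    refine h3.trans ?_
    have hq0 : (0 : ℝ) < q := by exact_mod_cast (by omega : 0 < q)
    rw [pow_sub₀ _ hq0.ne' hD', halfPow]
    refine mul_le_mul_of_nonneg_left ?_ (by positivity)
    rw [← inv_pow, one_div]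
    exact pow_le_pow_left₀ (by positivity) (inv_anti₀ two_pos (by exact_mod_cast hq)) _
  have h4 : ∑ D ∈ D0, halfPow (datWt D) ≤ 76 / 5 := by
    refine (Finset.sum_le_sum_of_subset_of_nonneg (Finset.filter_subset _ _) fun _ _ _ => halfPow_nonneg _).trans ?_
    refine (sum_union_le' _ _ fun _ => halfPow_nonneg _).trans ?_
    have a := sum_datSet n n true
    have b := sum_datSet n n false
    simp only [if_true, Bool.false_eq_true, if_false] at a b
    linarith [genVal_le n]
  have h5 : (5 * (tokSet F n).ncard : ℕ) ≤ ((76 * q ^ n : ℕ) : ℝ) := by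
    push_cast
    have h6 : ((tokSet F n).ncard : ℝ) ≤ (S.card : ℝ) := by exact_mod_cast h1
    nlinarith [mul_le_mul_of_nonneg_left h4 (pow_nonneg (Nat.cast_nonneg q) n : (0 : ℝ) ≤ (q : ℝ) ^ n)]
  exact_mod_cast h5

end CfsgLib.IsometryClasses.Two
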