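import Cfsg.Agent.IsometryClasses.Two.Choice
import Cfsg.Agent.IsometryClasses.Split

/-!
# Every isometry of an alternating form has tokens obeying the rules
-/

set_option autoImplicit false
set_option linter.style.haveILetI false

namespace CfsgLib.IsometryClasses.Two

open Polynomial Module

universe v

variable {F : Type*} [Field F] [Fintype F] [CharP F 2]

open scoped Classical

omit [Fintype F] in
/-- A ternary form value can be prescribed. -/
theorem exists_quad [Finite F] (A C t w : F) (ht : t ≠ 0) : ∃ c d : F, c ^ 2 * A + d ^ 2 * C + c * d * t = w := by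
  haveI := Fintype.ofFinite F
  have hs : ∀ a : F, ∃ c, c ^ 2 = a := fun a => (bijective_frobenius F 2).2 a
  by_cases hA : A = 0
  · by_cases hC : C = 0
    · exact ⟨1, w / t, by rw [hA, hC]; field_simp; ring⟩
    · obtain ⟨d, hd⟩ := hs (w / C)
      exact ⟨0, d, by rw [hd]; field_simp; ring⟩
  · obtain ⟨c, hc⟩ := hs (w / A)
    exact ⟨c, 0, by rw [hc]; field_simp; ring⟩

/-- What the generators of earlier tokens provide: vectors killed by the modulus, orthogonal to the
new piece. -/
structure Gen {V : Type*} [AddCommGroup V] [Module F V] (B : LinearMap.BilinForm F V) (g : V ≃ₗ[F] V)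
    (k : ℕ) (P : Submodule F V) (y : V) : Prop where
  mem : y ∈ kill g (uMod F k)
  left : ∀ x ∈ P, ∀ i, tv B g i x y = 0 ∧ tv B g i y x = 0 ∧ sv B g i x y = 0

section Rules

variable {V : Type*} [AddCommGroup V] [Module F V] {B : LinearMap.BilinForm F V} {g : V ≃ₗ[F] V}
  {P : Submodule F V} {l k : ℕ}

omit [Fintype F] in
theorem tv_high {k : ℕ} {x : V} (hx : x ∈ kill g (uMod F k)) (y : V) {i : ℕ} (h : k ≤ 2 * i + 1) :
    tv B g i x y = 0 := by
  rw [← PhU_tU (k := k) hx, tU_sU_pow_eq_zero h, map_zero]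

omit [CharP F 2] [Fintype F] in
theorem tv_smul (i : ℕ) (x y : V) (c d : F) : tv B g i (c • x) (d • y) = c * d * tv B g i x y := by
  simp only [tv, map_smul, LinearMap.smul_apply, smul_eq_mul]; ring

omit [CharP F 2] [Fintype F] in
theorem tv_add (i : ℕ) (x y : V) :
    tv B g i (x + y) (x + y) = tv B g i x x + tv B g i x y + tv B g i y x + tv B g i y y := by
  simp only [tv, map_add, LinearMap.add_apply]; ring

theorem not_three {x y z : V} (hx : x ∈ P) (hxk : x ∈ kill g (uMod F (2 * (l + 1))))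
    (hy : Gen B g (2 * (l + 1)) P y) (hz : Gen B g (2 * (l + 1)) P z) (hyz : tv B g l y z = 0 ∧ tv B g l z y = 0)
    (h1 : tv B g l x x ≠ 0) (h2 : tv B g l y y ≠ 0) (h3 : tv B g l z z ≠ 0)
    (hbest : ∀ x ∈ kill g (uMod F (2 * (l + 1))), ∀ y ∈ kill g (uMod F (2 * (l + 1))),
      tv B g l x x = 0 → tv B g l y y = 0 → tv B g l x y = 0) : False := by
  obtain ⟨a, ha⟩ : ∃ a, a ^ 2 = tv B g l x x := (bijective_frobenius F 2).2 _
  obtain ⟨b, hb⟩ : ∃ b, b ^ 2 = tv B g l y y := (bijective_frobenius F 2).2 _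
  obtain ⟨c, hc⟩ : ∃ c, c ^ 2 = tv B g l z z := (bijective_frobenius F 2).2 _
  obtain ⟨xy, yx, -⟩ := hy.left x hx l
  obtain ⟨xz, zx, -⟩ := hz.left x hx l
  have h2' := (CharTwo.two_eq_zero (R := F))
  have e1 : tv B g l (b • x + a • y) (b • x + a • y) = 0 := by
    rw [tv_add, tv_smul, tv_smul, tv_smul, tv_smul, xy, yx, ← ha, ← hb]
    linear_combination (a ^ 2 * b ^ 2) * h2'
  have e2 : tv B g l (c • x + a • z) (c • x + a • z) = 0 := by
    rw [tv_add, tv_smul, tv_smul, tv_smul, tv_smul, xz, zx, ← ha, ← hc]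
    linear_combination (a ^ 2 * c ^ 2) * h2'
  have h := hbest _ (add_mem (Submodule.smul_mem _ _ hxk) (Submodule.smul_mem _ _ hy.mem))
    _ (add_mem (Submodule.smul_mem _ _ hxk) (Submodule.smul_mem _ _ hz.mem)) e1 e2
  have e3 : tv B g l (b • x + a • y) (c • x + a • z) = b * c * tv B g l x x := by
    have hxz : B (tEnd g ((sEnd g ^ l) x)) z = 0 := xz
    have hyx : B (tEnd g ((sEnd g ^ l) y)) x = 0 := yx
    have hyz' : B (tEnd g ((sEnd g ^ l) y)) z = 0 := hyz.1
    simp only [tv, map_add, map_smul, LinearMap.add_apply, LinearMap.smul_apply, smul_eq_mul, hxz, hyx, hyz']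
    ring
  rw [e3, mul_eq_zero, mul_eq_zero] at h
  rcases h with (h | h) | h
  · exact h2 (by rw [← hb, h, zero_pow two_ne_zero])
  · exact h3 (by rw [← hc, h, zero_pow two_ne_zero])
  · exact h1 h

omit [Fintype F] [CharP F 2] in
/-- A negative generator cannot be improved. -/
theorem neg_absurd {x y : V} (hx : x ∈ P) (hxk : x ∈ kill g (uMod F (2 * (l + 1))))
    (hy : Gen B g (2 * (l + 1)) P y) {p' t' : F}
    (hp : tv B g (l - 1) y y = p') (ht : tv B g l y y = t') (hne : tv B g l x x + t' ≠ 0)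
    (hAS : ASq ((tv B g (l - 1) x x + p') / (tv B g l x x + t')))
    (hbest : ∀ x ∈ kill g (uMod F (2 * (l + 1))), tv B g l x x ≠ 0 →
      ¬ (l = 0 ∨ ASq (tv B g (l - 1) x x / tv B g l x x))) : False := by
  obtain ⟨xy, yx, -⟩ := hy.left x hx l
  obtain ⟨xy', yx', -⟩ := hy.left x hx (l - 1)
  refine hbest (x + y) (add_mem hxk hy.mem) ?_ (Or.inr ?_)
  · rw [tv_add, xy, yx, add_zero, add_zero, ht]; exact hne
  · rw [tv_add (l - 1), tv_add l, xy, yx, xy', yx', add_zero, add_zero, add_zero, add_zero, ht, hp]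
    exact hAS

omit [Fintype F] [CharP F 2] in
theorem Gen.smul {y : V} (hy : Gen B g k P y) (c : F) : Gen B g k P (c • y) :=
  ⟨Submodule.smul_mem _ _ hy.mem, fun x hx i => by
    obtain ⟨h1, h2, h3⟩ := hy.left x hx i
    simp only [tv, sv] at h1 h2 h3 ⊢
    simp [h1, h2, h3]⟩

omit [Fintype F] [CharP F 2] in
theorem Gen.add {y z : V} (hy : Gen B g k P y) (hz : Gen B g k P z) : Gen B g k P (y + z) :=
  ⟨add_mem hy.mem hz.mem, fun x hx i => by
    obtain ⟨h1, h2, h3⟩ := hy.left x hx i
    obtain ⟨k1, k2, k3⟩ := hz.left x hx i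
    simp only [tv, sv] at h1 h2 h3 k1 k2 k3 ⊢
    simp [h1, h2, h3, k1, k2, k3]⟩

omit [Fintype F] in
theorem cross_sum {y z : V} (hE : IsAlt2 B g) {n : ℕ} (hy : y ∈ kill g (uMod F n))
    (hz : z ∈ kill g (uMod F n)) (i : ℕ) : tv B g i y z + tv B g i z y = sv B g (i + 1) y z := by
  rw [← PhU_tU (k := n) hy, ← PhU_tU (k := n) hz, ← PhU_sU (k := n) hy, PhU_swap hE hy hz, ← map_add,
    map_mul (sigU F n), map_pow, sig_sU, sig_tU]
  congr 1
  linear_combination (tU F n * sU F n ^ i) * two_eq_zero_U (F := F) (k := n)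

end Rules

/-- The rules on the tokens, and the facts about them. -/
def Admissible (M : Multiset (Tok F)) : Prop := Rules M ∧ ∀ t ∈ M, t.Good

set_option maxHeartbeats 800000 in
/-- **Every isometry has admissible tokens.** -/
theorem exists_toks : ∀ (n : ℕ) {V : Type v} [AddCommGroup V] [Module F V] [FiniteDimensional F V]
    (B : LinearMap.BilinForm F V) (g : V ≃ₗ[F] V), IsAlt2 B g → finrank F V = n →
    ∃ M : Multiset (Tok F), Admissible M ∧ HasToks B g M := by
  intro n
  induction n using Nat.strong_induction_on with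
  | _ n ih =>
  intro V _ _ _ B g hE hn
  rcases subsingleton_or_nontrivial V with hV | hV
  · refine ⟨0, ⟨⟨?_, ?_, ?_, ?_, ?_, ?_, ?_⟩, by simp⟩, Empty, inferInstance, fun i => i.elim, ⟨{
      recip := fun i => i.elim
      xs := fun i => i.elim, mem := fun i => i.elim, gram := fun i => i.elim
      orth := fun i => i.elim
      bij := ⟨fun a b _ => funext fun i => i.elim, fun v => ⟨fun i => i.elim, Subsingleton.elim _ _⟩⟩ }⟩, rfl⟩ <;>
      simp
  obtain ⟨H, hH, hdeg, hkind, hne⟩ := exists_atom g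
  obtain ⟨k, hk, hne', hnd, hstab⟩ := exists_atomData2 hE.eps hH hne
  -- the new token
  obtain ⟨t, htv, htg, ⟨hr, xs, hxs, hgram, hndS, hpos⟩, htbest, htk⟩ : ∃ t : Tok F, t.Valid ∧ t.Good ∧
      Realised B g t ∧ Best B g t ∧ (t = .gen k H ∨
        (H = X - C 1 ∧ ((∃ p, t = .uw k p) ∨ ∃ l p, k = 2 * (l + 1) ∧ t = .uv l p))) := by
    rcases hkind with hat | ⟨c, hc, rfl⟩
    · exact ⟨.gen k H, ⟨hk, hH, hat⟩, trivial, exists_gtok hE hH hat hk hne' hnd, trivial, Or.inl rfl⟩
    · obtain rfl : c = 1 := by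
        rcases mul_self_eq_one_iff.1 hc with h | h
        · exact h
        · rwa [CharTwo.neg_eq] at h
      obtain ⟨t, h1, h2, h3, h4, h5⟩ := exists_utok hE hk hne' hnd
      exact ⟨t, h1, h2, h3, h4, Or.inr ⟨rfl, h5⟩⟩
  set hm := hr.monic
  set P := pmap g hm xs with hPdef
  haveI : Finite (AdjoinRoot t.shape.f) := finite_adjoinRoot hm
  haveI := (AdjoinRoot.powerBasis' hm).finite
  have hzero : ∀ a, (∀ c, B (P a) (P c) = 0) → a = 0 := fun a ha => hndS a fun j c => by
    have h1 := ha (Pi.single j (sig hr c))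
    rw [hPdef, B_pmap hE.eps hr hxs hgram] at h1
    rw [← h1]
    refine Finset.sum_congr rfl fun i _ => ?_
    rw [Finset.sum_eq_single j (fun j' _ hj' => by rw [Pi.single_eq_of_ne hj', map_zero, mul_zero, map_zero])
      (fun hh => absurd (Finset.mem_univ j) hh), Pi.single_eq_same, sig_sig]
  let T : (Fin t.shape.m → AdjoinRoot t.shape.f) →ₗ[F]
      Module.Dual F (Fin t.shape.m → AdjoinRoot t.shape.f) := (B.compl₁₂ P P).flip
  have hT : Function.Injective T := by
    rw [injective_iff_map_eq_zero]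
    exact fun a ha => hzero a fun c => hE.eps.eq_zero_comm (LinearMap.congr_fun ha c)
  have hTs : Function.Surjective T :=
    (LinearMap.injective_iff_surjective_of_finrank_eq_finrank Subspace.dual_finrank_eq.symm).1 hT
  let R : Submodule F V :=
    { carrier := {v | ∀ a, B (P a) v = 0}
      zero_mem' := fun a => map_zero _
      add_mem' := fun {u w} hu hw a => by rw [map_add, hu a, hw a, add_zero]
      smul_mem' := fun c u hu a => by rw [map_smul, hu a, smul_zero] }
  have hsplit : ∀ v, ∃ a, v - P a ∈ R := fun v => by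
    obtain ⟨a, ha⟩ := hTs ((B.flip v) ∘ₗ P)
    refine ⟨a, fun c => ?_⟩
    rw [map_sub, sub_eq_zero]
    exact (LinearMap.congr_fun ha c).symm
  have hginv : ∀ r ∈ R, g r ∈ R := fun r hr' a => by
    have ha : P a = g (P fun j => rinv _ * a j) := by
      rw [hPdef, pmap_root hm hxs]
      exact congrArg P (funext fun j => by rw [← mul_assoc, root_mul_rinv hr.coeff_zero, one_mul])
    rw [ha, hE.eps.iso]
    exact hr' _
  let gR : R ≃ₗ[F] R := LinearEquiv.ofInjectiveEndo (g.toLinearMap.restrict hginv) fun a b e =>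
    Subtype.ext (g.injective (congrArg Subtype.val e))
  have hgRv : ∀ r : R, (gR r : V) = g r := fun r => rfl
  let BR : LinearMap.BilinForm F R := B.compl₁₂ R.subtype R.subtype
  have hER : IsAlt2 BR gR := by
    refine ⟨⟨fun x y => hE.eps.iso x y, fun x y => hE.eps.symm x y,
      fun x hx => Subtype.ext (hE.eps.nondeg _ fun v => ?_)⟩, fun x => hE.alt x⟩
    obtain ⟨a, ha⟩ := hsplit v
    rw [← sub_add_cancel v (P a), map_add]
    have h1 : B (x : V) (v - P a) = 0 := hx ⟨_, ha⟩
    rw [h1, hE.eps.eq_zero_comm (x.2 a), add_zero]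
  have hlt : finrank F R < n := by
    rw [← hn]
    refine Submodule.finrank_lt fun e => ?_
    have he0 : (fun _ => (1 : AdjoinRoot t.shape.f)) = (0 : Fin t.shape.m → AdjoinRoot t.shape.f) :=
      hzero _ fun c => hE.eps.eq_zero_comm ((e ▸ Submodule.mem_top : P (fun _ => 1) ∈ R) c)
    have h10 : (1 : AdjoinRoot t.shape.f) = 0 := congrFun he0 ⟨0, hpos⟩
    rw [← map_one (AdjoinRoot.mk t.shape.f), AdjoinRoot.mk_eq_zero] at h10
    have hd1 : t.shape.f.natDegree = 0 :=
      Nat.le_zero.1 (natDegree_one (R := F) ▸ natDegree_le_of_dvd h10 one_ne_zero)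
    have h2 := Tok.two_mul_hw htv
    rw [hd1, mul_zero] at h2
    have h3 : t.hw = 0 := by omega
    cases t with
    | gen k H =>
      obtain ⟨r, hr'⟩ := genAtom_even htv.2.1 htv.2.2
      rw [Tok.hw, hr', Nat.mul_eq_zero] at h3
      have := htv.2.2.1.1
      have := htv.1
      omega
    | uv l p => simp [Tok.hw] at h3
    | uw k p => exact htv.1 h3
  obtain ⟨M, ⟨hM, hMg⟩, ι, _, tok, ⟨N⟩, hNM⟩ := ih _ hlt BR gR hER rfl
  have hkI : ∀ i j, ((N.xs i j : R) : V) ∈ kill g (tok i).shape.f := fun i j =>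
    (psi_restrict hgRv (N.recip i).monic (N.mem i j)).1
  have hpm : ∀ i a, pmap g (N.recip i).monic (fun j => (N.xs i j : V)) a =
      ((pmap gR (N.recip i).monic (N.xs i) a : R) : V) := fun i a => by
    rw [pmap_apply, pmap_apply, Submodule.coe_sum]
    exact Finset.sum_congr rfl fun j _ => ((psi_restrict hgRv _ (N.mem i j)).2 _).symm
  have hphi : ∀ i j j', Phi B g (N.recip i).monic (N.xs i j : V) (N.xs i j' : V) =
      (tok i).shape.G j j' := fun i j j' => by
    rw [← N.gram i j j']
    refine LinearMap.ext fun a => ?_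
    rw [Phi_apply, Phi_apply, ← (psi_restrict hgRv _ (N.mem i j)).2]
    rfl
  -- the unipotent generators of the complement
  let PS : Submodule F V := LinearMap.range P
  have hxP : ∀ j, xs j ∈ PS := fun j =>
    ⟨Pi.single j 1, by rw [hPdef, pmap_single, psi_one hm (hxs j)]⟩
  have hRv : ∀ (r : R) (p : F[X]), aeval (endo g) p (r : V) ∈ R := fun r p => by
    rw [← aeval_restrict hgRv]; exact Submodule.coe_mem _
  have hgen : ∀ {k' : ℕ} (r : R), r ∈ kill gR (uMod F k') → (r : V) ∈ kill g (uMod F k') ∧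
      ∀ x ∈ PS, ∀ i, tv B g i x r = 0 ∧ tv B g i r x = 0 ∧ sv B g i x r = 0 := by
    intro k' r hr'
    obtain ⟨hrV, hrp⟩ := psi_restrict hgRv (recip_uMod k').monic hr'
    refine ⟨hrV, ?_⟩
    rintro x ⟨a, rfl⟩ i
    have hPg : ∀ b, ∃ c, g (P b) = P c := fun b => ⟨_, by rw [hPdef, pmap_root hm hxs]⟩
    have hPgs : ∀ b, ∃ c, g.symm (P b) = P c := fun b => ⟨fun j => rinv _ * b j, by
      rw [LinearEquiv.symm_apply_eq, hPdef, pmap_root hm hxs]
      exact congrArg P (funext fun j => by rw [← mul_assoc, root_mul_rinv hr.coeff_zero, one_mul])⟩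
    have hPs : ∀ i, ∃ c, (sEnd g ^ i) (P a) = P c := by
      intro i
      induction i with
      | zero => exact ⟨a, rfl⟩
      | succ i ih =>
        obtain ⟨c, hc⟩ := ih
        obtain ⟨c1, hc1⟩ := hPg c
        obtain ⟨c2, hc2⟩ := hPgs c
        refine ⟨c1 + c2, ?_⟩
        rw [pow_succ', Module.End.mul_apply, hc, sEnd, LinearMap.add_apply, map_add, ← hc1, ← hc2]
        rfl
    obtain ⟨c, hc⟩ := hPs i
    obtain ⟨c1, hc1⟩ := hPg c
    have e1 : tv B g i (P a) r = 0 := by
      rw [tv, hc, tEnd, LinearMap.add_apply, Module.End.one_apply]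
      show B (g (P c) + P c) _ = 0
      rw [hc1, map_add, LinearMap.add_apply, r.2 c1, r.2 c, add_zero]
    refine ⟨e1, ?_, by rw [sv, hc]; exact r.2 c⟩
    rw [← PhU_tU hrV, PhU, Phi_apply, ← hrp]
    exact hE.eps.eq_zero_comm (Subtype.coe_prop (psi gR (recip_uMod k').monic r (tU F k' * sU F k' ^ i)) a)
  have hMmem : ∀ {s : Tok F}, s ∈ M → ∃ i, tok i = s := fun hs => by
    rw [← hNM, Multiset.mem_map] at hs
    obtain ⟨i, -, hi⟩ := hs
    exact ⟨i, hi⟩
  have hPhiR : ∀ {f : F[X]} (hf : f.Monic) (r r' : R), r ∈ kill gR f →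
      Phi B g hf (r : V) (r' : V) = Phi BR gR hf r r' := fun hf r r' hr' => LinearMap.ext fun a => by
    rw [Phi_apply, Phi_apply, ← (psi_restrict hgRv hf hr').2]
    rfl
  have hGen : ∀ {k' : ℕ}, k' ≤ k → ∀ (r : R), r ∈ kill gR (uMod F k') → Gen B g k PS (r : V) :=
    fun hk' r hr' => ⟨kill_mono hk' (hgen r hr').1, (hgen r hr').2⟩
  have horth : ∀ {k' k'' : ℕ} {i j : ι} (r r' : R), i ≠ j → r ∈ kill gR (uMod F k') →
      r' ∈ kill gR (uMod F k'') → (∀ a, psi gR (recip_uMod k').monic r a ∈ N.space i) →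
      (∀ a, psi gR (recip_uMod k'').monic r' a ∈ N.space j) → ∀ e, tv B g e (r : V) r' = 0 := by
    intro k' k'' i j r r' hij hr' hr'' hs hs' e
    rw [← PhU_tU (hgen r hr').1, PhU, hPhiR _ r r' hr', Phi_apply]
    have h1 : r' ∈ N.space j := by
      have := hs' 1
      rwa [psi_one _ hr''] at this
    exact N.orth_space hij (hs _) h1
  -- facts about the unipotent tokens of the complement
  have hV : ∀ {l p i}, tok i = Tok.uv l p → ∃ r : R, r ∈ kill gR (uMod F (2 * (l + 1))) ∧
      (∀ a, psi gR (recip_uMod (2 * (l + 1))).monic r a ∈ N.space i) ∧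
      tv B g l (r : V) r ≠ 0 := by
    intro l p i hi
    have hG : (Tok.uv l p : Tok F).Good := hi ▸ hMg (tok i) (hNM ▸ Multiset.mem_map.2 ⟨i, Finset.mem_univ i, rfl⟩)
    obtain ⟨hr₁, ys, hys, hyg, hsp⟩ := N.get i (Tok.shape (.uv l p)) (by rw [hi])
    obtain ⟨r, hr', hs, hg'⟩ : ∃ r : R, r ∈ kill gR (uMod F (2 * (l + 1))) ∧
        (∀ a, psi gR (recip_uMod (2 * (l + 1))).monic r a ∈ N.space i) ∧
        Phi BR gR (recip_uMod (2 * (l + 1))).monic r r = vFun F l p :=
      ⟨ys (0 : Fin 1), hys _, hsp _, hyg (0 : Fin 1) (0 : Fin 1)⟩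
    refine ⟨r, hr', hs, ?_⟩
    rw [← PhU_tU (hgen r hr').1, PhU, hPhiR _ _ _ hr', hg']
    exact hG.2.1
  have hW : ∀ {k' p i}, tok i = Tok.uw k' p → k' ≠ 0 ∧ ∃ r r' : R, r ∈ kill gR (uMod F k') ∧
      r' ∈ kill gR (uMod F k') ∧ PhU B g k' (r : V) r' (tU F k' ^ (k' - 1)) = 1 := by
    intro k' p i hi
    have hv : (Tok.uw k' p : Tok F).Valid := hi ▸ hM.valid _ (hNM ▸ Multiset.mem_map.2 ⟨i, Finset.mem_univ i, rfl⟩)
    obtain ⟨hr₁, ys, hys, hyg, hsp⟩ := N.get i (Tok.shape (.uw k' p)) (by rw [hi])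
    obtain ⟨r, r', hr', hr'', hg'⟩ : ∃ r r' : R, r ∈ kill gR (uMod F k') ∧ r' ∈ kill gR (uMod F k') ∧
        Phi BR gR (recip_uMod k').monic r r' = deltaU F k' :=
      ⟨ys (0 : Fin 2), ys (1 : Fin 2), hys _, hys _, hyg (0 : Fin 2) (1 : Fin 2)⟩
    refine ⟨hv.1, r, r', hr', hr'', ?_⟩
    rw [PhU, hPhiR _ _ _ hr', hg']
    exact deltaU_top hv.1
  have hlev : H = X - C 1 → (∀ l p, Tok.uv l p ∈ M → 2 * (l + 1) ≤ k) ∧
      ∀ k' p, Tok.uw k' p ∈ M → k' ≤ k := by
    intro hH1
    subst hH1
    have key : ∀ (k' : ℕ), k' ≠ 0 → ∀ y : V, y ∈ kill g (uMod F k') → ∀ z : V,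
        PhU B g k' y z (tU F k' ^ (k' - 1)) ≠ 0 → k' ≤ k := by
      intro k' hk' y hy z h
      by_contra hlt
      refine h ?_
      rw [PhU, Phi_apply, ← mk_uLin, ← map_pow, psi_mk _ hy,
        LinearMap.mem_ker.1 (kill_mono (k' := k' - 1) (by omega) (hstab k' y hy)), map_zero,
        LinearMap.zero_apply]
    constructor
    · intro l p hs
      obtain ⟨i, hi⟩ := hMmem hs
      obtain ⟨r, hr', -, hne⟩ := hV hi
      refine key _ (by omega) _ (hgen r hr').1 r ?_
      rwa [tU_pow_top_even, PhU_tU (hgen r hr').1]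
    · intro k' p hs
      obtain ⟨i, hi⟩ := hMmem hs
      obtain ⟨hk', r, r', hr', -, hne⟩ := hW hi
      exact key _ hk' _ (hgen r hr').1 r' (by rw [hne]; exact one_ne_zero)
  -- prescribed values on generators of the complement
  have hquad : ∀ l p i, tok i = Tok.uw (2 * l + 3) p → 2 * l + 3 ≤ k → ∀ w : F,
      ∃ z : V, Gen B g k PS z ∧ tv B g l z z = w ∧ tv B g (l + 1) z z = 0 := by
    intro l p i hi hle w
    obtain ⟨hk', r, r', hr', hr'', h1⟩ := hW hi
    obtain ⟨c, d, hcd⟩ := exists_quad (tv B g l (r : V) r) (tv B g l (r' : V) r') 1 w one_ne_zero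
    have hmem : c • r + d • r' ∈ kill gR (uMod F (2 * l + 3)) :=
      add_mem (Submodule.smul_mem _ _ hr') (Submodule.smul_mem _ _ hr'')
    refine ⟨((c • r + d • r' : R) : V), hGen hle _ hmem, ?_, tv_high (hgen _ hmem).1 _ (by omega)⟩
    have hs : tv B g l (r : V) r' + tv B g l (r' : V) r = 1 := by
      rw [cross_sum hE (hgen r hr').1 (hgen r' hr'').1, ← h1, ← PhU_sU (hgen r hr').1]
      exact congrArg _ (tU_pow_top_odd (l := l + 1)).symm
    rw [Submodule.coe_add, Submodule.coe_smul, Submodule.coe_smul, tv_add, tv_smul, tv_smul, tv_smul, tv_smul]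
    linear_combination hcd + c * d * hs
  have hscaled : ∀ l p i, tok i = Tok.uv l p → 2 * (l + 1) ≤ k → ∀ w : F,
      ∃ z : V, Gen B g k PS z ∧ tv B g l z z = w ∧ tv B g (l + 1) z z = 0 := by
    intro l p i hi hle w
    obtain ⟨r, hr', -, hne⟩ := hV hi
    obtain ⟨c, hc⟩ : ∃ c, c ^ 2 = w / tv B g l (r : V) r := (bijective_frobenius F 2).2 _
    have hmem : c • r ∈ kill gR (uMod F (2 * (l + 1))) := Submodule.smul_mem _ _ hr'
    refine ⟨((c • r : R) : V), hGen hle _ hmem, ?_, tv_high (hgen _ hmem).1 _ (by omega)⟩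
    rw [Submodule.coe_smul, tv_smul, ← sq, hc]
    field_simp
  have hshift : ∀ l p i, tok i = Tok.uv (l + 1) p → 2 * (l + 2) ≤ k → ∀ w : F,
      ∃ z : V, Gen B g k PS z ∧ tv B g l z z = w ∧ tv B g (l + 1) z z = 0 := by
    intro l p i hi hle w
    obtain ⟨r, hr', -, hne⟩ := hV hi
    obtain ⟨c, hc⟩ : ∃ c, c ^ 2 = w / tv B g (l + 1) (r : V) r := (bijective_frobenius F 2).2 _
    set r₁ := psi gR (recip_uMod (2 * (l + 1 + 1))).monic r (tU F _) with hr₁
    have hr₁k : r₁ ∈ kill gR (uMod F (2 * (l + 1 + 1))) := psi_mem _ hr' _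
    have hval : ∀ e, tv B g e (r₁ : V) r₁ = PhU B g (2 * (l + 1 + 1)) (r : V) r (tU F _ * sU F _ ^ (e + 1)) := by
      intro e
      obtain ⟨hrV, hrp⟩ := psi_restrict hgRv (recip_uMod (2 * (l + 1 + 1))).monic hr'
      rw [← PhU_tU (hgen _ hr₁k).1, hr₁, hrp, PhU, Phi_psi hE.eps (recip_uMod _) hrV hrV]
      congr 1
      change _ * nmU (tU F (2 * (l + 1 + 1))) = _
      rw [nmU_tU, pow_succ]
      ring
    have hmem : c • r₁ ∈ kill gR (uMod F (2 * (l + 1 + 1))) := Submodule.smul_mem _ _ hr₁k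
    refine ⟨((c • r₁ : R) : V), hGen hle _ hmem, ?_, ?_⟩
    · rw [Submodule.coe_smul, tv_smul, hval, PhU_tU (hgen r hr').1, ← sq, hc]
      field_simp
    · rw [Submodule.coe_smul, tv_smul, hval, tU_sU_pow_eq_zero (j := l + 1 + 1) (by omega), map_zero, mul_zero]
  -- the rules for the new token
  have hrules : Rules (t ::ₘ M) := by
    have hval : ∀ s ∈ t ::ₘ M, s.Valid := fun s hs => by
      rcases Multiset.mem_cons.1 hs with rfl | hs
      exacts [htv, hM.valid _ hs]
    rcases htk with rfl | ⟨hH1, ⟨p, rfl⟩ | ⟨l, p, hkl, rfl⟩⟩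
    · refine ⟨hval, fun l => ?_, fun l => ?_, fun l p h h' => ?_, fun l p h h' => ?_, fun k' => ?_,
        fun l p h h' => ?_⟩
      · rw [Multiset.count_cons_of_ne (by simp), Multiset.count_cons_of_ne (by simp)]; exact hM.v_le l
      · rw [Multiset.count_cons_of_ne (by simp)]; exact hM.v_neg l
      · simp only [Multiset.mem_cons, reduceCtorEq, false_or] at h h'; exact hM.v_prev l p h h'
      · simp only [Multiset.mem_cons, reduceCtorEq, false_or] at h h'; exact hM.v_low l p h h'
      · rw [Multiset.count_cons_of_ne (by simp)]; exact hM.w_neg k'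
      · simp only [Multiset.mem_cons, reduceCtorEq, false_or] at h h'; exact hM.w_mid l p h h'
    · -- a new pair
      obtain ⟨hlv, hlw⟩ := hlev hH1
      have hxk : xs (0 : Fin 2) ∈ kill g (uMod F k) := hxs (0 : Fin 2)
      have hyk : xs (1 : Fin 2) ∈ kill g (uMod F k) := hxs (1 : Fin 2)
      have hcross : PhU B g k (xs (0 : Fin 2)) (xs (1 : Fin 2)) (tU F k ^ (k - 1)) = 1 :=
        (LinearMap.congr_fun (hgram (0 : Fin 2) (1 : Fin 2)) _).trans (deltaU_top htv.1)
      have hno : p = false → ∀ l, k = 2 * (l + 1) + 1 →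
          (∀ w, ∃ z : V, Gen B g k PS z ∧ tv B g l z z = w ∧ tv B g (l + 1) z z = 0) → False := by
        intro hp l hkl hz
        obtain ⟨z, hz, hzw, -⟩ := hz (tv B g l (xs (1 : Fin 2)) (xs (1 : Fin 2)))
        obtain ⟨yz, zy, -⟩ := hz.left _ (hxP (1 : Fin 2)) l
        obtain ⟨-, -, sxz⟩ := hz.left _ (hxP (0 : Fin 2)) (l + 1)
        subst hkl
        refine htbest hp l rfl _ hxk (xs (1 : Fin 2) + (1 : F) • z) (add_mem hyk (Submodule.smul_mem _ _ hz.mem)) ?_ ?_
        · rw [sv_add_smul_right, sxz, mul_zero, add_zero, ← PhU_sU hxk, ← tU_pow_top_odd, hcross]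
          exact one_ne_zero
        · rw [tv_add_smul, yz, zy, hzw]
          linear_combination (tv B g l (xs (1 : Fin 2)) (xs (1 : Fin 2))) * (CharTwo.two_eq_zero (R := F))
      refine ⟨hval, fun l => ?_, fun l => ?_, fun l p' h h' => ?_, fun l p' h h' => ?_, fun k' => ?_,
        fun l p' h h' => ?_⟩
      · rw [Multiset.count_cons_of_ne (by simp), Multiset.count_cons_of_ne (by simp)]; exact hM.v_le l
      · rw [Multiset.count_cons_of_ne (by simp)]; exact hM.v_neg l
      · simp only [Multiset.mem_cons, reduceCtorEq, false_or] at h h'; exact hM.v_prev l p' h h'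
      · simp only [Multiset.mem_cons, reduceCtorEq, false_or] at h
        rcases Multiset.mem_cons.1 h' with h' | h'
        · have := hlv l false h
          simp only [Tok.uw.injEq] at h'
          omega
        · exact hM.v_low l p' h h'
      · rw [Multiset.count_cons]
        split_ifs with e
        · simp only [Tok.uw.injEq] at e
          obtain ⟨rfl, rfl⟩ := e
          obtain ⟨l, hl⟩ := htv.2 rfl
          suffices h : M.count (Tok.uw k' false) = 0 by omega
          refine Multiset.count_eq_zero.2 fun hmem => hno rfl l hl ?_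
          obtain ⟨i, hi⟩ := hMmem hmem
          exact hquad l false i (hi.trans (by rw [show k' = 2 * l + 3 by omega])) (by omega)
        · simpa using hM.w_neg k'
      · simp only [Multiset.mem_cons, reduceCtorEq, false_or] at h'
        rcases Multiset.mem_cons.1 h with h | h
        · simp only [Tok.uw.injEq] at h
          obtain ⟨h1, h2⟩ := h
          refine hno h2.symm l h1.symm ?_
          obtain ⟨i, hi⟩ := hMmem h'
          exact hscaled l p' i hi (by omega)
        · exact hM.w_mid l p' h h'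
    · -- a new single generator
      obtain ⟨hlv, hlw⟩ := hlev hH1
      subst hkl
      have hxk : xs (0 : Fin 1) ∈ kill g (uMod F (2 * (l + 1))) := hxs (0 : Fin 1)
      have hxt : tv B g l (xs (0 : Fin 1)) (xs (0 : Fin 1)) ≠ 0 := by
        rw [← PhU_tU hxk]
        exact (LinearMap.congr_fun (hgram (0 : Fin 1) (0 : Fin 1)) _).trans_ne htg.2.1
      have hno : p = false → ∀ l', l = l' + 1 →
          (∀ w, ∃ z : V, Gen B g (2 * (l + 1)) PS z ∧ tv B g l' z z = w ∧ tv B g (l' + 1) z z = 0) → False := by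
        intro hp l' hl' hz
        subst hl'
        obtain ⟨z, hz, hzw, hz0⟩ := hz (tv B g l' (xs (0 : Fin 1)) (xs (0 : Fin 1)))
        refine neg_absurd (hxP (0 : Fin 1)) hxk hz (p' := tv B g l' (xs (0 : Fin 1)) (xs (0 : Fin 1))) (t' := 0)
          (by rw [Nat.add_sub_cancel]; exact hzw) hz0 (by rwa [add_zero]) ⟨0, ?_⟩ (htbest.2 hp)
        rw [Nat.add_sub_cancel, CharTwo.add_self_eq_zero, zero_div]
        ring
      have htwo : M.count (Tok.uv l true) + M.count (Tok.uv l false) ≤ 1 := by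
        by_contra hc
        have hcard : M.count (Tok.uv l true) + M.count (Tok.uv l false) =
            (Finset.univ.filter fun i => tok i = Tok.uv l true ∨ tok i = Tok.uv l false).card := by
          rw [Finset.filter_or, Finset.card_union_of_disjoint (Finset.disjoint_filter.2 fun i _ h1 h2 => by
            rw [h1] at h2; simp at h2), ← hNM, Multiset.count_map, Multiset.count_map]
          simp only [eq_comm (a := Tok.uv l _)]
          rfl
        obtain ⟨i, hi, j, hj, hij⟩ := Finset.one_lt_card.1 (show 1 < (Finset.univ.filter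
          fun i => tok i = Tok.uv l true ∨ tok i = Tok.uv l false).card by omega)
        obtain ⟨q, hq⟩ : ∃ q, tok i = Tok.uv l q := (Finset.mem_filter.1 hi).2.elim (⟨_, ·⟩) (⟨_, ·⟩)
        obtain ⟨q', hq'⟩ : ∃ q, tok j = Tok.uv l q := (Finset.mem_filter.1 hj).2.elim (⟨_, ·⟩) (⟨_, ·⟩)
        obtain ⟨r, hr', hs, hne⟩ := hV hq
        obtain ⟨r', hr'', hs', hne'⟩ := hV hq'
        exact not_three (hxP (0 : Fin 1)) hxk (hGen le_rfl r hr') (hGen le_rfl r' hr'')
          ⟨horth r r' hij hr' hr'' hs hs' l, horth r' r hij.symm hr'' hr' hs' hs l⟩ hxt hne hne' htbest.1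
      refine ⟨hval, fun l' => ?_, fun l' => ?_, fun l' p' h h' => ?_, fun l' p' h h' => ?_, fun k' => ?_,
        fun l' p' h h' => ?_⟩
      · rw [Multiset.count_cons, Multiset.count_cons]
        have := hM.v_le l'
        split_ifs with e1 e2 e2
        all_goals simp only [Tok.uv.injEq] at *
        · obtain ⟨rfl, rfl⟩ := e1; simp at e2
        · obtain ⟨rfl, -⟩ := e1; omega
        · obtain ⟨rfl, -⟩ := e2; omega
        · omega
      · rw [Multiset.count_cons]
        split_ifs with e
        · simp only [Tok.uv.injEq] at e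
          obtain ⟨rfl, rfl⟩ := e
          obtain ⟨l'', rfl⟩ : ∃ x, l' = x + 1 := ⟨l' - 1, by
            have := Nat.pos_of_ne_zero (fun h : l' = 0 => Bool.false_ne_true (htv h)); omega⟩
          suffices h : M.count (Tok.uv (l'' + 1) false) = 0 by omega
          refine Multiset.count_eq_zero.2 fun hmem => hno rfl l'' rfl ?_
          obtain ⟨i, hi⟩ := hMmem hmem
          exact hshift l'' false i hi le_rfl
        · simpa using hM.v_neg l'
      · rcases Multiset.mem_cons.1 h with h | h
        · simp only [Tok.uv.injEq] at h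
          obtain ⟨h1, rfl⟩ := h
          rcases Multiset.mem_cons.1 h' with h' | h'
          · simp only [Tok.uv.injEq] at h'; omega
          · refine hno rfl l' h1.symm ?_
            obtain ⟨i, hi⟩ := hMmem h'
            exact hscaled l' p' i hi (by omega)
        · rcases Multiset.mem_cons.1 h' with h' | h'
          · have := hlv _ _ h
            simp only [Tok.uv.injEq] at h'
            omega
          · exact hM.v_prev l' p' h h'
      · simp only [Multiset.mem_cons, reduceCtorEq, false_or] at h'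
        rcases Multiset.mem_cons.1 h with h | h
        · simp only [Tok.uv.injEq] at h
          obtain ⟨rfl, rfl⟩ := h
          obtain ⟨l'', rfl⟩ : ∃ x, l' = x + 1 := ⟨l' - 1, by
            have := Nat.pos_of_ne_zero (fun h : l' = 0 => Bool.false_ne_true (htv h)); omega⟩
          refine hno rfl l'' rfl ?_
          obtain ⟨i, hi⟩ := hMmem h'
          exact hquad l'' p' i hi (by omega)
        · exact hM.v_low l' p' h h'
      · rw [Multiset.count_cons_of_ne (by simp)]; exact hM.w_neg k'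
      · simp only [Multiset.mem_cons, reduceCtorEq, false_or] at h
        rcases Multiset.mem_cons.1 h' with h' | h'
        · have := hlw _ _ h
          simp only [Tok.uv.injEq] at h'
          omega
        · exact hM.w_mid l' p' h h'
  refine ⟨t ::ₘ M, ⟨hrules, fun s hs => ?_⟩, Option ι, inferInstance, fun o => o.elim t tok, ⟨{
    recip := fun o => by cases o with
      | none => exact hr
      | some i => exact N.recip i
    xs := fun o => Option.rec (motive := fun o => Fin (Tok.shape (o.elim t tok)).m → V) xs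
      (fun i j => (N.xs i j : V)) o
    mem := fun o => by cases o with
      | none => exact hxs
      | some i => exact hkI i
    gram := fun o j j' => by cases o with
      | none => exact hgram j j'
      | some i => exact hphi i j j'
    orth := fun o o' hne a b => by
      rcases o with _ | i <;> rcases o' with _ | j
      · exact absurd rfl hne
      · show B (P a) (pmap g (N.recip j).monic (fun l => (N.xs j l : V)) b) = 0
        exact (congrArg (B (P a)) (hpm j b)).trans ((pmap gR _ _ b).2 a)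
      · show B (pmap g (N.recip i).monic (fun l => (N.xs i l : V)) a) (P b) = 0
        exact (congrArg (fun z => B z (P b)) (hpm i a)).trans (hE.eps.eq_zero_comm ((pmap gR _ _ a).2 b))
      · show B (pmap g (N.recip i).monic (fun l => (N.xs i l : V)) a)
          (pmap g (N.recip j).monic (fun l => (N.xs j l : V)) b) = 0
        exact (congrArg₂ (fun z w => B z w) (hpm i a) (hpm j b)).trans
          (N.orth i j (fun e => hne (congrArg some e)) a b)
    bij := ?_ }⟩, ?_⟩
  · rcases Multiset.mem_cons.1 hs with rfl | hs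
    exacts [htg, hMg _ hs]
  swap
  · rw [← hNM]
    show Multiset.map _ (none ::ₘ Multiset.map some Finset.univ.val) = _
    rw [Multiset.map_cons, Multiset.map_map]
    rfl
  let sh' : Option ι → Shape F := fun o => (o.elim t tok).shape
  let sp : (∀ o, Fin (sh' o).m → AdjoinRoot (sh' o).f) →
      (Fin t.shape.m → AdjoinRoot t.shape.f) × (∀ i, Fin (tok i).shape.m → AdjoinRoot (tok i).shape.f) :=
    fun a => (a none, fun i => a (some i))
  have e1 : ∀ ar : ∀ i, Fin (tok i).shape.m → AdjoinRoot (tok i).shape.f, ((N.equiv ar : R) : V) =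
      ∑ i, pmap g (N.recip i).monic (fun j => (N.xs i j : V)) (ar i) := fun ar => by
    rw [N.equiv_apply, Submodule.coe_sum]
    exact Finset.sum_congr rfl fun i _ => (hpm i _).symm
  have hrec : ∀ o, Recip (sh' o).f := fun o => by cases o with
    | none => exact hr
    | some i => exact N.recip i
  let ys' : ∀ o, Fin (sh' o).m → V :=
    Option.rec (motive := fun o => Fin (sh' o).m → V) xs (fun i j => (N.xs i j : V))
  have hform : ∀ a : (∀ o, Fin (sh' o).m → AdjoinRoot (sh' o).f),
      ∑ o, pmap g (hrec o).monic (ys' o) (a o) = P (sp a).1 + ((N.equiv (sp a).2 : R) : V) := by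
    intro a
    rw [Fintype.sum_option, e1]
    rfl
  constructor
  · intro a b e
    have e' : P (sp a).1 + ((N.equiv (sp a).2 : R) : V) = P (sp b).1 + ((N.equiv (sp b).2 : R) : V) :=
      (hform a).symm.trans (e.trans (hform b))
    have hd : P ((sp a).1 - (sp b).1) = ((N.equiv (sp b).2 - N.equiv (sp a).2 : R) : V) := by
      rw [map_sub, Submodule.coe_sub, sub_eq_sub_iff_add_eq_add, e']; abel
    have h0 : (sp a).1 = (sp b).1 := sub_eq_zero.1 (hzero _ fun c => hE.eps.eq_zero_comm (by
      rw [hd]; exact (N.equiv (sp b).2 - N.equiv (sp a).2).2 c))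
    have h1 : (sp a).2 = (sp b).2 := N.equiv.injective (Subtype.ext (by
      rw [h0] at e'; exact add_left_cancel e'))
    funext o
    cases o with
    | none => exact h0
    | some i => exact congrFun h1 i
  · intro v
    obtain ⟨a0, ha0⟩ := hsplit v
    obtain ⟨ar, har⟩ := N.equiv.surjective ⟨_, ha0⟩
    refine ⟨fun o => match o with
      | none => a0
      | some i => ar i, (hform _).trans ?_⟩
    show P a0 + ((N.equiv ar : R) : V) = v
    rw [har]
    exact add_sub_cancel _ _

end CfsgLib.IsometryClasses.Two
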