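import Cfsg.Agent.IsometryClasses.Two.Unip

/-!
# Normal pieces at the unipotent atom in characteristic two
-/

set_option autoImplicit false
set_option linter.style.haveILetI false

namespace CfsgLib.IsometryClasses.Two

open Polynomial Module

variable {F : Type*} [Field F] [Fintype F] [CharP F 2] {k l : ℕ}

/-- The elements `μ ^ 2 + μ`. -/
def ASq (x : F) : Prop := ∃ β, β ^ 2 + β = x

omit [Fintype F] in
theorem asq_add {x y : F} (hx : ASq x) (hy : ASq y) : ASq (x + y) := by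
  obtain ⟨a, rfl⟩ := hx
  obtain ⟨b, rfl⟩ := hy
  exact ⟨a + b, by linear_combination (a * b) * (CharTwo.two_eq_zero (R := F))⟩

omit [Fintype F] in
theorem asq_iff (x : F) : ASq x ↔ x ∈ (OrthoCharTwo.artinSchreierHom F).range := Iff.rfl

theorem asq_add_iff {x y : F} : ASq (x + y) ↔ (ASq x ↔ ASq y) :=
  AddSubgroup.add_mem_iff_of_index_two OrthoCharTwo.artinSchreierHom_range_index

theorem exists_not_asq : ∃ x : F, ¬ ASq x := by
  obtain ⟨x, hx⟩ := OrthoCharTwo.exists_psi_ne_one (F := F)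
  refine ⟨x, fun h => ?_⟩
  unfold OrthoCharTwo.psi at hx
  rw [if_pos ((asq_iff x).1 h)] at hx
  norm_num at hx

/-- A fixed element which is not of the form `μ ^ 2 + μ`. -/
noncomputable def omega0 (F : Type*) [Field F] : F := Classical.epsilon fun x => ¬ ASq x

theorem not_asq_omega0 : ¬ ASq (omega0 F) := Classical.epsilon_spec (exists_not_asq (F := F))

/-! ### Diagonal functionals -/

/-- Functionals which vanish on the algebra generated by `s`. -/
def IsDiag (φ : UA F k →ₗ[F] F) : Prop := ∀ a ∈ Rs F k, φ a = 0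

omit [Fintype F] [CharP F 2] in
theorem isDiag_of_pow {φ : UA F k →ₗ[F] F} (h : ∀ j, φ (sU F k ^ j) = 0) : IsDiag φ := by
  intro a ha
  obtain ⟨p, rfl⟩ := mem_Rs.1 ha
  clear ha
  induction p using Polynomial.induction_on' with
  | add p q hp hq => rw [map_add, map_add, hp, hq, add_zero]
  | monomial n c => rw [aeval_monomial, ← Algebra.smul_def, map_smul, h, smul_zero]

omit [Fintype F] [CharP F 2] in
theorem eq_zero_high {φ : UA F k →ₗ[F] F} {E : ℕ} (h : ∀ e, E ≤ e → φ (tU F k * sU F k ^ e) = 0)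
    {e : ℕ} (he : E ≤ e) {x : UA F k} (hx : x ∈ Rs F k) : φ (tU F k * sU F k ^ e * x) = 0 := by
  obtain ⟨p, rfl⟩ := mem_Rs.1 hx
  clear hx
  induction p using Polynomial.induction_on' with
  | add p q hp hq => rw [map_add, mul_add, map_add, hp, hq, add_zero]
  | monomial n c =>
    rw [aeval_monomial, ← Algebra.smul_def, mul_smul_comm, map_smul, mul_assoc, ← pow_add,
      h _ (Nat.le_add_right_of_le he), smul_zero]

omit [Fintype F] in
theorem IsDiag.ext {φ ψ : UA F k →ₗ[F] F} (hφ : IsDiag φ) (hψ : IsDiag ψ)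
    (h : ∀ i, 2 * i + 1 < k → φ (tU F k * sU F k ^ i) = ψ (tU F k * sU F k ^ i)) : φ = ψ := by
  refine LinearMap.ext fun a => ?_
  obtain ⟨P, hP, Q, hQ, rfl⟩ := exists_split a
  rw [map_add, map_add, hφ P hP, hψ P hP, zero_add, zero_add]
  obtain ⟨p, rfl⟩ := mem_Rs.1 hQ
  induction p using Polynomial.induction_on' with
  | add p q hp hq => rw [map_add, add_mul, map_add, map_add, hp (mem_Rs.2 ⟨p, rfl⟩), hq (mem_Rs.2 ⟨q, rfl⟩)]
  | monomial n c =>
    rw [aeval_monomial, ← Algebra.smul_def, smul_mul_assoc, map_smul, map_smul, mul_comm]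
    by_cases hn : 2 * n + 1 < k
    · rw [h n hn]
    · rw [tU_sU_pow_eq_zero (not_lt.1 hn), map_zero, map_zero]

omit [Fintype F] in
theorem IsDiag.sig {φ : UA F k →ₗ[F] F} (hφ : IsDiag φ) (a : UA F k) : φ (sigU F k a) = φ a := by
  obtain ⟨P, hP, Q, hQ, rfl⟩ := exists_split a
  rw [map_add (sigU F k), map_mul (sigU F k), sig_Rs hP, sig_Rs hQ, sig_tU, mul_add, ← add_assoc,
    map_add, hφ _ (mul_mem hQ sU_mem), add_zero]

omit [Fintype F] in
theorem IsDiag.top_odd {φ : UA F (2 * l + 1) →ₗ[F] F} (hφ : IsDiag φ) :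
    φ (tU F (2 * l + 1) ^ (2 * l + 1 - 1)) = 0 := by
  rw [tU_pow_top_odd]; exact hφ _ (sU_pow_mem l)

omit [Fintype F] in
theorem sig_top_U (hk : k ≠ 0) : sigU F k (tU F k ^ (k - 1)) = tU F k ^ (k - 1) := by
  have := sig_top_linear (c := (1 : F)) (by rw [one_mul]) recip_uLin hk
  rwa [CharTwo.neg_eq, one_pow, one_smul, top_eq_pow] at this

omit [Fintype F] [CharP F 2] in
theorem tU_pow_ne_zero [CharP F 2] (hk : k ≠ 0) : tU F k ^ (k - 1) ≠ 0 := by
  rw [← top_eq_pow]
  exact top_ne_zero (monic_X_sub_C 1) (by rw [natDegree_X_sub_C]; exact one_ne_zero) hk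

/-- The standard functional between the generators of a pair. -/
noncomputable def deltaU (F : Type*) [Field F] (k : ℕ) : UA F k →ₗ[F] F :=
  Classical.epsilon fun δ => δ (tU F k ^ (k - 1)) = 1

omit [Fintype F] in
theorem deltaU_top (hk : k ≠ 0) : deltaU F k (tU F k ^ (k - 1)) = 1 := by
  obtain ⟨φ, hφ⟩ : ∃ φ : Module.Dual F (UA F k), φ (tU F k ^ (k - 1)) ≠ 0 := by
    by_contra hn
    push Not at hn
    exact tU_pow_ne_zero hk ((Module.forall_dual_apply_eq_zero_iff F _).1 hn)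
  exact Classical.epsilon_spec (p := fun δ : UA F k →ₗ[F] F => δ (tU F k ^ (k - 1)) = 1)
    ⟨(φ (tU F k ^ (k - 1)))⁻¹ • φ, by rw [LinearMap.smul_apply, smul_eq_mul, inv_mul_cancel₀ hφ]⟩

/-- The values of a standard diagonal functional. -/
def DVals (φ : UA F k →ₗ[F] F) (v : F) : Prop :=
  IsDiag φ ∧ ∀ i, 2 * i + 1 < k → φ (tU F k * sU F k ^ i) = if i + 1 = k / 2 then v else 0

/-- The standard diagonal functional with last value `v`. -/
noncomputable def dFun (F : Type*) [Field F] (k : ℕ) (v : F) : UA F k →ₗ[F] F :=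
  Classical.epsilon fun φ => DVals φ v

omit [Fintype F] in
theorem eq_dFun {φ : UA F k →ₗ[F] F} {v : F} (h : DVals φ v) : φ = dFun F k v := by
  have hs : DVals (dFun F k v) v := Classical.epsilon_spec (p := fun φ => DVals φ v) ⟨φ, h⟩
  exact h.1.ext hs.1 fun i hi => by rw [h.2 i hi, hs.2 i hi]

omit [Fintype F] in
theorem dFun_zero : dFun F k (0 : F) = 0 :=
  (eq_dFun ⟨fun _ _ => rfl, fun i _ => by simp⟩).symm

/-! ### Scaling a single generator -/

/-- The sign of a single generator. -/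
def VBit (l : ℕ) (φ : UA F (2 * (l + 1)) →ₗ[F] F) : Prop :=
  l = 0 ∨ ASq (φ (tU F _ * sU F _ ^ (l - 1)) / φ (tU F _ * sU F _ ^ l))

theorem exists_scale_V {φ ψ : UA F (2 * (l + 1)) →ₗ[F] F} (hφ : IsDiag φ) (hψ : IsDiag ψ)
    (ht : φ (tU F _ * sU F _ ^ l) ≠ 0) (ht' : ψ (tU F _ * sU F _ ^ l) ≠ 0) (hb : VBit l φ ↔ VBit l ψ) :
    ∃ b, IsUnit b ∧ ∀ a, ψ a = φ (a * nmU b) := by
  have hk : 2 * (l + 1) ≠ 0 := by omega
  have hφn : Nd φ := nd_linear hk (by rwa [tU_pow_top_even])
  have hψn : Nd ψ := nd_linear hk (by rwa [tU_pow_top_even])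
  obtain ⟨r, hr⟩ := exists_rep (recip_uMod _).monic hφn ψ
  have hru := isUnit_of_rep (recip_uMod _).monic hψn hr
  have hrs : sigU F _ r = r := hφn.ext fun a => by
    have h1 := hφ.sig (sigU F _ r * a)
    rw [map_mul, sig_sig] at h1
    rw [← h1, ← hr, hψ.sig, hr]
  obtain ⟨P, hP, Q, hQ, rfl⟩ := exists_split r
  have hQs : Q * sU F _ = 0 := by
    rw [map_add, map_mul, sig_Rs hP, sig_Rs hQ, sig_tU] at hrs
    linear_combination hrs
  obtain ⟨c, hc⟩ := socle hk (a := Q * tU F _) (by linear_combination Q * tU_sq (F := F) (k := 2 * (l + 1)) + (tU F (2 * (l + 1)) + 1) * hQs)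
  have hc0 : c = 0 := by
    have h1 := hψ 1 (one_mem _)
    rw [hr, mul_one, map_add, hφ P hP, zero_add, hc, map_smul, tU_pow_top_even, smul_eq_mul, mul_eq_zero] at h1
    exact h1.resolve_right ht
  rw [hc, hc0, zero_smul, add_zero] at hr hru
  obtain ⟨c₀, w₀, hw₀, hPe⟩ := exists_Rs_split hP
  have hval : ∀ i, ψ (tU F _ * sU F _ ^ i) =
      c₀ * φ (tU F _ * sU F _ ^ i) + φ (tU F _ * sU F _ ^ (i + 1) * w₀) := fun i => by
    rw [hr, hPe, add_mul, map_add, ← Algebra.smul_def, map_smul, smul_eq_mul, pow_succ]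
    congr 2
    ring
  have ht0 := hval l
  rw [tU_sU_pow_eq_zero (j := l + 1) (by omega), zero_mul, map_zero, add_zero] at ht0
  have hc₀ : c₀ ≠ 0 := fun e => ht' (by rw [ht0, e, zero_mul])
  suffices h : ∃ c₁ : F, ∃ w ∈ Rs F _, P = algebraMap F _ c₀ + algebraMap F _ c₁ * sU F _ + sU F _ ^ 2 * w ∧
      ASq (c₁ / c₀) by
    obtain ⟨c₁, w, hw, hPw, hAS⟩ := h
    obtain ⟨b, hb'⟩ := exists_norm_eq_of_AS hw hc₀ hAS
    rw [← hPw] at hb'
    exact ⟨b, isUnit_of_mul_isUnit_left (hb' ▸ hru), fun a => by rw [hr, hb']; exact congrArg φ (mul_comm _ _)⟩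
  rcases Nat.eq_zero_or_pos l with rfl | hl
  · refine ⟨0, 0, zero_mem _, ?_, 0, by simp⟩
    have hs0 : sU F (2 * (0 + 1)) = 0 := by simpa using sU_pow_eq_zero (F := F) (k := 2 * (0 + 1)) (j := 1) (by omega)
    rw [hPe, hs0]; simp
  obtain ⟨c₁, w, hw, hwe⟩ := exists_Rs_split hw₀
  refine ⟨c₁, w, hw, by rw [hPe, hwe]; ring, ?_⟩
  have h1 := hval (l - 1)
  have key : tU F (2 * (l + 1)) * sU F _ ^ l * (algebraMap F _ c₁ + sU F _ * w) =
      c₁ • (tU F _ * sU F _ ^ l) + tU F _ * sU F _ ^ (l + 1) * w := by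
    rw [Algebra.smul_def, pow_succ]; ring
  rw [show l - 1 + 1 = l by omega, hwe, key, tU_sU_pow_eq_zero (j := l + 1) (by omega), zero_mul, add_zero,
    map_smul, smul_eq_mul] at h1
  have hl0 : ¬ l = 0 := by omega
  simp only [VBit, hl0, false_or, h1, ht0] at hb
  have e : (c₀ * φ (tU F _ * sU F _ ^ (l - 1)) + c₁ * φ (tU F _ * sU F _ ^ l)) /
      (c₀ * φ (tU F _ * sU F _ ^ l)) =
      φ (tU F _ * sU F _ ^ (l - 1)) / φ (tU F _ * sU F _ ^ l) + c₁ / c₀ := by
    field_simp
  rw [e, asq_add_iff] at hb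
  tauto

/-! ### Solving triangular additive systems -/

omit [CharP F 2] in
theorem exists_eq_of_triangular {m : ℕ} (f : (Fin m → F) → Fin m → F) (hadd : ∀ c d, f (c + d) = f c + f d)
    {t : F} (ht : t ≠ 0) (h : ∀ c j, (∀ j' < j, c j' = 0) → f c (Fin.rev j) = t * c j) :
    Function.Surjective f := by
  refine Finite.surjective_of_injective fun c d e => sub_eq_zero.1 ?_
  have h0 : f (c - d) = 0 := by
    have := hadd (c - d) d
    rw [sub_add_cancel, e] at this
    simpa using this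
  by_contra hne
  classical
  have hs : (Finset.univ.filter fun j => (c - d) j ≠ 0).Nonempty := by
    by_contra h1
    exact hne (funext fun j => by_contra fun hj => h1 ⟨j, by simpa using hj⟩)
  set j := (Finset.univ.filter fun j => (c - d) j ≠ 0).min' hs with hj
  have hj0 : (c - d) j ≠ 0 := (Finset.mem_filter.1 (Finset.min'_mem _ hs)).2
  have h1 := h (c - d) j fun j' hlt => by
    by_contra h2
    exact absurd (Finset.min'_le _ j' (by simp only [Finset.mem_filter, Finset.mem_univ, true_and]; exact h2))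
      (not_le.2 hlt)
  rw [h0, Pi.zero_apply, eq_comm, mul_eq_zero] at h1
  exact hj0 (h1.resolve_left ht)

/-- The triangular system behind the clearing of diagonal functionals. -/
theorem kill_exists (γ β : UA F k →ₗ[F] F) (u : UA F k) {m ν : ℕ} (ht : γ (u * sU F k ^ m) ≠ 0)
    (hbig : ∀ e, m < e → u * sU F k ^ e = 0) (hν : nmU u = sU F k ^ ν)
    (hβ : ∀ e, m - 1 + ν ≤ e → β (tU F k * sU F k ^ e) = 0) (target : Fin m → F) :
    ∃ P ∈ Rs F k, ∀ i : Fin m, γ (u * P * sU F k ^ ((i : ℕ) + 1)) +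
      β (tU F k * sU F k ^ (i : ℕ) * nmU (u * P)) = target i := by
  let Pc : (Fin m → F) → UA F k := fun c => ∑ j : Fin m, c j • sU F k ^ (j : ℕ)
  have hPc : ∀ c, Pc c ∈ Rs F k := fun c => sum_mem fun j _ => Subalgebra.smul_mem _ (sU_pow_mem _) _
  have hPadd : ∀ c d, Pc (c + d) = Pc c + Pc d := fun c d => by
    simp [Pc, add_smul, Finset.sum_add_distrib]
  have hN : ∀ P ∈ Rs F k, nmU (u * P) = sU F k ^ ν * P ^ 2 := fun P hP => by
    rw [nmU_mul, hν, nmU_Rs hP]
  let f : (Fin m → F) → Fin m → F := fun c i => γ (u * Pc c * sU F k ^ ((i : ℕ) + 1)) +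
    β (tU F k * sU F k ^ (i : ℕ) * (sU F k ^ ν * Pc c ^ 2))
  have hadd : ∀ c d, f (c + d) = f c + f d := fun c d => by
    funext i
    simp only [f, Pi.add_apply, hPadd]
    rw [mul_add u, add_mul, map_add,
      show (Pc c + Pc d) ^ 2 = Pc c ^ 2 + Pc d ^ 2 by
        linear_combination (Pc c * Pc d) * two_eq_zero_U (F := F) (k := k),
      mul_add (sU F k ^ ν), mul_add, map_add]
    ring
  have htri : ∀ c j, (∀ j' < j, c j' = 0) → f c (Fin.rev j) = γ (u * sU F k ^ m) * c j := by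
    intro c j hc
    obtain ⟨w, hw, hPe⟩ : ∃ w ∈ Rs F k, Pc c = sU F k ^ (j : ℕ) * (algebraMap F _ (c j) + sU F k * w) := by
      refine ⟨∑ i : Fin m, (if j < i then c i else 0) • sU F k ^ ((i : ℕ) - j - 1),
        sum_mem fun i _ => Subalgebra.smul_mem _ (sU_pow_mem _) _, ?_⟩
      rw [Finset.mul_sum, mul_add, Finset.mul_sum, ← sub_eq_iff_eq_add', eq_comm]
      rw [mul_comm, ← Algebra.smul_def]
      have : Pc c = c j • sU F k ^ (j : ℕ) +
          ∑ i : Fin m, (if j < i then c i • sU F k ^ (i : ℕ) else 0) := by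
        rw [← Finset.sum_ite_eq' Finset.univ j (fun i => c i • sU F k ^ (i : ℕ)) |>.trans (if_pos (Finset.mem_univ j)),
          ← Finset.sum_add_distrib]
        refine Finset.sum_congr rfl fun i _ => ?_
        rcases lt_trichotomy i j with h | h | h
        · rw [if_neg h.ne, if_neg (not_lt.2 h.le), hc i h, zero_smul, add_zero]
        · rw [if_pos h, if_neg (by rw [h]; exact lt_irrefl j), add_zero]
        · rw [if_neg h.ne', if_pos h, zero_add]
      rw [this, add_sub_cancel_left]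
      refine Finset.sum_congr rfl fun i _ => ?_
      split_ifs with h
      · have h' : (j : ℕ) < (i : ℕ) := h
        rw [mul_smul_comm, mul_smul_comm, ← mul_assoc, ← pow_succ, ← pow_add,
          show (j : ℕ) + 1 + ((i : ℕ) - j - 1) = i by omega]
      · simp
    have hv : ((Fin.rev j : Fin m) : ℕ) + 1 = m - j := by
      have := j.2; rw [Fin.val_rev]; omega
    have hjm := j.2
    simp only [f, hPe]
    have e1 : γ (u * (sU F k ^ (j : ℕ) * (algebraMap F _ (c j) + sU F k * w)) *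
        sU F k ^ (((Fin.rev j : Fin m) : ℕ) + 1)) = γ (u * sU F k ^ m) * c j := by
      have e : u * (sU F k ^ (j : ℕ) * (algebraMap F _ (c j) + sU F k * w)) *
          sU F k ^ (((Fin.rev j : Fin m) : ℕ) + 1) = c j • (u * sU F k ^ m) + u * sU F k ^ (m + 1) * w := by
        rw [Algebra.smul_def, hv, pow_succ _ m]
        conv_rhs => rw [show m = (j : ℕ) + (m - j) by omega, pow_add]
        ring
      rw [e, hbig _ (Nat.lt_succ_self m), zero_mul, add_zero, map_smul, smul_eq_mul, mul_comm]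
    have e2 : β (tU F k * sU F k ^ ((Fin.rev j : Fin m) : ℕ) *
        (sU F k ^ ν * (sU F k ^ (j : ℕ) * (algebraMap F _ (c j) + sU F k * w)) ^ 2)) = 0 := by
      rw [mul_pow, ← mul_assoc, ← mul_assoc, ← pow_mul, mul_assoc (tU F k), ← pow_add, mul_assoc (tU F k),
        ← pow_add]
      exact eq_zero_high hβ (by omega)
        (pow_mem (add_mem (Subalgebra.algebraMap_mem _ _) (mul_mem sU_mem hw)) 2)
    rw [e1, e2, add_zero]
  obtain ⟨c, hc⟩ := exists_eq_of_triangular f hadd ht htri target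
  exact ⟨Pc c, hPc c, fun i => by rw [hN _ (hPc c)]; exact congrFun hc i⟩

end CfsgLib.IsometryClasses.Two
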