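import Cfsg.Agent.IsometryClasses.Two.Normal
import Cfsg.Agent.IsometryClasses.RecipCount

/-!
# Shapes of pieces, normal forms, tokens
-/

set_option autoImplicit false
set_option linter.style.haveILetI false

namespace CfsgLib.IsometryClasses.Two

open Polynomial Module

variable {F : Type*} [Field F] {V : Type*} [AddCommGroup V] [Module F V]
  {B : LinearMap.BilinForm F V} {g : V ≃ₗ[F] V}

/-- The shape of a piece: modulus and Gram functionals. -/
structure Shape (F : Type*) [Field F] where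
  f : F[X]
  m : ℕ
  G : Fin m → Fin m → (AdjoinRoot f →ₗ[F] F)

/-- The Gram functionals separate the standard module. -/
def Shape.Nondeg (S : Shape F) : Prop :=
  ∀ a : Fin S.m → AdjoinRoot S.f, (∀ j c, ∑ i, S.G i j (a i * c) = 0) → a = 0

/-- The map from the standard module. -/
noncomputable def pmap (g : V ≃ₗ[F] V) {f : F[X]} (hm : f.Monic) {m : ℕ} (xs : Fin m → V) :
    (Fin m → AdjoinRoot f) →ₗ[F] V :=
  ∑ j, psi g hm (xs j) ∘ₗ LinearMap.proj j

theorem pmap_apply {f : F[X]} (hm : f.Monic) {m : ℕ} (xs : Fin m → V) (a : Fin m → AdjoinRoot f) :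
    pmap g hm xs a = ∑ j, psi g hm (xs j) (a j) := by
  simp [pmap]

theorem pmap_single {f : F[X]} (hm : f.Monic) {m : ℕ} (xs : Fin m → V) (j : Fin m) (a : AdjoinRoot f) :
    pmap g hm xs (Pi.single j a) = psi g hm (xs j) a := by
  rw [pmap_apply, Finset.sum_eq_single j (fun i _ hne => by rw [Pi.single_eq_of_ne hne, map_zero])
    (fun h => absurd (Finset.mem_univ j) h), Pi.single_eq_same]

theorem B_pmap (hE : IsEps (1 : F) B g) {f : F[X]} (hf : Recip f) {m : ℕ} {xs : Fin m → V}
    (hx : ∀ j, xs j ∈ kill g f) {G : Fin m → Fin m → (AdjoinRoot f →ₗ[F] F)}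
    (hg : ∀ i j, Phi B g hf.monic (xs i) (xs j) = G i j) (a b : Fin m → AdjoinRoot f) :
    B (pmap g hf.monic xs a) (pmap g hf.monic xs b) = ∑ i, ∑ j, G i j (a i * sig hf (b j)) := by
  simp only [pmap_apply, map_sum, LinearMap.sum_apply]
  rw [Finset.sum_comm]
  refine Finset.sum_congr rfl fun i _ => Finset.sum_congr rfl fun j _ => ?_
  rw [B_psi hE hf (hx i) (hx j), ← hg]

theorem pmap_root {f : F[X]} (hm : f.Monic) {m : ℕ} {xs : Fin m → V} (hx : ∀ j, xs j ∈ kill g f)
    (a : Fin m → AdjoinRoot f) :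
    g (pmap g hm xs a) = pmap g hm xs (fun j => AdjoinRoot.root _ * a j) := by
  simp only [pmap_apply, map_sum]
  exact Finset.sum_congr rfl fun j _ => (psi_root hm (hx j) _).symm

/-- A decomposition of `g` into orthogonal pieces of the given shapes. -/
structure Form (B : LinearMap.BilinForm F V) (g : V ≃ₗ[F] V) {ι : Type} [Fintype ι] (sh : ι → Shape F) where
  recip : ∀ i, Recip (sh i).f
  xs : ∀ i, Fin (sh i).m → V
  mem : ∀ i j, xs i j ∈ kill g (sh i).f
  gram : ∀ i j l, Phi B g (recip i).monic (xs i j) (xs i l) = (sh i).G j l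
  orth : ∀ i j, i ≠ j → ∀ a b,
    B (pmap g (recip i).monic (xs i) a) (pmap g (recip j).monic (xs j) b) = 0
  bij : Function.Bijective
    fun a : ∀ i, Fin (sh i).m → AdjoinRoot (sh i).f => ∑ i, pmap g (recip i).monic (xs i) (a i)

namespace Form

variable {ι : Type} [Fintype ι] {sh : ι → Shape F}

/-- The identification with the standard modules. -/
noncomputable def equiv (N : Form B g sh) : (∀ i, Fin (sh i).m → AdjoinRoot (sh i).f) ≃ₗ[F] V :=
  LinearEquiv.ofBijective (∑ i, pmap g (N.recip i).monic (N.xs i) ∘ₗ LinearMap.proj i)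
    (by
      have h : ⇑(∑ i, pmap g (N.recip i).monic (N.xs i) ∘ₗ LinearMap.proj i) =
          fun a : ∀ i, Fin (sh i).m → AdjoinRoot (sh i).f =>
            ∑ i, pmap g (N.recip i).monic (N.xs i) (a i) := by
        funext a; simp
      rw [h]; exact N.bij)

theorem equiv_apply (N : Form B g sh) (a : ∀ i, Fin (sh i).m → AdjoinRoot (sh i).f) :
    N.equiv a = ∑ i, pmap g (N.recip i).monic (N.xs i) (a i) := by
  simp [equiv]

theorem equiv_root (N : Form B g sh) (a : ∀ i, Fin (sh i).m → AdjoinRoot (sh i).f) :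
    g (N.equiv a) = N.equiv (fun i j => AdjoinRoot.root _ * a i j) := by
  simp only [equiv_apply, map_sum]
  exact Finset.sum_congr rfl fun i _ => pmap_root _ (N.mem i) _

theorem B_equiv (hE : IsEps (1 : F) B g) (N : Form B g sh)
    (a b : ∀ i, Fin (sh i).m → AdjoinRoot (sh i).f) :
    B (N.equiv a) (N.equiv b) = ∑ i, ∑ j, ∑ l, (sh i).G j l (a i j * sig (N.recip i) (b i l)) := by
  simp only [equiv_apply, map_sum, LinearMap.sum_apply]
  rw [Finset.sum_comm]
  refine Finset.sum_congr rfl fun i _ => ?_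
  rw [Finset.sum_eq_single i (fun j _ hj => N.orth i j (Ne.symm hj) _ _)
    (fun h => absurd (Finset.mem_univ i) h)]
  exact B_pmap hE (N.recip i) (N.mem i) (N.gram i) _ _

/-- Transport along a bijection of index sets. -/
noncomputable def reindex {κ : Type} [Fintype κ] (N : Form B g sh) (e : κ ≃ ι) :
    Form B g (fun k => sh (e k)) where
  recip k := N.recip (e k)
  xs k := N.xs (e k)
  mem k := N.mem (e k)
  gram k := N.gram (e k)
  orth i j h := N.orth (e i) (e j) (e.injective.ne h)
  bij := by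
    have h : (fun a : ∀ k, Fin (sh (e k)).m → AdjoinRoot (sh (e k)).f =>
        ∑ k, pmap g (N.recip (e k)).monic (N.xs (e k)) (a k)) =
        (fun a => ∑ i, pmap g (N.recip i).monic (N.xs i) (a i)) ∘
          Equiv.piCongrLeft (fun i => Fin (sh i).m → AdjoinRoot (sh i).f) e := by
      funext a
      rw [Function.comp_apply, ← e.sum_comp]
      exact Finset.sum_congr rfl fun k _ => by rw [Equiv.piCongrLeft_apply_apply]
    rw [h]
    exact N.bij.comp (Equiv.bijective _)

variable {V' : Type*} [AddCommGroup V'] [Module F V'] {B' : LinearMap.BilinForm F V'} {g' : V' ≃ₗ[F] V'}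

theorem exists_isometry (hE : IsEps (1 : F) B g) (hE' : IsEps (1 : F) B' g') (N : Form B g sh)
    (N' : Form B' g' sh) :
    ∃ e : V ≃ₗ[F] V', (∀ x, e (g x) = g' (e x)) ∧ ∀ x y, B' (e x) (e y) = B x y := by
  refine ⟨N.equiv.symm.trans N'.equiv, fun x => ?_, fun x y => ?_⟩
  · obtain ⟨a, rfl⟩ := N.equiv.surjective x
    rw [equiv_root, LinearEquiv.trans_apply, LinearEquiv.trans_apply, LinearEquiv.symm_apply_apply,
      LinearEquiv.symm_apply_apply, equiv_root]
  · obtain ⟨a, rfl⟩ := N.equiv.surjective x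
    obtain ⟨b, rfl⟩ := N.equiv.surjective y
    rw [LinearEquiv.trans_apply, LinearEquiv.trans_apply, LinearEquiv.symm_apply_apply,
      LinearEquiv.symm_apply_apply, B_equiv hE', B_equiv hE]

theorem exists_isometry_of_map_eq {κ : Type} [Fintype κ] {α : Type*} {t : ι → α} {t' : κ → α} {F' : α → Shape F}
    (hE : IsEps (1 : F) B g) (hE' : IsEps (1 : F) B' g') (N : Form B g (fun i => F' (t i)))
    (N' : Form B' g' (fun i => F' (t' i)))
    (h : Finset.univ.val.map t = Finset.univ.val.map t') :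
    ∃ e : V ≃ₗ[F] V', (∀ x, e (g x) = g' (e x)) ∧ ∀ x y, B' (e x) (e y) = B x y := by
  obtain ⟨s, hs⟩ := exists_equiv_of_map_eq h
  have N'' := N'.reindex s
  have e : (fun i => F' (t' (s i))) = fun i => F' (t i) := funext fun i => congrArg F' (hs i)
  change Form B' g' (fun i => F' (t' (s i))) at N''
  rw [e] at N''
  exact N.exists_isometry hE hE' N''

/-- The sum of the dimensions of the pieces. -/
theorem sum_finrank (N : Form B g sh) : ∑ i, (sh i).m * (sh i).f.natDegree = finrank F V := by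
  haveI : ∀ i, Module.Finite F (Fin (sh i).m → AdjoinRoot (sh i).f) := fun i => by
    haveI := (AdjoinRoot.powerBasis' (N.recip i).monic).finite
    infer_instance
  rw [← N.equiv.finrank_eq, Module.finrank_pi_fintype]
  refine Finset.sum_congr rfl fun i _ => ?_
  haveI := (AdjoinRoot.powerBasis' (N.recip i).monic).finite
  rw [Module.finrank_pi_fintype, Finset.sum_const, Finset.card_univ, Fintype.card_fin,
    (AdjoinRoot.powerBasis' (N.recip i).monic).finrank, AdjoinRoot.powerBasis'_dim, smul_eq_mul]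

/-- The subspace of a piece. -/
noncomputable def space (N : Form B g sh) (i : ι) : Submodule F V :=
  LinearMap.range (pmap g (N.recip i).monic (N.xs i))

theorem orth_space (N : Form B g sh) {i j : ι} (h : i ≠ j) {u v : V} (hu : u ∈ N.space i) (hv : v ∈ N.space j) :
    B u v = 0 := by
  obtain ⟨a, rfl⟩ := hu
  obtain ⟨b, rfl⟩ := hv
  exact N.orth i j h a b

theorem get (N : Form B g sh) (i : ι) (S : Shape F) (h : sh i = S) :
    ∃ (hr : Recip S.f) (ys : Fin S.m → V), (∀ j, ys j ∈ kill g S.f) ∧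
      (∀ j l, Phi B g hr.monic (ys j) (ys l) = S.G j l) ∧
      ∀ j a, psi g hr.monic (ys j) a ∈ N.space i := by
  subst h
  exact ⟨N.recip i, N.xs i, N.mem i, N.gram i, fun j a => ⟨Pi.single j a, pmap_single _ _ j a⟩⟩

end Form

/-! ### Tokens -/

/-- The types of pieces: generic with exponent and atom; a single unipotent generator of index `l`
(exponent `2 * (l + 1)`) with its sign; a unipotent pair of exponent `k`, plain or anisotropic. -/
inductive Tok (F : Type*) [Field F]
  | gen (k : ℕ) (H : F[X])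
  | uv (l : ℕ) (p : Bool)
  | uw (k : ℕ) (p : Bool)

/-- Admissible tokens. -/
def Tok.Valid : Tok F → Prop
  | .gen k H => k ≠ 0 ∧ Recip H ∧ Lab.IsGenAtom H
  | .uv l p => l = 0 → p = true
  | .uw k p => k ≠ 0 ∧ (p = false → ∃ l, k = 2 * (l + 1) + 1)

/-- The standard functional of a generic generator. -/
noncomputable def genFun (k : ℕ) (H : F[X]) : AdjoinRoot (H ^ k) →ₗ[F] F :=
  Classical.epsilon fun φ => ∀ h : Recip H, GoodFun 1 h k φ

/-- The properties of a standard single unipotent generator. -/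
def VProp (l : ℕ) (p : Bool) (φ : UA F (2 * (l + 1)) →ₗ[F] F) : Prop :=
  IsDiag φ ∧ φ (tU F _ * sU F _ ^ l) ≠ 0 ∧ (VBit l φ ↔ p = true)

/-- The standard functional of a single unipotent generator. -/
noncomputable def vFun (F : Type*) [Field F] (l : ℕ) (p : Bool) : UA F (2 * (l + 1)) →ₗ[F] F :=
  Classical.epsilon (VProp l p)

/-- The shape of a token. -/
noncomputable def Tok.shape : Tok F → Shape F
  | .gen k H => ⟨H ^ k, 1, fun _ _ => genFun k H⟩
  | .uv l p => ⟨uMod F (2 * (l + 1)), 1, fun _ _ => vFun F l p⟩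
  | .uw k p => ⟨uMod F k, 2, ![![if p then dFun F k 0 else dFun F k 1, deltaU F k],
      ![deltaU F k ∘ₗ (sigU F k).toLinearMap, if p then dFun F k 0 else dFun F k (omega0 F)]]⟩

/-- The half dimension. -/
noncomputable def Tok.hw : Tok F → ℕ
  | .gen k H => k * (H.natDegree / 2)
  | .uv l _ => l + 1
  | .uw k _ => k

/-- Rules on the multiset of tokens of one element. -/
structure Rules [DecidableEq (Tok F)] (M : Multiset (Tok F)) : Prop where
  valid : ∀ t ∈ M, t.Valid
  v_le : ∀ l, M.count (.uv l true) + M.count (.uv l false) ≤ 2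
  v_neg : ∀ l, M.count (.uv l false) ≤ 1
  v_prev : ∀ l p, Tok.uv (l + 1) false ∈ M → Tok.uv l p ∉ M
  v_low : ∀ l p, Tok.uv l false ∈ M → Tok.uw (2 * l + 1) p ∉ M
  w_neg : ∀ k, M.count (.uw k false) ≤ 1
  w_mid : ∀ l p, Tok.uw (2 * (l + 1) + 1) false ∈ M → Tok.uv l p ∉ M

/-- Some decomposition with the given tokens exists. -/
def HasToks (B : LinearMap.BilinForm F V) (g : V ≃ₗ[F] V) (M : Multiset (Tok F)) : Prop :=
  ∃ (ι : Type) (_ : Fintype ι) (tok : ι → Tok F),
    Nonempty (Form B g (fun i => (tok i).shape)) ∧ Finset.univ.val.map tok = M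

theorem HasToks.exists_isometry {V' : Type*} [AddCommGroup V'] [Module F V'] {B' : LinearMap.BilinForm F V'}
    {g' : V' ≃ₗ[F] V'} (hE : IsEps (1 : F) B g) (hE' : IsEps (1 : F) B' g') {M : Multiset (Tok F)}
    (h : HasToks B g M) (h' : HasToks B' g' M) :
    ∃ e : V ≃ₗ[F] V', (∀ x, e (g x) = g' (e x)) ∧ ∀ x y, B' (e x) (e y) = B x y := by
  obtain ⟨ι, _, t, ⟨N⟩, hN⟩ := h
  obtain ⟨κ, _, t', ⟨N'⟩, hN'⟩ := h'
  exact N.exists_isometry_of_map_eq hE hE' N' (hN.trans hN'.symm)

variable [Fintype F] [CharP F 2]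

omit [Fintype F] in
theorem genAtom_even {H : F[X]} (hH : Recip H) (h : Lab.IsGenAtom H) : Even H.natDegree := by
  by_contra ho
  rw [Nat.not_even_iff_odd] at ho
  have hc : H.coeff 0 = 1 := by
    rcases mul_self_eq_one_iff.1 hH.coeff_zero_sq with e | e
    · exact e
    · rwa [CharTwo.neg_eq] at e
  refine h.1.2.1 ?_
  rw [eval_eq_sum_range]
  simp only [one_pow, mul_one]
  refine Finset.sum_involution (fun i _ => H.natDegree - i) ?_ ?_ ?_ ?_
  · intro i hi
    rw [Finset.mem_range] at hi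
    rw [hH.coeff_rev (by omega), hc, one_mul, CharTwo.add_self_eq_zero]
  · intro i hi _ e
    rw [Finset.mem_range] at hi
    exact Nat.not_even_iff_odd.2 ho ⟨i, by omega⟩
  · intro i hi; rw [Finset.mem_range]; omega
  · intro i hi; rw [Finset.mem_range] at hi; omega

theorem Tok.two_mul_hw {t : Tok F} (ht : t.Valid) : t.shape.m * t.shape.f.natDegree = 2 * t.hw := by
  cases t with
  | gen k H =>
    obtain ⟨r, hr⟩ := genAtom_even ht.2.1 ht.2.2
    simp only [Tok.shape, Tok.hw, natDegree_pow, one_mul, hr]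
    rw [show (r + r) / 2 = r by omega]
    ring
  | uv l p => simp only [Tok.shape, Tok.hw, natDegree_pow, natDegree_X_sub_C]; ring
  | uw k p => simp only [Tok.shape, Tok.hw, natDegree_pow, natDegree_X_sub_C]; ring

end CfsgLib.IsometryClasses.Two
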