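import Cfsg.Agent.IsometryClasses.Two.Diag

/-!
# Normalising generators of pieces in characteristic two
-/

set_option autoImplicit false
set_option linter.style.haveILetI false

namespace CfsgLib.IsometryClasses.Two

open Polynomial Module

variable {F : Type*} [Field F] {V : Type*} [AddCommGroup V] [Module F V]

/-- An isometry of a non-degenerate alternating form. -/
structure IsAlt2 (B : LinearMap.BilinForm F V) (g : V ≃ₗ[F] V) : Prop where
  eps : IsEps (1 : F) B g
  alt : ∀ x, B x x = 0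

variable {B : LinearMap.BilinForm F V} {g : V ≃ₗ[F] V}

/-! ### Norms at the other atoms -/

section Generic

variable {H : F[X]} {k : ℕ}

theorem exists_norm_of_red_gen (hH : Recip H) (hk : k ≠ 0)
    (hu : IsUnit (AdjoinRoot.root H - rinv H)) {r : AdjoinRoot (H ^ k)} (hr : IsUnit r)
    (hs : sig (hH.pow k) r = r) {b₀ : AdjoinRoot H} (hb : b₀ * sig hH b₀ = red H k hk r) :
    ∃ b, IsUnit b ∧ b * sig (hH.pow k) b = r := by
  set σ := sig (hH.pow k) with hσ
  have hu' : IsUnit (AdjoinRoot.root (H ^ k) - rinv (H ^ k)) := by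
    refine isUnit_of_red hk ?_
    rw [map_sub, ← AdjoinRoot.mk_X, red_mk, AdjoinRoot.mk_X]
    have h1 := congrArg (red H k hk) (sig_root (hH.pow k))
    rw [red_sig hH, ← AdjoinRoot.mk_X, red_mk, AdjoinRoot.mk_X, sig_root] at h1
    rwa [← h1]
  obtain ⟨v, hv⟩ := hu'.exists_left_inv
  set c := AdjoinRoot.root (H ^ k) * v with hc
  have hσv : σ v * (rinv (H ^ k) - AdjoinRoot.root (H ^ k)) = 1 := by
    have h1 := congrArg σ hv
    rwa [map_mul, map_sub, hσ, sig_root, sig_rinv, map_one] at h1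
  have hcc : c + σ c = 1 := by
    rw [hc, map_mul, hσ, sig_root, ← hσ]
    have hσv' : σ v = -v := by linear_combination (-σ v) * hv - v * hσv
    rw [hσv']
    linear_combination hv
  -- lifting along the powers of a nilpotent fixed element
  have lift : ∀ m : ℕ, ∀ z, σ z = z → z ^ m = 0 → ∃ b, b * σ b = 1 + z := by
    intro m
    induction m using Nat.strong_induction_on with
    | _ m ih =>
    intro z hz hzm
    rcases Nat.lt_or_ge m 2 with hm | hm
    · refine ⟨1, ?_⟩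
      rw [map_one, one_mul]
      interval_cases m
      · rw [pow_zero] at hzm
        rw [← mul_one z, hzm, mul_zero, add_zero]
      · rw [pow_one] at hzm
        rw [hzm, add_zero]
    set N := (1 + c * z) * σ (1 + c * z) with hN
    have hNu : IsUnit N := by
      have h1 : IsUnit (1 + c * z) := IsNilpotent.isUnit_one_add ⟨m, by rw [mul_pow, hzm, mul_zero]⟩
      exact h1.mul (h1.map σ)
    obtain ⟨w, hw⟩ := hNu.exists_left_inv
    have hσN : σ N = N := by rw [hN, map_mul, hσ, sig_sig]; ring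
    have hσw : σ w = w := by
      have h1 := congrArg σ hw
      rw [map_mul, hσN, map_one] at h1
      exact hNu.mul_right_cancel (h1.trans hw.symm)
    have hNe : N = 1 + z + c * σ c * z ^ 2 := by
      rw [hN, map_add, map_one, map_mul, hz]
      linear_combination z * hcc
    obtain ⟨b, hb'⟩ := ih ((m + 1) / 2) (by omega) (-(c * σ c) * w * z ^ 2)
      (by rw [map_mul, map_mul, map_neg, map_mul, map_pow, hσw, hz, hσ, sig_sig]; ring)
      (by rw [mul_pow, ← pow_mul, pow_eq_zero_of_le (by omega) hzm, mul_zero])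
    refine ⟨(1 + c * z) * b, ?_⟩
    rw [map_mul]
    calc (1 + c * z) * b * (σ (1 + c * z) * σ b) = N * (b * σ b) := by rw [hN]; ring
      _ = 1 + z := by linear_combination N * hb' + hNe - (c * σ c * z ^ 2) * hw
  obtain ⟨b, rfl⟩ := exists_red_eq hk b₀
  have hbu : IsUnit b := isUnit_of_red hk (isUnit_of_mul_isUnit_left (hb ▸ hr.map (red H k hk)))
  have hNu : IsUnit (b * σ b) := hbu.mul (hbu.map σ)
  obtain ⟨n', hn'⟩ := hNu.exists_left_inv
  set u := r * n' with hu1
  have hun : u * (b * σ b) = r := by rw [hu1, mul_assoc, hn', mul_one]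
  have hσN : σ (b * σ b) = b * σ b := by rw [map_mul, hσ, sig_sig]; ring
  have hσu : σ u = u := by
    have h1 := congrArg σ hun
    rw [map_mul, hσN, show σ r = r from hs] at h1
    exact hNu.mul_right_cancel (h1.trans hun.symm)
  have hz : red H k hk (u - 1) = 0 := by
    have h1 := congrArg (red H k hk) hun
    rw [map_mul, map_mul (red H k hk) b, hσ, red_sig hH, hb] at h1
    rw [map_sub, map_one, sub_eq_zero]
    exact (hr.map (red H k hk)).mul_right_cancel (h1.trans (one_mul _).symm)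
  obtain ⟨a, ha⟩ := lift k (u - 1) (by rw [map_sub, hσu, map_one]) (red_pow_eq_zero hk hz)
  rw [add_sub_cancel] at ha
  have hr' : a * b * σ (a * b) = r := by rw [map_mul, ← hun, ← ha]; ring
  exact ⟨a * b, isUnit_of_mul_isUnit_left (hr' ▸ hr), hr'⟩

theorem exists_scale_atom [Finite F] (hH : Recip H) (hat : Lab.IsGenAtom H) (hk : k ≠ 0)
    {φ ψ : AdjoinRoot (H ^ k) →ₗ[F] F} (hφ : GoodFun 1 hH k φ) (hψ : GoodFun 1 hH k ψ) :
    ∃ b, IsUnit b ∧ ∀ a, ψ a = φ (a * (b * sig (hH.pow k) b)) := by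
  obtain ⟨r, hr, hru, hrs⟩ := exists_scale_gen.exists_fixed_rep one_ne_zero hH hφ hψ
  obtain ⟨b₀, hb₀⟩ := normSurj_of_isGenAtom hH hat _ (hru.map (red H k hk)) (by rw [← red_sig hH, hrs])
  obtain ⟨b, hb, hbr⟩ := exists_norm_of_red_gen hH hk (isUnit_root_sub_rinv hat hH) hru hrs hb₀
  exact ⟨b, hb, fun a => by rw [hr, hbr, mul_comm]⟩

end Generic

variable [Fintype F] [CharP F 2] {k l : ℕ}

/-- The functional of two vectors at the unipotent modulus. -/
noncomputable abbrev PhU (B : LinearMap.BilinForm F V) (g : V ≃ₗ[F] V) (k : ℕ) (x y : V) :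
    UA F k →ₗ[F] F := Phi B g (recip_uMod k).monic x y

omit [Fintype F] in
theorem isDiag_PhU (hE : IsAlt2 B g) {x : V} (hx : x ∈ kill g (uMod F k)) : IsDiag (PhU B g k x x) := by
  refine isDiag_of_pow fun j => ?_
  have hN : ∀ a, PhU B g k x x (nmU a) = 0 := fun a => by
    rw [nmU, ← B_psi hE.eps (recip_uMod k) hx hx]; exact hE.alt _
  obtain ⟨i, rfl | rfl⟩ := Nat.even_or_odd' j
  · have := hN (sU F k ^ i)
    rwa [nmU_Rs (sU_pow_mem i), ← pow_mul, mul_comm] at this
  · have := hN (tU F k * sU F k ^ i)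
    rwa [nmU_mul, nmU_tU, nmU_Rs (sU_pow_mem i), ← pow_mul, ← pow_succ', mul_comm i] at this

omit [Fintype F] [CharP F 2] in
theorem PhU_swap (hE : IsAlt2 B g) {x y : V} (hx : x ∈ kill g (uMod F k)) (hy : y ∈ kill g (uMod F k))
    (a : UA F k) : PhU B g k y x a = PhU B g k x y (sigU F k a) := by
  have h := Phi_symm hE.eps (recip_uMod k) hx hy (sigU F k a)
  rw [sig_sig, one_mul] at h
  exact h

omit [Fintype F] in
theorem PhU_combine (hE : IsAlt2 B g) {x y : V} (hx : x ∈ kill g (uMod F k)) (hy : y ∈ kill g (uMod F k))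
    (u v : UA F k) (i : ℕ) :
    PhU B g k (psi g (recip_uMod k).monic x u + psi g (recip_uMod k).monic y v)
        (psi g (recip_uMod k).monic x u + psi g (recip_uMod k).monic y v) (tU F k * sU F k ^ i) =
      PhU B g k x x (tU F k * sU F k ^ i * nmU u) + PhU B g k y y (tU F k * sU F k ^ i * nmU v) +
        PhU B g k x y (sU F k ^ (i + 1) * (u * sigU F k v)) := by
  set hm := recip_uMod (F := F) k
  rw [PhU, Phi_add_left, Phi_add_right, Phi_add_right, Phi_psi hE.eps hm hx hx, Phi_psi hE.eps hm hx hy,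
    Phi_psi hE.eps hm hy hx, Phi_psi hE.eps hm hy hy]
  change PhU B g k x x _ + PhU B g k x y _ + (PhU B g k y x _ + PhU B g k y y _) = _
  rw [PhU_swap hE hx hy]
  have e : sU F k ^ (i + 1) * (u * sigU F k v) = tU F k * sU F k ^ i * (u * sigU F k v) +
      sigU F k (tU F k * sU F k ^ i * (v * sigU F k u)) := by
    simp only [map_mul, map_pow, sig_tU, sig_sU, sig_sig]
    linear_combination -(tU F k * sU F k ^ i * u * sigU F k v) * two_eq_zero_U (F := F) (k := k)
  rw [e, map_add]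
  show PhU B g k x x (_ * nmU u) + _ + (_ + PhU B g k y y (_ * nmU v)) = _
  ring

omit [Fintype F] [CharP F 2] in
theorem PhU_smul (x y : V) (c d : F) :
    PhU B g k (c • x) (d • y) = (c * d) • PhU B g k x y := by
  refine LinearMap.ext fun a => ?_
  simp [Phi_apply]
  ring

/-- A pair whose functional is non-zero on the socle, killed by the unipotent modulus. -/
def IsUPair (B : LinearMap.BilinForm F V) (g : V ≃ₗ[F] V) (k : ℕ) (x y : V) : Prop :=
  x ∈ kill g (uMod F k) ∧ y ∈ kill g (uMod F k) ∧ PhU B g k x y (tU F k ^ (k - 1)) ≠ 0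

omit [Fintype F] in
theorem IsUPair.symm (hE : IsAlt2 B g) (hk : k ≠ 0) {x y : V} (h : IsUPair B g k x y) : IsUPair B g k y x :=
  ⟨h.2.1, h.1, by rw [PhU_swap hE h.1 h.2.1, sig_top_U hk]; exact h.2.2⟩

omit [Fintype F] in
theorem top_psi_right (hE : IsAlt2 B g) (hk : k ≠ 0) {x y : V} (hx : x ∈ kill g (uMod F k))
    (hy : y ∈ kill g (uMod F k)) (a : UA F k) :
    PhU B g k x (psi g (recip_uMod k).monic y a) (tU F k ^ (k - 1)) =
      evU hk a * PhU B g k x y (tU F k ^ (k - 1)) := by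
  rw [PhU, Phi_psi_right hE.eps (recip_uMod k) hx hy, top_mul_evU hk, map_smul, smul_eq_mul, evU_sig]

/-- Clearing one diagonal. -/
theorem kill_step (hE : IsAlt2 B g) (hk : k ≠ 0) {x y : V} (hp : IsUPair B g k x y)
    (hα : PhU B g k x x (tU F k ^ (k - 1)) = 0) (hβ : PhU B g k y y (tU F k ^ (k - 1)) = 0)
    (hodd : ∀ l, k = 2 * l + 1 → PhU B g k y y (tU F k * sU F k ^ (l - 1)) = 0) :
    ∃ x', IsUPair B g k x' y ∧ PhU B g k x' x' = 0 := by
  obtain ⟨hx, hy, ht⟩ := hp
  set hm := recip_uMod (F := F) k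
  obtain ⟨u, m, ν, htu, hbig, hν, hβ', hcov⟩ : ∃ (u : UA F k) (m ν : ℕ),
      PhU B g k x y (u * sU F k ^ m) ≠ 0 ∧ (∀ e, m < e → u * sU F k ^ e = 0) ∧ nmU u = sU F k ^ ν ∧
      (∀ e, m - 1 + ν ≤ e → PhU B g k y y (tU F k * sU F k ^ e) = 0) ∧
      ∀ i, 2 * i + 1 < k → i < m ∨ (k = 2 * (i + 1) ∧ m ≤ i) := by
    obtain ⟨l, rfl | rfl⟩ := Nat.even_or_odd' k
    · obtain ⟨l, rfl⟩ : ∃ l', l = l' + 1 := ⟨l - 1, by omega⟩
      refine ⟨tU F _, l, 1, by rwa [← tU_pow_top_even], fun e he => tU_sU_pow_eq_zero (by omega),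
        by rw [pow_one, nmU_tU], fun e he => ?_, fun i hi => by omega⟩
      rcases Nat.lt_or_ge l e with h | h
      · rw [tU_sU_pow_eq_zero (by omega), map_zero]
      · rw [show e = l by omega, ← tU_pow_top_even]; exact hβ
    · refine ⟨1, l, 0, by rwa [one_mul, ← tU_pow_top_odd], fun e he => by rw [one_mul]; exact sU_pow_eq_zero (by omega),
        by rw [nmU, map_one, one_mul, pow_zero], fun e he => ?_, fun i hi => by omega⟩
      rcases Nat.lt_or_ge (2 * e + 1) (2 * l + 1) with h | h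
      · rw [show e = l - 1 by omega]; exact hodd l rfl
      · rw [tU_sU_pow_eq_zero h, map_zero]
  obtain ⟨P, hP, hsol⟩ := kill_exists (PhU B g k x y) (PhU B g k y y) u htu hbig hν hβ'
    (fun i => PhU B g k x x (tU F k * sU F k ^ (i : ℕ)))
  set a := sigU F k (u * P)
  set x' := psi g hm.monic x 1 + psi g hm.monic y a with hx'
  have hx'k : x' ∈ kill g (uMod F k) := add_mem (psi_mem _ hx _) (psi_mem _ hy _)
  refine ⟨x', ⟨hx'k, hy, ?_⟩, (isDiag_PhU hE hx'k).ext (fun _ _ => rfl) fun i hi => ?_⟩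
  · rw [hx', PhU, Phi_add_left, psi_one _ hx, Phi_psi_left hE.eps hm hy hy, top_mul_evU hk, map_smul, hβ,
      smul_zero, add_zero]
    exact ht
  have e1 : sigU F k a = u * P := sig_sig _ _
  have e2 : nmU a = nmU (u * P) := by rw [nmU, e1, nmU, mul_comm]
  rw [hx', PhU_combine hE hx hy, nmU, map_one, one_mul, mul_one, one_mul, e1, e2, mul_comm (sU F k ^ (i + 1)),
    LinearMap.zero_apply]
  rcases hcov i hi with h | ⟨h, hm'⟩
  · have hs := hsol ⟨i, h⟩
    simp only at hs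
    linear_combination hs + PhU B g k x x (tU F k * sU F k ^ i) * (CharTwo.two_eq_zero (R := F))
  · subst h
    have e3 : tU F (2 * (i + 1)) * sU F _ ^ i * nmU (u * P) = tU F (2 * (i + 1)) * sU F _ ^ i * 0 +
        evU hk (nmU (u * P)) • (tU F (2 * (i + 1)) * sU F _ ^ i) := by
      rw [mul_zero, zero_add, ← tU_pow_top_even, top_mul_evU hk]
    rw [e3, mul_zero, zero_add, map_smul, sU_pow_eq_zero (j := i + 1) le_rfl, mul_zero, map_zero, add_zero,
      ← tU_pow_top_even, hα, hβ, smul_zero, add_zero]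

theorem scale_cross (hE : IsAlt2 B g) (hk : k ≠ 0) {x y : V} (hp : IsUPair B g k x y) :
    ∃ v, IsUnit v ∧ (PhU B g k x y (tU F k ^ (k - 1)) = 1 → evU hk v = 1) ∧
      ∀ a, PhU B g k x (psi g (recip_uMod k).monic y v) a = deltaU F k a := by
  obtain ⟨hx, hy, ht⟩ := hp
  have hm := (recip_uMod (F := F) k).monic
  have hdn : Nd (deltaU F k) := nd_linear hk (by rw [deltaU_top hk]; exact one_ne_zero)
  obtain ⟨C, hC⟩ := exists_rep hm hdn (PhU B g k x y)
  have hCu := isUnit_of_rep hm (nd_linear hk ht) hC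
  obtain ⟨C', hC'⟩ := hCu.exists_left_inv
  refine ⟨sigU F k C', (IsUnit.of_mul_eq_one _ hC').map _, fun h1 => ?_, fun a => ?_⟩
  · rw [evU_sig]
    have h2 := hC (tU F k ^ (k - 1))
    rw [h1, mul_comm, top_mul_evU hk, map_smul, deltaU_top hk, smul_eq_mul, mul_one] at h2
    have h3 := congrArg (evU hk) hC'
    rwa [map_mul, ← h2, mul_one, map_one] at h3
  · rw [PhU, Phi_psi_right hE.eps (recip_uMod k) hx hy, sig_sig]
    change PhU B g k x y _ = _
    rw [hC]
    congr 1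
    linear_combination a * hC'

/-- **Normal plain pairs.** -/
theorem exists_plain (hE : IsAlt2 B g) (hk : k ≠ 0) {x y : V} (hp : IsUPair B g k x y)
    (hα : PhU B g k x x (tU F k ^ (k - 1)) = 0) (hβ : PhU B g k y y (tU F k ^ (k - 1)) = 0)
    (hodd : ∀ l, k = 2 * l + 1 → PhU B g k y y (tU F k * sU F k ^ (l - 1)) = 0) :
    ∃ x' y', x' ∈ kill g (uMod F k) ∧ y' ∈ kill g (uMod F k) ∧ PhU B g k x' x' = dFun F k 0 ∧
      PhU B g k y' y' = dFun F k 0 ∧ PhU B g k x' y' = deltaU F k := by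
  obtain ⟨x', hp', hx'⟩ := kill_step hE hk hp hα hβ hodd
  obtain ⟨y', hq, hy'⟩ := kill_step hE hk (hp'.symm hE hk) hβ (by rw [hx']; rfl) (fun l _ => by rw [hx']; rfl)
  have hp2 := hq.symm hE hk
  obtain ⟨v, -, -, hv⟩ := scale_cross hE hk hp2
  refine ⟨x', psi g (recip_uMod k).monic y' v, hp2.1, psi_mem _ hp2.2.1 _, by rw [dFun_zero, hx'], ?_,
    LinearMap.ext hv⟩
  refine LinearMap.ext fun a => ?_
  rw [dFun_zero, PhU, Phi_psi hE.eps (recip_uMod k) hp2.2.1 hp2.2.1]
  exact LinearMap.congr_fun hy' _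

/-- Making the binary form of top values standard. -/
theorem exists_binary (hE : IsAlt2 B g) {x y : V} (hp : IsUPair B g (2 * (l + 1) + 1) x y)
    (hv : PhU B g (2 * (l + 1) + 1) x x (tU F (2 * (l + 1) + 1) * sU F (2 * (l + 1) + 1) ^ l) ≠ 0)
    (hw : ¬ ASq (PhU B g (2 * (l + 1) + 1) x x (tU F (2 * (l + 1) + 1) * sU F (2 * (l + 1) + 1) ^ l) * PhU B g (2 * (l + 1) + 1) y y (tU F (2 * (l + 1) + 1) * sU F (2 * (l + 1) + 1) ^ l) /
      PhU B g (2 * (l + 1) + 1) x y (tU F (2 * (l + 1) + 1) ^ (2 * (l + 1) + 1 - 1)) ^ 2)) :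
    ∃ x' y', IsUPair B g (2 * (l + 1) + 1) x' y' ∧ PhU B g (2 * (l + 1) + 1) x' x' (tU F (2 * (l + 1) + 1) * sU F (2 * (l + 1) + 1) ^ l) = 1 ∧
      PhU B g (2 * (l + 1) + 1) y' y' (tU F (2 * (l + 1) + 1) * sU F (2 * (l + 1) + 1) ^ l) = omega0 F ∧
      PhU B g (2 * (l + 1) + 1) x' y' (tU F (2 * (l + 1) + 1) ^ (2 * (l + 1) + 1 - 1)) = 1 := by
  obtain ⟨hx, hy, ht⟩ := hp
  set k := 2 * (l + 1) + 1 with hk
  set hm := recip_uMod (F := F) k
  set v₁ := PhU B g k x x (tU F k * sU F k ^ l) with hv₁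
  set v₂ := PhU B g k y y (tU F k * sU F k ^ l) with hv₂
  set t := PhU B g k x y (tU F k ^ (k - 1)) with htd
  obtain ⟨c, hc⟩ : ∃ c, c ^ 2 = v₁ := (bijective_frobenius F 2).2 v₁
  have hc0 : c ≠ 0 := fun e => hv (by rw [← hc, e, sq, mul_zero])
  obtain ⟨z, hz⟩ : ASq (v₁ * v₂ / t ^ 2 + omega0 F) :=
    asq_add_iff.2 (iff_of_false hw not_asq_omega0)
  set x₁ := c⁻¹ • x with hx₁
  set y₁ := (c / t) • y with hy₁
  have hx₁k : x₁ ∈ kill g (uMod F k) := Submodule.smul_mem _ _ hx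
  have hy₁k : y₁ ∈ kill g (uMod F k) := Submodule.smul_mem _ _ hy
  have h11 : PhU B g k x₁ x₁ (tU F k * sU F k ^ l) = 1 := by
    rw [PhU_smul, LinearMap.smul_apply, ← hv₁, ← hc, smul_eq_mul]; field_simp
  have h12 : PhU B g k x₁ y₁ (tU F k ^ (k - 1)) = 1 := by
    rw [PhU_smul, LinearMap.smul_apply, ← htd, smul_eq_mul]; field_simp
  have h22 : PhU B g k y₁ y₁ (tU F k * sU F k ^ l) = v₁ * v₂ / t ^ 2 := by
    rw [PhU_smul, LinearMap.smul_apply, ← hv₂, ← hc, smul_eq_mul]; ring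
  set y₂ := psi g hm.monic x₁ (algebraMap F _ z) + psi g hm.monic y₁ 1 with hy₂
  have hy₂k : y₂ ∈ kill g (uMod F k) := add_mem (psi_mem _ hx₁k _) (psi_mem _ hy₁k _)
  have h12' : PhU B g k x₁ y₂ (tU F k ^ (k - 1)) = 1 := by
    rw [hy₂, PhU, Phi_add_right]
    change PhU B g k _ _ _ + PhU B g k _ _ _ = _
    have h0 : PhU B g k x₁ x₁ (tU F k ^ (k - 1)) = 0 := IsDiag.top_odd (l := l + 1) (isDiag_PhU hE hx₁k)
    rw [top_psi_right hE (by omega) hx₁k hx₁k, psi_one _ hy₁k, h12, h0, mul_zero, zero_add]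
  refine ⟨x₁, y₂, ⟨hx₁k, hy₂k, by rw [h12']; exact one_ne_zero⟩, h11, ?_, h12'⟩
  have e : sU F k ^ (l + 1) * (algebraMap F _ z * sigU F k 1) = z • tU F k ^ (k - 1) := by
    rw [map_one, mul_one, Algebra.smul_def, show tU F k ^ (k - 1) = sU F k ^ (l + 1) from tU_pow_top_odd]
    ring
  rw [hy₂, PhU_combine hE hx₁k hy₁k, e, map_smul, h12, nmU_Rs (Subalgebra.algebraMap_mem _ z),
    show nmU (1 : UA F k) = 1 by rw [nmU, map_one, mul_one], mul_one, h22,
    mul_comm (tU F k * sU F k ^ l), ← map_pow, ← Algebra.smul_def, map_smul, h11, smul_eq_mul,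
    smul_eq_mul, mul_one, mul_one]
  linear_combination hz + v₁ * v₂ / t ^ 2 * (CharTwo.two_eq_zero (R := F))

/-- **Normal anisotropic pairs.** -/
theorem exists_aniso (hE : IsAlt2 B g) {x y : V} (hp : IsUPair B g (2 * (l + 1) + 1) x y)
    (hv : PhU B g (2 * (l + 1) + 1) x x (tU F (2 * (l + 1) + 1) * sU F (2 * (l + 1) + 1) ^ l) ≠ 0)
    (hw : ¬ ASq (PhU B g (2 * (l + 1) + 1) x x (tU F (2 * (l + 1) + 1) * sU F (2 * (l + 1) + 1) ^ l) * PhU B g (2 * (l + 1) + 1) y y (tU F (2 * (l + 1) + 1) * sU F (2 * (l + 1) + 1) ^ l) /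
      PhU B g (2 * (l + 1) + 1) x y (tU F (2 * (l + 1) + 1) ^ (2 * (l + 1) + 1 - 1)) ^ 2)) :
    ∃ x' y', x' ∈ kill g (uMod F (2 * (l + 1) + 1)) ∧ y' ∈ kill g (uMod F (2 * (l + 1) + 1)) ∧
      PhU B g (2 * (l + 1) + 1) x' x' = dFun F (2 * (l + 1) + 1) 1 ∧ PhU B g (2 * (l + 1) + 1) y' y' = dFun F (2 * (l + 1) + 1) (omega0 F) ∧
      PhU B g (2 * (l + 1) + 1) x' y' = deltaU F (2 * (l + 1) + 1) := by
  obtain ⟨x, y, ⟨hx, hy, -⟩, hα, hβ, ht⟩ := exists_binary hE hp hv hw
  set k := 2 * (l + 1) + 1 with hk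
  have hk0 : k ≠ 0 := by omega
  set hm := recip_uMod (F := F) k
  have htop : tU F k ^ (k - 1) = sU F k ^ (l + 1) := tU_pow_top_odd
  have hi2 : ∀ {i : ℕ}, 2 * i + 1 < k → i < l + 1 := fun h => by omega
  -- the lower diagonal values of the first vector
  obtain ⟨P, hP, hsol⟩ := kill_exists (PhU B g k x y) (PhU B g k y y) (sU F k) (m := l) (ν := 2)
    (by rw [← pow_succ', ← htop, ht]; exact one_ne_zero)
    (fun e he => by rw [← pow_succ']; exact sU_pow_eq_zero (by omega))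
    (by rw [nmU_Rs sU_mem])
    (fun e he => by rw [tU_sU_pow_eq_zero (by omega), map_zero])
    (fun i => PhU B g k x x (tU F k * sU F k ^ (i : ℕ)))
  set a := sU F k * P with hadef
  have haR : a ∈ Rs F k := mul_mem sU_mem hP
  set x' := psi g hm.monic x 1 + psi g hm.monic y a with hx'
  have hx'k : x' ∈ kill g (uMod F k) := add_mem (psi_mem _ hx _) (psi_mem _ hy _)
  have hx'v : DVals (PhU B g k x' x') (1 : F) := by
    refine ⟨isDiag_PhU hE hx'k, fun i hi => ?_⟩
    rw [hx', PhU_combine hE hx hy, nmU, map_one, one_mul, mul_one, one_mul, sig_Rs haR,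
      mul_comm (sU F k ^ (i + 1))]
    have := hi2 hi
    rcases Nat.lt_or_ge i l with h | h
    · have hs := hsol ⟨i, h⟩
      simp only at hs
      rw [if_neg (by omega)]
      linear_combination hs + PhU B g k x x (tU F k * sU F k ^ i) * (CharTwo.two_eq_zero (R := F))
    · obtain rfl : i = l := by omega
      rw [if_pos (by omega), hα, nmU_Rs haR]
      have z1 : tU F k * sU F k ^ i * a ^ 2 = 0 := by
        rw [hadef, show tU F k * sU F k ^ i * (sU F k * P) ^ 2 = tU F k * sU F k ^ (i + 2) * P ^ 2 by ring,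
          tU_sU_pow_eq_zero (by omega), zero_mul]
      have z2 : a * sU F k ^ (i + 1) = 0 := by
        rw [hadef, show sU F k * P * sU F k ^ (i + 1) = sU F k ^ (i + 2) * P by ring, sU_pow_eq_zero (by omega),
          zero_mul]
      rw [z1, z2, map_zero, map_zero, add_zero, add_zero]
  have ht' : PhU B g k x' y (tU F k ^ (k - 1)) = 1 := by
    rw [hx', PhU, Phi_add_left, psi_one _ hx, Phi_psi_left hE.eps hm hy hy, top_mul_evU hk0, map_smul]
    change PhU B g k x y _ + _ • PhU B g k y y _ = _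
    rw [(isDiag_PhU hE hy).top_odd, smul_zero, add_zero, ht]
  -- the cross functional
  obtain ⟨v, -, hv1, hcross⟩ := scale_cross hE hk0 (x := x') (y := y)
    ⟨hx'k, hy, by rw [ht']; exact one_ne_zero⟩
  set y₁ := psi g hm.monic y v with hy₁
  have hy₁k : y₁ ∈ kill g (uMod F k) := psi_mem _ hy _
  have hβ₁ : PhU B g k y₁ y₁ (tU F k * sU F k ^ l) = omega0 F := by
    rw [hy₁, PhU, Phi_psi hE.eps hm hy hy]
    change PhU B g k y y (_ * nmU v) = _
    obtain ⟨c, w, hw', e⟩ := exists_Rs_split (nmU_mem v)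
    have hc : c = 1 := by
      have h1 := congrArg (evU hk0) e
      rw [nmU, map_mul, evU_sig, hv1 ht', map_add, map_mul, evU_sU, zero_mul, add_zero, AlgHom.commutes,
        Algebra.algebraMap_self, RingHom.id_apply, mul_one] at h1
      exact h1.symm
    rw [e, hc, map_one, mul_add, mul_one,
      show tU F k * sU F k ^ l * (sU F k * w) = tU F k * sU F k ^ (l + 1) * w by rw [pow_succ]; ring,
      tU_sU_pow_eq_zero (j := l + 1) (by omega), zero_mul, add_zero, hβ]
  -- the lower diagonal values of the second vector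
  set α' := PhU B g k x' x' with hα'
  set β' := PhU B g k y₁ y₁ with hβ'
  have hdn : Nd (deltaU F k) := nd_linear hk0 (by rw [deltaU_top hk0]; exact one_ne_zero)
  obtain ⟨r, hr⟩ := exists_rep hm.monic hdn α'
  obtain ⟨w, hw', hwe⟩ := add_sig_mem r
  let γ' : UA F k →ₗ[F] F := deltaU F k + β' ∘ₗ LinearMap.mulLeft F (tU F k * w)
  let β'' : UA F k →ₗ[F] F := β' ∘ₗ LinearMap.mulRight F (nmU r) + α'
  obtain ⟨P', hP', hsol'⟩ := kill_exists γ' β'' (sU F k) (m := l) (ν := 2)
    (by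
      rw [← pow_succ']
      show deltaU F k (sU F k ^ (l + 1)) + β' (tU F k * w * sU F k ^ (l + 1)) ≠ 0
      rw [← htop, deltaU_top hk0, htop, mul_right_comm, tU_sU_pow_eq_zero (by omega), zero_mul, map_zero,
        add_zero]
      exact one_ne_zero)
    (fun e he => by rw [← pow_succ']; exact sU_pow_eq_zero (by omega))
    (by rw [nmU_Rs sU_mem])
    (fun e he => by rw [tU_sU_pow_eq_zero (by omega), map_zero])
    (fun i => β' (tU F k * sU F k ^ (i : ℕ)))
  set b := sU F k * P' with hbdef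
  have hbR : b ∈ Rs F k := mul_mem sU_mem hP'
  set u := 1 + sigU F k r * b with hudef
  have hσu : sigU F k u = 1 + r * b := by rw [hudef, map_add, map_one, map_mul, sig_sig, sig_Rs hbR]
  have hNu : nmU u = 1 + sU F k * w * b + nmU r * b ^ 2 := by
    rw [nmU, hσu, hudef, nmU]
    linear_combination b * hwe
  set y₂ := psi g hm.monic x' b + psi g hm.monic y₁ u with hy₂
  have hy₂k : y₂ ∈ kill g (uMod F k) := add_mem (psi_mem _ hx'k _) (psi_mem _ hy₁k _)
  have hγ₂ : PhU B g k x' y₂ = deltaU F k := by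
    refine LinearMap.ext fun c => ?_
    rw [hy₂, PhU, Phi_add_right, Phi_psi_right hE.eps hm hx'k hx'k, Phi_psi_right hE.eps hm hx'k hy₁k]
    change α' _ + PhU B g k x' y₁ _ = _
    rw [hy₁, hcross, hr, ← map_add, hσu, sig_Rs hbR]
    congr 1
    linear_combination (c * r * b) * two_eq_zero_U (F := F) (k := k)
  have hy₂v : DVals (PhU B g k y₂ y₂) (omega0 F) := by
    refine ⟨isDiag_PhU hE hy₂k, fun i hi => ?_⟩
    rw [hy₂, PhU_combine hE hx'k hy₁k, ← hy₁] at *
    change α' _ + β' _ + PhU B g k x' y₁ _ = _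
    rw [hy₁, hcross, hσu, nmU_Rs hbR, hNu]
    have eA : deltaU F k (sU F k ^ (i + 1) * (b * (1 + r * b))) = deltaU F k (b * sU F k ^ (i + 1)) := by
      rw [show sU F k ^ (i + 1) * (b * (1 + r * b)) = b * sU F k ^ (i + 1) + r * (sU F k ^ (i + 1) * b ^ 2) by
        ring, map_add, ← hr, (isDiag_PhU hE hx'k) _ (mul_mem (sU_pow_mem _) (pow_mem hbR 2)), add_zero]
    rw [eA, show tU F k * sU F k ^ i * (1 + sU F k * w * b + nmU r * b ^ 2) = tU F k * sU F k ^ i +
        tU F k * w * (b * sU F k ^ (i + 1)) + tU F k * sU F k ^ i * b ^ 2 * nmU r by ring, map_add, map_add]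
    have := hi2 hi
    rcases Nat.lt_or_ge i l with h | h
    · have hs := hsol' ⟨i, h⟩
      simp only [γ', β'', LinearMap.add_apply, LinearMap.comp_apply, LinearMap.mulLeft_apply,
        LinearMap.mulRight_apply, nmU_Rs hbR] at hs
      rw [if_neg (by omega)]
      linear_combination hs + β' (tU F k * sU F k ^ i) * (CharTwo.two_eq_zero (R := F))
    · obtain rfl : i = l := by omega
      have z1 : tU F k * sU F k ^ i * b ^ 2 = 0 := by
        rw [hbdef, show tU F k * sU F k ^ i * (sU F k * P') ^ 2 = tU F k * sU F k ^ (i + 2) * P' ^ 2 by ring,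
          tU_sU_pow_eq_zero (by omega), zero_mul]
      have z2 : b * sU F k ^ (i + 1) = 0 := by
        rw [hbdef, show sU F k * P' * sU F k ^ (i + 1) = sU F k ^ (i + 2) * P' by ring,
          sU_pow_eq_zero (by omega), zero_mul]
      rw [if_pos (by omega), z1, z2, mul_zero, zero_mul, map_zero, map_zero, map_zero, add_zero, add_zero,
        add_zero, zero_add, hβ₁]
  exact ⟨x', y₂, hx'k, hy₂k, eq_dFun hx'v, eq_dFun hy₂v, hγ₂⟩

end CfsgLib.IsometryClasses.Two
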