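import Cfsg.Agent.IsometryClasses.Two.Count
import Cfsg.Agent.IsometryClasses.SympClasses

/-!
# Class numbers of symplectic groups in characteristic two
-/

set_option autoImplicit false
set_option linter.style.haveILetI false

namespace CfsgLib.IsometryClasses.Two

open Polynomial Module Matrix

variable {F : Type*} [Field F] [Fintype F] [CharP F 2] {n : ℕ}

open scoped Classical

omit [Fintype F] in
theorem isAlt2_autEquiv (g : Matrix.symplecticGroup (Fin n) F) : IsAlt2 (stdB F n) (autEquiv g) := by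
  refine ⟨CharTwo.neg_eq (1 : F) ▸ isEps_autEquiv g, fun x => ?_⟩
  rw [stdB_eq, Cfsg.sympForm]
  simp only [dotProduct, Matrix.mulVec, Matrix.J, Fintype.sum_sum_type, Matrix.fromBlocks_apply₁₁,
    Matrix.fromBlocks_apply₁₂, Matrix.fromBlocks_apply₂₁, Matrix.fromBlocks_apply₂₂, Matrix.neg_apply,
    Matrix.zero_apply, zero_mul, Finset.sum_const_zero, zero_add, add_zero]
  simp [Matrix.one_apply, mul_comm]

theorem exists_symp_toks (g : Matrix.symplecticGroup (Fin n) F) :
    ∃ M ∈ tokSet F n, HasToks (stdB F n) (autEquiv g) M := by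
  obtain ⟨M, hM, ι, _, tok, ⟨N⟩, hN⟩ := exists_toks _ (stdB F n) (autEquiv g) (isAlt2_autEquiv g) rfl
  refine ⟨M, ⟨hM, ?_⟩, ι, inferInstance, tok, ⟨N⟩, hN⟩
  have h := N.sum_finrank
  rw [Module.finrank_pi, Fintype.card_sum, Fintype.card_fin,
    Finset.sum_congr rfl fun i _ => Tok.two_mul_hw (hM.1.valid _ (hN ▸ Multiset.mem_map.2 ⟨i, Finset.mem_univ i, rfl⟩)),
    ← Finset.mul_sum] at h
  rw [← hN, Multiset.map_map]
  show ∑ i, (tok i).hw = n
  omega

omit [Fintype F] in
/-- The tokens of a conjugacy class determine it. -/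
theorem isConj_of_toks {g g' : Matrix.symplecticGroup (Fin n) F} {M : Multiset (Tok F)}
    (h : HasToks (stdB F n) (autEquiv g) M) (h' : HasToks (stdB F n) (autEquiv g') M) : IsConj g g' := by
  obtain ⟨e, he, hB⟩ := HasToks.exists_isometry (isAlt2_autEquiv g).eps (isAlt2_autEquiv g').eps h h'
  set A := LinearMap.toMatrix' e.toLinearMap with hA
  have hAv : ∀ v, A *ᵥ v = e v := fun v => by rw [hA, LinearMap.toMatrix'_mulVec]; rfl
  have hmem : A ∈ Matrix.symplecticGroup (Fin n) F := (mem_iff_stdB _).2 fun u v => by rw [hAv, hAv, hB]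
  refine isConj_iff.2 ⟨⟨A, hmem⟩, ?_⟩
  rw [mul_inv_eq_iff_eq_mul]
  apply Subtype.ext
  rw [Submonoid.coe_mul, Submonoid.coe_mul]
  refine Matrix.ext_iff_mulVec.2 fun v => ?_
  rw [← Matrix.mulVec_mulVec, ← Matrix.mulVec_mulVec, hAv, hAv]
  exact he v

theorem symp_card_classes_le :
    5 * Nat.card (ConjClasses (Matrix.symplecticGroup (Fin n) F)) ≤ 76 * Fintype.card F ^ n := by
  choose f hf hfl using exists_symp_toks (F := F) (n := n)
  have hinj : Function.Injective (fun C : ConjClasses (Matrix.symplecticGroup (Fin n) F) =>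
      (⟨f C.exists_rep.choose, hf _⟩ : tokSet F n)) := by
    intro C D e
    rw [← C.exists_rep.choose_spec, ← D.exists_rep.choose_spec]
    refine ConjClasses.mk_eq_mk_iff_isConj.2 (isConj_of_toks (hfl _) ?_)
    rw [show f C.exists_rep.choose = f D.exists_rep.choose from congrArg Subtype.val e]
    exact hfl _
  obtain ⟨hfin, hle⟩ := tokSet_card_le (F := F) n
  haveI := hfin.to_subtype
  have h1 := Nat.card_le_card_of_injective _ hinj
  rw [Nat.card_coe_set_eq] at h1
  omega

end CfsgLib.IsometryClasses.Two
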