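import Cfsg.Agent.IsometryClasses.Two.RotElement
import Cfsg.Agent.IsometryClasses.Two.SympClasses

/-!
# Class numbers of even dimensional orthogonal groups in characteristic two
-/

set_option autoImplicit false
set_option linter.style.haveILetI false

namespace CfsgLib.IsometryClasses.Two

open Polynomial Module Matrix CfsgLib.Char2Forms CfsgLib.OrthoCharTwo
open scoped Classical

variable {F : Type*} [Field F] {ι : Type} [Fintype ι] [DecidableEq ι]

/-- The linear automorphism of an invertible matrix. -/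
noncomputable def glEquiv (x : GL ι F) : (ι → F) ≃ₗ[F] (ι → F) :=
  LinearEquiv.ofLinearMap (Matrix.toLin' (x : Matrix ι ι F)) (Matrix.toLin' ((x⁻¹ : GL ι F) : Matrix ι ι F))
    (by rw [← Matrix.toLin'_mul, ← Units.val_mul, mul_inv_cancel, Units.val_one, Matrix.toLin'_one])
    (by rw [← Matrix.toLin'_mul, ← Units.val_mul, inv_mul_cancel, Units.val_one, Matrix.toLin'_one])

theorem glEquiv_apply (x : GL ι F) (v : ι → F) : glEquiv x v = (x : Matrix ι ι F) *ᵥ v :=
  Matrix.toLin'_apply _ _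

/-- Conjugate elements have the same annihilating polynomials of `x + x⁻¹`. -/
theorem aeval_conj_iff {k x x' : GL ι F} (h : k * x * k⁻¹ = x') (p : F[X]) :
    aeval ((x : Matrix ι ι F) + ((x⁻¹ : GL ι F) : Matrix ι ι F)) p = 0 ↔
      aeval ((x' : Matrix ι ι F) + ((x'⁻¹ : GL ι F) : Matrix ι ι F)) p = 0 := by
  have a1 : k * x = x' * k := by rw [← h, inv_mul_cancel_right]
  have a2 : k * x⁻¹ = x'⁻¹ * k := by rw [← h]; group
  have e1 : (k : Matrix ι ι F) * ((x : Matrix ι ι F) + ((x⁻¹ : GL ι F) : Matrix ι ι F)) =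
      ((x' : Matrix ι ι F) + ((x'⁻¹ : GL ι F) : Matrix ι ι F)) * (k : Matrix ι ι F) := by
    rw [mul_add, add_mul, ← Units.val_mul, ← Units.val_mul, ← Units.val_mul, ← Units.val_mul, a1, a2]
  have e2 : (k : Matrix ι ι F) * aeval ((x : Matrix ι ι F) + ((x⁻¹ : GL ι F) : Matrix ι ι F)) p =
      aeval ((x' : Matrix ι ι F) + ((x'⁻¹ : GL ι F) : Matrix ι ι F)) p * (k : Matrix ι ι F) := by
    induction p using Polynomial.induction_on with
    | C c => simp [Algebra.commutes]
    | add p q hp hq => rw [map_add, map_add, mul_add, add_mul, hp, hq]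
    | monomial j c ih =>
      rw [show C c * X ^ (j + 1) = (C c * X ^ j) * X by ring, map_mul, map_mul (aeval _) _ X, aeval_X, aeval_X,
        ← mul_assoc, ih, mul_assoc, e1, mul_assoc]
  rw [← k.isUnit.mul_right_eq_zero, e2, k.isUnit.mul_left_eq_zero]

/-- The annihilator criterion determines the polynomial. -/
theorem eq_of_criterion {h h' : F[X]} (hm : h.Monic) (hm' : h'.Monic) (h0 : h.coeff 0 ≠ 0)
    (h0' : h'.coeff 0 ≠ 0) {i i' : ℕ}
    (H : ∀ p : F[X], (h ∣ p ∧ (i = 0 ∨ p.eval 0 = 0)) ↔ (h' ∣ p ∧ (i' = 0 ∨ p.eval 0 = 0))) : h = h' := by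
  have hd : ∀ {a b : F[X]}, a.coeff 0 ≠ 0 → a ∣ b * X → a ∣ b := fun ha hab =>
    ((irreducible_X.coprime_iff_not_dvd).2 (fun hx => ha (X_dvd_iff.1 hx))).symm.dvd_of_dvd_mul_right hab
  exact eq_of_monic_of_associated hm hm' (associated_of_dvd_dvd
    (hd h0 ((H (h' * X)).2 ⟨dvd_mul_right _ _, Or.inr (by simp)⟩).1)
    (hd h0' ((H (h * X)).1 ⟨dvd_mul_right _ _, Or.inr (by simp)⟩).1))

variable [Fintype F] [CharP F 2] {Q : (ι → F) → F}

omit [Fintype F] [CharP F 2] in
theorem isAlt2_polar (hQ : Form2 Q) {x : GL ι F} (hx : x ∈ polarGroup Q) :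
    IsAlt2 hQ.polarLin (glEquiv x) := by
  refine ⟨⟨fun u v => ?_, fun u v => ?_, fun u hu => hQ.nondeg u hu⟩, hQ.polar_self⟩
  · simp only [Form2.polarLin_apply, glEquiv_apply]
    exact hx u v
  · rw [one_mul]
    exact QuadraticMap.polar_comm Q v u

theorem exists_polar_toks (hQ : Form2 Q) {n : ℕ} (hn : Fintype.card ι = 2 * n) {x : GL ι F}
    (hx : x ∈ polarGroup Q) : ∃ M ∈ tokSet F n, HasToks hQ.polarLin (glEquiv x) M := by
  obtain ⟨M, hM, κ, _, tok, ⟨N⟩, hN⟩ := exists_toks _ hQ.polarLin (glEquiv x) (isAlt2_polar hQ hx) rfl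
  refine ⟨M, ⟨hM, ?_⟩, κ, inferInstance, tok, ⟨N⟩, hN⟩
  have h := N.sum_finrank
  rw [Module.finrank_pi, hn,
    Finset.sum_congr rfl fun i _ => Tok.two_mul_hw (hM.1.valid _ (hN ▸ Multiset.mem_map.2 ⟨i, Finset.mem_univ i, rfl⟩)),
    ← Finset.mul_sum] at h
  rw [← hN, Multiset.map_map]
  show ∑ i, (tok i).hw = n
  omega

/-- The tokens determine the class in the group of the polar form. -/
theorem exists_conj_of_toks (hQ : Form2 Q) {x x' : GL ι F} (hx : x ∈ polarGroup Q) (hx' : x' ∈ polarGroup Q)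
    {M : Multiset (Tok F)} (h : HasToks hQ.polarLin (glEquiv x) M) (h' : HasToks hQ.polarLin (glEquiv x') M) :
    ∃ k ∈ polarGroup Q, k * x * k⁻¹ = x' := by
  obtain ⟨e, he, hB⟩ := HasToks.exists_isometry (isAlt2_polar hQ hx).eps (isAlt2_polar hQ hx').eps h h'
  let k : GL ι F := ⟨LinearMap.toMatrix' e.toLinearMap, LinearMap.toMatrix' e.symm.toLinearMap,
    by rw [← LinearMap.toMatrix'_comp, LinearEquiv.comp_symm, LinearMap.toMatrix'_id],
    by rw [← LinearMap.toMatrix'_comp, LinearEquiv.symm_comp, LinearMap.toMatrix'_id]⟩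
  have hk : ∀ v, (k : Matrix ι ι F) *ᵥ v = e v := fun v => LinearMap.toMatrix'_mulVec _ _
  refine ⟨k, mem_polarGroup.2 fun u v => by rw [hk, hk]; exact hB u v, ?_⟩
  rw [mul_inv_eq_iff_eq_mul]
  refine gl_ext fun v => ?_
  rw [Units.val_mul, Units.val_mul, ← mulVec_mulVec, ← mulVec_mulVec, hk, hk, ← glEquiv_apply, ← glEquiv_apply]
  exact he v

/-- An element without fixed vectors preserves at most one form with the given polar form. -/
theorem eq_of_two_shifts (hQ : Form2 Q) {x : GL ι F} (hx : x ∈ polarGroup Q)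
    (hfix : ∀ v, (x : Matrix ι ι F) *ᵥ v = v → v = 0) {a b : ι → F}
    (ha : ∀ v, shift Q a ((x : Matrix ι ι F) *ᵥ v) = shift Q a v)
    (hb : ∀ v, shift Q b ((x : Matrix ι ι F) *ᵥ v) = shift Q b v) : a = b := by
  have hc : (x : Matrix ι ι F) *ᵥ (a + b) = a + b := by
    set c := a + b with hc
    have h2 : (x : Matrix ι ι F) *ᵥ c + c = 0 := hQ.hnd _ fun w => by
      obtain ⟨v, rfl⟩ : ∃ v, (x : Matrix ι ι F) *ᵥ v = w :=
        ⟨((x⁻¹ : GL ι F) : Matrix ι ι F) *ᵥ w, by
          rw [mulVec_mulVec, ← Units.val_mul, mul_inv_cancel, Units.val_one, one_mulVec]⟩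
      show QuadraticMap.polar Q _ (_ + c) = 0
      rw [hQ.bil.add_right, mem_polarGroup.1 hx v c]
      refine CharTwo.add_eq_zero.2 ((bijective_frobenius F 2).1 ?_)
      show QuadraticMap.polar Q v c ^ 2 = QuadraticMap.polar Q ((x : Matrix ι ι F) *ᵥ v) c ^ 2
      rw [hc, hQ.bil.add_right, hQ.bil.add_right, CharTwo.add_sq, CharTwo.add_sq]
      have e1 := ha v
      have e2 := hb v
      simp only [shift] at e1 e2
      linear_combination -e1 - e2 + (Q v - Q ((x : Matrix ι ι F) *ᵥ v)) * (-1 : F) * CharTwo.two_eq_zero (R := F)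
    funext j
    exact CharTwo.add_eq_zero.1 (congrFun h2 j)
  funext j
  exact CharTwo.add_eq_zero.1 (congrFun (hfix _ hc) j)

/-- The class number bounds. -/
theorem orth_card_classes_bounds (hQ : Form2 Q) {n : ℕ} (hn2 : 2 ≤ n) (hn : Fintype.card ι = 2 * n) :
    Fintype.card F ^ n ≤ 2 * Nat.card (ConjClasses (Cfsg.isometryGroup F Q)) ∧
      Nat.card (ConjClasses (Cfsg.isometryGroup F Q)) ≤ 15 * Fintype.card F ^ n := by
  obtain ⟨c0, hc0⟩ := OrthoCharTwo.exists_psi_ne_one (F := F)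
  have hq : (Fintype.card F : ℤ) ^ n ≠ 0 := pow_ne_zero _ (by exact_mod_cast Fintype.card_ne_zero)
  obtain ⟨s, hs, hgs⟩ : ∃ s : ℤ, (s = 1 ∨ s = -1) ∧ gsum Q = s * (Fintype.card F : ℤ) ^ n := by
    rcases gsum_cases hQ hn with h | h
    · exact ⟨1, Or.inl rfl, by rw [h, one_mul]⟩
    · exact ⟨-1, Or.inr rfl, by rw [h]; ring⟩
  have hss : s * s = 1 := by rcases hs with rfl | rfl <;> rfl
  have key : ∀ {h : F[X]} (hm : h.Monic), h.coeff 0 ≠ 0 → ∀ {i : ℕ}, h.natDegree + i = n → ∀ δ : F,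
      ∃ x ∈ polarGroup Q, ∃ a,
        OrthoCharTwo.psi (Q a) = OrthoCharTwo.psi (rotArf hm + if i = 0 then 0 else δ) * s ∧
        (∀ v, shift Q a ((x : Matrix ι ι F) *ᵥ v) = shift Q a v) ∧
        (∀ p : F[X], aeval ((x : Matrix ι ι F) + ((x⁻¹ : GL ι F) : Matrix ι ι F)) p = 0 ↔
          h ∣ p ∧ (i = 0 ∨ p.eval 0 = 0)) ∧
        (i = 0 → ∀ v, (x : Matrix ι ι F) *ᵥ v = v → v = 0) := by
    intro h hm h0 i hd δ
    obtain ⟨x, hx, a, hfix, hg, hcr, hnf⟩ := exists_polar_element hQ hn hm h0 hd δ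
    refine ⟨x, hx, a, ?_, hfix, hcr, hnf⟩
    rw [gsum_shift hQ, hgs, ← mul_assoc] at hg
    rw [← mul_right_cancel₀ hq hg, mul_assoc, hss, mul_one]
  -- the polynomials
  let P : (Fin n → F) → F[X] := fun f => X ^ n + ∑ j : Fin n, C (f j) * X ^ (j : ℕ)
  have hdeg : ∀ f : Fin n → F, (∑ j : Fin n, C (f j) * X ^ (j : ℕ)).degree < (n : WithBot ℕ) := fun f =>
    degree_sum_fin_lt f
  have hm : ∀ f, (P f).Monic := fun f => monic_X_pow_add (hdeg f)
  have hd : ∀ f, (P f).natDegree = n := fun f => by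
    refine natDegree_eq_of_degree_eq_some ?_
    show (X ^ n + ∑ j : Fin n, C (f j) * X ^ (j : ℕ)).degree = _
    rw [degree_add_eq_left_of_degree_lt (by rw [degree_X_pow]; exact hdeg f), degree_X_pow]
  have hco : ∀ f (j : Fin n), (P f).coeff (j : ℕ) = f j := fun f j => by
    simp [P, finsetSum_coeff, Fin.val_inj, j.isLt.ne]
  have hPinj : Function.Injective P := fun f f' e => funext fun j => by rw [← hco f, ← hco f', e]
  set i0 : Fin n := ⟨0, by omega⟩ with hi0
  set i1 : Fin n := ⟨1, by omega⟩ with hi1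
  have h01 : i0 ≠ i1 := fun e => by simpa [hi0, hi1] using congrArg Fin.val e
  let sg : (Fin n → F) → ℤ := fun f => OrthoCharTwo.psi (rotArf (hm f))
  let A : ℤ → Finset (Fin n → F) := fun t => Finset.univ.filter fun f => f i0 ≠ 0 ∧ sg f = t
  let Z : Finset (Fin n → F) := Finset.univ.filter fun f => f i0 = 0
  have hA : ∀ {t f}, f ∈ A t ↔ f i0 ≠ 0 ∧ sg f = t := by simp [A]
  have hZ : ∀ {f}, f ∈ Z ↔ f i0 = 0 := by simp [Z]
  let σ : (Fin n → F) → (Fin n → F) := fun f => Function.update f i1 (f i1 + c0 * f i0)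
  have hσ0 : ∀ f, σ f i0 = f i0 := fun f => Function.update_of_ne h01 _ _
  have hσσ : ∀ f, σ (σ f) = f := fun f => by
    show Function.update (σ f) i1 (σ f i1 + c0 * σ f i0) = f
    rw [hσ0, show σ f i1 = f i1 + c0 * f i0 from Function.update_self _ _ _, add_assoc,
      CharTwo.add_self_eq_zero, add_zero, Function.update_idem, Function.update_eq_self]
  have hσs : ∀ f, f i0 ≠ 0 → sg (σ f) = -sg f := fun f hf => by
    have he : P (σ f) = P f + C (c0 * f i0) * X := by
      ext m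
      have hr : (P f + C (c0 * f i0) * X).coeff m = (P f).coeff m + if m = 1 then c0 * f i0 else 0 := by
        rw [coeff_add (P f), coeff_C_mul_X]
      rw [hr]
      rcases Nat.lt_trichotomy m n with hlt | heq | hgt
      · rw [hco (σ f) ⟨m, hlt⟩, hco f ⟨m, hlt⟩]
        by_cases h1 : (⟨m, hlt⟩ : Fin n) = i1
        · rw [if_pos (congrArg Fin.val h1), h1]
          exact Function.update_self _ _ _
        · rw [if_neg fun e => h1 (Fin.ext e), add_zero]
          exact Function.update_of_ne h1 _ _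
      · subst heq
        rw [if_neg (by omega : ¬ m = 1), add_zero]
        have a1 := (hm (σ f)).coeff_natDegree
        have a2 := (hm f).coeff_natDegree
        rw [hd] at a1 a2
        rw [a1, a2]
      · rw [if_neg (by omega : ¬ m = 1), add_zero,
          coeff_eq_zero_of_natDegree_lt (p := P f) (by rw [hd]; exact hgt),
          coeff_eq_zero_of_natDegree_lt (p := P (σ f)) (by rw [hd]; exact hgt)]
    have h0 : (P f).coeff 0 = f i0 := hco f i0
    show OrthoCharTwo.psi (rotArf (hm (σ f))) = -OrthoCharTwo.psi (rotArf (hm f))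
    rw [rotArf_add (hm f) (hm (σ f)) he (by rw [hd]; exact hn2) (by rw [h0]; exact hf), h0,
      mul_div_cancel_right₀ _ hf, OrthoCharTwo.psi_add, OrthoCharTwo.psi_sq, hc0, mul_neg_one]
  have hflip : (A s).card = (A (-s)).card := by
    refine Finset.card_nbij' σ σ (fun f hf => ?_) (fun f hf => ?_) (fun f _ => hσσ f) fun f _ => hσσ f
    · obtain ⟨h1, h2⟩ := hA.1 hf
      exact hA.2 ⟨by rw [hσ0]; exact h1, by rw [hσs f h1, h2]⟩
    · obtain ⟨h1, h2⟩ := hA.1 hf
      exact hA.2 ⟨by rw [hσ0]; exact h1, by rw [hσs f h1, h2, neg_neg]⟩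
  have hdisj : Disjoint (A s) (A (-s)) := Finset.disjoint_left.2 fun f h1 h2 => by
    have := (hA.1 h1).2.symm.trans (hA.1 h2).2
    rcases hs with rfl | rfl <;> omega
  have hdisjZ : Disjoint (A s ∪ A (-s)) Z := Finset.disjoint_left.2 fun f h1 h2 => by
    rcases Finset.mem_union.1 h1 with h | h <;> exact (hA.1 h).1 (hZ.1 h2)
  have htot : (A s).card + (A (-s)).card + Z.card = Fintype.card F ^ n := by
    rw [← Finset.card_union_of_disjoint hdisj, ← Finset.card_union_of_disjoint hdisjZ,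
      show (A s ∪ A (-s)) ∪ Z = Finset.univ from ?_, Finset.card_univ, Fintype.card_fun, Fintype.card_fin]
    refine Finset.eq_univ_iff_forall.2 fun f => ?_
    by_cases hf : f i0 = 0
    · exact Finset.mem_union_right _ (hZ.2 hf)
    · refine Finset.mem_union_left _ (Finset.mem_union.2 ?_)
      rcases psi_cases (rotArf (hm f)) with h | h <;> rcases hs with rfl | rfl <;>
        simp only [hA, sg, h, hf, neg_neg, ne_eq, not_false_eq_true, true_and] <;> simp
  have hZle : Z.card ≤ (A s ∪ A (-s)).card := by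
    refine Finset.card_le_card_of_injOn (fun f => Function.update f i0 1) (fun f _ => ?_) fun f hf f' hf' e => ?_
    · refine Finset.mem_union.2 ?_
      rcases psi_cases (rotArf (hm (Function.update f i0 1))) with h | h <;> rcases hs with rfl | rfl <;>
        simp [hA, sg, h]
    · have := congrArg (fun g => Function.update g i0 0) e
      simp only [Function.update_idem] at this
      rwa [Function.update_eq_self_iff.2 (hZ.1 hf).symm, Function.update_eq_self_iff.2 (hZ.1 hf').symm] at this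
  rw [Finset.card_union_of_disjoint hdisj] at hZle
  -- same type
  have hlow : ∀ f : {f // f ∈ A s ∪ Z}, ∃ y : Cfsg.isometryGroup F Q, ∃ (h : F[X]) (i : ℕ),
      h.Monic ∧ h.coeff 0 ≠ 0 ∧ h.natDegree + i = n ∧ P f = X ^ i * h ∧
      ∀ p : F[X], aeval (((y : GL ι F) : Matrix ι ι F) + (((y : GL ι F)⁻¹ : GL ι F) : Matrix ι ι F)) p = 0 ↔
        h ∣ p ∧ (i = 0 ∨ p.eval 0 = 0) := by
    rintro ⟨f, hf⟩
    obtain ⟨h, i, hmh, h0, hdi, hP, δ, hδ⟩ : ∃ (h : F[X]) (i : ℕ) (hmh : h.Monic), h.coeff 0 ≠ 0 ∧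
        h.natDegree + i = n ∧ P f = X ^ i * h ∧
          ∃ δ : F, OrthoCharTwo.psi (rotArf hmh + if i = 0 then 0 else δ) = s := by
      rcases Finset.mem_union.1 hf with hf | hf
      · obtain ⟨h1, h2⟩ := hA.1 hf
        exact ⟨P f, 0, hm f, fun e => h1 ((hco f i0).symm.trans e), by rw [hd, add_zero],
          by rw [pow_zero, one_mul], 0, by rw [if_pos rfl, add_zero]; exact h2⟩
      · obtain ⟨g, hg, hnd⟩ := exists_eq_pow_rootMultiplicity_mul_and_not_dvd (P f) (hm f).ne_zero 0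
        rw [C_0, sub_zero] at hg hnd
        set i := (P f).rootMultiplicity 0
        have hgm : g.Monic := (monic_X.pow i).of_mul_monic_left (hg ▸ hm f)
        have hg0 : g.coeff 0 ≠ 0 := fun e => hnd (X_dvd_iff.2 e)
        have hi : i ≠ 0 := fun e => hg0 (by
          have := (hco f i0).trans (hZ.1 hf)
          rw [hg, e, pow_zero, one_mul] at this
          exact this)
        refine ⟨g, i, hgm, hg0, ?_, hg, ?_⟩
        · rw [← hd f, hg, Monic.natDegree_mul (monic_X.pow i) hgm, natDegree_X_pow, add_comm]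
        · simp only [if_neg hi, OrthoCharTwo.psi_add]
          rcases psi_cases (rotArf hgm) with h | h <;> rcases hs with rfl | rfl
          exacts [⟨0, by rw [h, psi_zero]; rfl⟩, ⟨c0, by rw [h, hc0]; rfl⟩, ⟨c0, by rw [h, hc0]; rfl⟩,
            ⟨0, by rw [h, psi_zero]; rfl⟩]
    obtain ⟨x, hx, a, ha, hfix, hcr, -⟩ := key hmh h0 hdi δ
    rw [hδ, hss] at ha
    obtain ⟨g, hg, hgx⟩ := (conj_into_iff hQ).2 ⟨a, ha, hfix⟩
    refine ⟨⟨g⁻¹ * x * g, hgx⟩, h, i, hmh, h0, hdi, hP, fun p => ?_⟩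
    rw [← hcr p]
    exact (aeval_conj_iff (k := g⁻¹) (by rw [inv_inv]) p).symm
  choose y h i hmh h0 hdi hP hcr using hlow
  have hyinj : Function.Injective fun f => ConjClasses.mk (y f) := fun f f' e => by
    obtain ⟨k, hk⟩ := isConj_iff.1 (ConjClasses.mk_eq_mk_iff_isConj.1 e)
    have hh : h f = h f' := eq_of_criterion (hmh f) (hmh f') (h0 f) (h0 f') (i := i f) (i' := i f') fun p => by
      rw [← hcr f p, ← hcr f' p]
      exact aeval_conj_iff (congrArg Subtype.val hk) p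
    have hi : i f = i f' := by
      have := hdi f; have := hdi f'; rw [hh] at *; omega
    exact Subtype.ext (hPinj (by rw [hP f, hP f', hh, hi]))
  have hge := Nat.card_le_card_of_injective _ hyinj
  rw [Nat.card_eq_fintype_card, Fintype.card_coe,
    Finset.card_union_of_disjoint (Finset.disjoint_left.2 fun f h1 h2 => (hA.1 h1).1 (hZ.1 h2))] at hge
  refine ⟨by omega, ?_⟩
  -- opposite type
  have hopp : ∀ f : {f // f ∈ A (-s)}, ∃ x ∈ polarGroup Q, ∃ a, OrthoCharTwo.psi (Q a) = -1 ∧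
      (∀ v, shift Q a ((x : Matrix ι ι F) *ᵥ v) = shift Q a v) ∧
      (∀ v, (x : Matrix ι ι F) *ᵥ v = v → v = 0) ∧
      ∀ p : F[X], aeval ((x : Matrix ι ι F) + ((x⁻¹ : GL ι F) : Matrix ι ι F)) p = 0 ↔
        P f.1 ∣ p ∧ (0 = 0 ∨ p.eval 0 = 0) := by
    rintro ⟨f, hf⟩
    obtain ⟨h1, h2⟩ := hA.1 hf
    obtain ⟨x, hx, a, ha, hfix, hcr, hnf⟩ := key (hm f) (fun e => h1 ((hco f i0).symm.trans e)) (i := 0)
      (by rw [hd, add_zero]) 0
    refine ⟨x, hx, a, ?_, hfix, hnf rfl, hcr⟩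
    rw [if_pos rfl, add_zero] at ha
    rw [ha, show OrthoCharTwo.psi (rotArf (hm f)) = -s from h2, neg_mul, hss]
  choose x hx a ha hfix hnf hcr' using hopp
  choose Mo hMo hTo using fun f => exists_polar_toks hQ hn (hx f)
  have hmem : ∀ g : Cfsg.isometryGroup F Q, (g : GL ι F) ∈ polarGroup Q := fun g => mem_polarGroup.2 fun u v => by
    have hg := mem_iso.1 g.2
    show Q (_ + _) - Q _ - Q _ = _
    rw [← Matrix.mulVec_add, hg, hg, hg]
    rfl
  choose Mc hMc hTc using fun C : ConjClasses (Cfsg.isometryGroup F Q) =>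
    exists_polar_toks hQ hn (hmem C.exists_rep.choose)
  obtain ⟨hfin, hle⟩ := tokSet_card_le (F := F) n
  haveI := hfin.to_subtype
  have hinj : Function.Injective (Sum.elim (fun C => (⟨Mc C, hMc C⟩ : tokSet F n))
      (fun f => (⟨Mo f, hMo f⟩ : tokSet F n))) := by
    have mixed : ∀ C f, Mc C ≠ Mo f := fun C f e => by
      obtain ⟨k, hk, hkx⟩ := exists_conj_of_toks hQ (hmem _) (hx f) (hTc C) (e ▸ hTo f)
      obtain ⟨b, hb, hbfix⟩ := (conj_into_iff hQ).1 ⟨k, hk, show k⁻¹ * x f * k ∈ _ by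
        rw [← hkx, show k⁻¹ * (k * (C.exists_rep.choose : GL ι F) * k⁻¹) * k = C.exists_rep.choose by group]
        exact C.exists_rep.choose.2⟩
      rw [← eq_of_two_shifts hQ (hx f) (hnf f) (hfix f) hbfix, ha f] at hb
      omega
    rintro (C | f) (D | f') e <;> simp only [Sum.elim_inl, Sum.elim_inr, Subtype.mk.injEq] at e
    · rw [← C.exists_rep.choose_spec, ← D.exists_rep.choose_spec]
      refine congrArg Sum.inl (ConjClasses.mk_eq_mk_iff_isConj.2 ?_)
      obtain ⟨k, hk, hkx⟩ := exists_conj_of_toks hQ (hmem _) (hmem _) (hTc C) (e ▸ hTc D)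
      exact (isConj_of_polar_conj Q hQ.polarLin hQ.smul hQ.eq_q hQ.hnd _ _).2 ⟨k, hk, hkx⟩
    · exact absurd e (mixed C f')
    · exact absurd e.symm (mixed D f)
    · obtain ⟨k, hk, hkx⟩ := exists_conj_of_toks hQ (hx f) (hx f') (hTo f) (e ▸ hTo f')
      have hh : P f.1 = P f'.1 := eq_of_criterion (hm _) (hm _)
        (fun e => (hA.1 f.2).1 ((hco f.1 i0).symm.trans e)) (fun e => (hA.1 f'.2).1 ((hco f'.1 i0).symm.trans e))
        (i := 0) (i' := 0) fun p => by rw [← hcr' f p, ← hcr' f' p]; exact aeval_conj_iff hkx p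
      exact congrArg Sum.inr (Subtype.ext (hPinj hh))
  haveI : Finite (ConjClasses (Cfsg.isometryGroup F Q)) := inferInstance
  have h1 := Nat.card_le_card_of_injective _ hinj
  rw [Nat.card_sum, Nat.card_coe_set_eq, Nat.card_eq_fintype_card (α := {f // f ∈ A (-s)}), Fintype.card_coe] at h1
  omega

end CfsgLib.IsometryClasses.Two
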