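import Cfsg.Agent.IsometryClasses.SympClasses
import Cfsg.Agent.Classical.CharTwoOrthoConj

/-!
# The invariant of the forms preserved by rotations with a given polynomial, characteristic two
-/

set_option autoImplicit false
set_option linter.style.haveILetI false

namespace CfsgLib.IsometryClasses.Two

open Polynomial Module

variable {F : Type*} [Field F] {h : F[X]}

/-- `divX` iterated. -/
noncomputable def shiftDown (h : F[X]) (j : ℕ) : F[X] := (fun p : F[X] => p.divX)^[j] h

theorem coeff_shiftDown (h : F[X]) (j m : ℕ) : (shiftDown h j).coeff m = h.coeff (m + j) := by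
  induction j generalizing m with
  | zero => rfl
  | succ j ih =>
    rw [shiftDown, Function.iterate_succ', Function.comp_apply, coeff_divX, ← shiftDown, ih]
    congr 1
    omega

theorem shiftDown_succ (h : F[X]) (j : ℕ) :
    shiftDown h j = X * shiftDown h (j + 1) + C (h.coeff j) := by
  have h1 := X_mul_divX_add (shiftDown h j)
  rw [coeff_shiftDown, zero_add] at h1
  rw [shiftDown, shiftDown, Function.iterate_succ', Function.comp_apply, ← shiftDown]
  exact h1.symm

theorem topCoeff_mk (hm : h.Monic) {p : F[X]} (hp : ∀ m, h.natDegree ≤ m → p.coeff m = 0) :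
    topCoeff hm (AdjoinRoot.mk h p) = p.coeff (h.natDegree - 1) := by
  rw [topCoeff, LinearMap.comp_apply, AdjoinRoot.modByMonicHom_mk, (modByMonic_eq_self_iff hm).2 ?_, lcoeff_apply]
  rw [degree_eq_natDegree hm.ne_zero, degree_lt_iff_coeff_zero]
  exact hp

theorem topCoeff_C_mul (hm : h.Monic) (c : F) (a : AdjoinRoot h) :
    topCoeff hm (AdjoinRoot.mk h (C c) * a) = c * topCoeff hm a := by
  rw [AdjoinRoot.mk_C, ← AdjoinRoot.algebraMap_eq, ← Algebra.smul_def, map_smul, smul_eq_mul]

/-- The dual vectors of the powers of the root. -/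
noncomputable def dualVec (h : F[X]) (i : ℕ) : AdjoinRoot h := AdjoinRoot.mk h (shiftDown h (i + 1))

theorem topCoeff_pow_mul_dualVec (hm : h.Monic) {i j : ℕ} (hi : i < h.natDegree) (hj : j < h.natDegree) :
    topCoeff hm (AdjoinRoot.root h ^ j * dualVec h i) = if i = j then 1 else 0 := by
  set n := h.natDegree with hn
  rcases Nat.lt_or_ge i j with hij | hij
  · rw [if_neg hij.ne]
    set low := h - X ^ (i + 1) * shiftDown h (i + 1) with hlow
    have hl : ∀ m, i + 1 ≤ m → low.coeff m = 0 := fun m hm' => by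
      rw [hlow, coeff_sub, coeff_X_pow_mul', if_pos hm', coeff_shiftDown, Nat.sub_add_cancel hm', sub_self]
    have e : AdjoinRoot.root h ^ j * dualVec h i = -(AdjoinRoot.mk h (X ^ (j - (i + 1)) * low)) := by
      rw [dualVec, ← AdjoinRoot.mk_X, ← map_pow, ← map_mul, hlow, mul_sub, map_sub, map_mul _ _ h,
        AdjoinRoot.mk_self, mul_zero, zero_sub, neg_neg, ← mul_assoc, ← pow_add, Nat.sub_add_cancel hij]
    have hz : ∀ m, n - 1 ≤ m → (X ^ (j - (i + 1)) * low).coeff m = 0 := fun m hm' => by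
      rw [coeff_X_pow_mul']
      split_ifs
      · exact hl _ (by omega)
      · rfl
    rw [e, map_neg, topCoeff_mk hm (fun m hm' => hz m (by omega)), hz _ le_rfl, neg_zero]
  · rw [dualVec, ← AdjoinRoot.mk_X, ← map_pow, ← map_mul, topCoeff_mk hm (fun m hm' => by
      rw [coeff_X_pow_mul']
      split_ifs
      · rw [coeff_shiftDown, coeff_eq_zero_of_natDegree_lt (by omega)]
      · rfl)]
    rw [coeff_X_pow_mul', if_pos (by omega), coeff_shiftDown]
    rcases hij.eq_or_lt with e | e
    · subst e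
      rw [if_pos rfl, show n - 1 - j + (j + 1) = n by omega, hm.coeff_natDegree]
    · rw [if_neg e.ne', coeff_eq_zero_of_natDegree_lt (by omega)]

/-- One term of the invariant. -/
noncomputable def rotTerm (hm : h.Monic) (i : ℕ) : F :=
  topCoeff hm (AdjoinRoot.root h ^ i * AdjoinRoot.root h ^ i * rinv h) *
    topCoeff hm (dualVec h i * dualVec h i * rinv h)

/-- The invariant: the sum of the products of the values on a symplectic basis. -/
noncomputable def rotArf (hm : h.Monic) : F := ∑ i ∈ Finset.range h.natDegree, rotTerm hm i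

variable [CharP F 2]

theorem two_eq_zero_K : (2 : AdjoinRoot h) = 0 := by
  rw [← map_ofNat (algebraMap F (AdjoinRoot h)) 2, CharTwo.two_eq_zero, map_zero]

theorem topCoeff_rinv (hm : h.Monic) (hn : h.natDegree ≠ 0) :
    topCoeff hm (rinv h) = (h.coeff 0)⁻¹ := by
  rw [rinv, invPoly, topCoeff_mk hm (fun m hm' => by
      rw [coeff_neg, coeff_C_mul, coeff_divX, coeff_eq_zero_of_natDegree_lt (show h.natDegree < m + 1 by omega),
        mul_zero, neg_zero]),
    coeff_neg, coeff_C_mul, coeff_divX, Nat.sub_add_cancel (Nat.one_le_iff_ne_zero.2 hn),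
    hm.coeff_natDegree, mul_one, CharTwo.neg_eq]

theorem dualVec_zero (h0 : h.coeff 0 ≠ 0) :
    dualVec h 0 = AdjoinRoot.mk h (C (h.coeff 0)) * rinv h := by
  rw [rinv, invPoly, dualVec, ← map_mul, mul_neg, ← mul_assoc, ← C_mul, mul_inv_cancel₀ h0, C_1, one_mul]
  show AdjoinRoot.mk h h.divX = _
  rw [map_neg]
  linear_combination (AdjoinRoot.mk h h.divX) * two_eq_zero_K (h := h)

theorem rotTerm_zero (hm : h.Monic) (hn : h.natDegree ≠ 0) (h0 : h.coeff 0 ≠ 0) :
    rotTerm hm 0 = h.coeff 2 / h.coeff 0 + (h.coeff 1 / h.coeff 0) ^ 2 := by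
  have hr := root_mul_rinv h0
  have hd : ∀ j, 0 < j → topCoeff hm (AdjoinRoot.mk h (shiftDown h (j + 1))) = 0 := fun j hj => by
    rw [topCoeff_mk hm (fun m hm' => by rw [coeff_shiftDown, coeff_eq_zero_of_natDegree_lt (by omega)]),
      coeff_shiftDown, coeff_eq_zero_of_natDegree_lt (by omega)]
  have e1 : AdjoinRoot.mk h (shiftDown h 1) =
      AdjoinRoot.root h * AdjoinRoot.mk h (shiftDown h 2) + AdjoinRoot.mk h (C (h.coeff 1)) := by
    conv_lhs => rw [shiftDown_succ h 1, map_add, map_mul, AdjoinRoot.mk_X]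
  have e2 : AdjoinRoot.mk h (shiftDown h 2) =
      AdjoinRoot.root h * AdjoinRoot.mk h (shiftDown h 3) + AdjoinRoot.mk h (C (h.coeff 2)) := by
    conv_lhs => rw [shiftDown_succ h 2, map_add, map_mul, AdjoinRoot.mk_X]
  have hD : dualVec h 0 = AdjoinRoot.mk h (C (h.coeff 0)) * rinv h := dualVec_zero h0
  have key : dualVec h 0 * dualVec h 0 * rinv h =
      AdjoinRoot.mk h (C (h.coeff 1)) * (AdjoinRoot.mk h (C (h.coeff 1)) * rinv h) +
        AdjoinRoot.mk h (C (h.coeff 1)) * AdjoinRoot.mk h (shiftDown h 2) +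
        AdjoinRoot.mk h (C (h.coeff 0)) * (AdjoinRoot.mk h (C (h.coeff 2)) * rinv h) +
        AdjoinRoot.mk h (C (h.coeff 0)) * AdjoinRoot.mk h (shiftDown h 3) := by
    have e0 : dualVec h 0 = AdjoinRoot.root h * AdjoinRoot.mk h (shiftDown h 2) +
        AdjoinRoot.mk h (C (h.coeff 1)) := e1
    calc dualVec h 0 * dualVec h 0 * rinv h
        = (AdjoinRoot.root h * AdjoinRoot.mk h (shiftDown h 2) + AdjoinRoot.mk h (C (h.coeff 1))) *
            (dualVec h 0 * rinv h) := by rw [← e0, mul_assoc]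
      _ = AdjoinRoot.mk h (shiftDown h 2) * (AdjoinRoot.mk h (C (h.coeff 0)) * rinv h) +
            AdjoinRoot.mk h (C (h.coeff 1)) * (dualVec h 0 * rinv h) := by
          rw [hD]
          linear_combination (AdjoinRoot.mk h (shiftDown h 2) * AdjoinRoot.mk h (C (h.coeff 0)) * rinv h) * hr
      _ = _ := by
          rw [e0]
          conv_lhs => arg 1; rw [e2]
          linear_combination (AdjoinRoot.mk h (shiftDown h 3) * AdjoinRoot.mk h (C (h.coeff 0))
            + AdjoinRoot.mk h (C (h.coeff 1)) * AdjoinRoot.mk h (shiftDown h 2)) * hr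
  rw [rotTerm, pow_zero, one_mul, one_mul, topCoeff_rinv hm hn, key, map_add, map_add, map_add,
    topCoeff_C_mul, topCoeff_C_mul, topCoeff_C_mul, topCoeff_C_mul, topCoeff_C_mul, topCoeff_C_mul,
    hd 1 one_pos, hd 2 two_pos, topCoeff_rinv hm hn]
  field_simp
  ring

theorem rotTerm_f (hm : h.Monic) {i : ℕ} (hi : i < h.natDegree) (h2i : h.natDegree ≤ 2 * i)
    (h0 : h.coeff 0 ≠ 0) :
    topCoeff hm (dualVec h i * dualVec h i * rinv h) = h.coeff (i + 1) ^ 2 / h.coeff 0 := by
  set D := shiftDown h (i + 1 + 1)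
  have e : dualVec h i = AdjoinRoot.root h * AdjoinRoot.mk h D + AdjoinRoot.mk h (C (h.coeff (i + 1))) := by
    rw [dualVec, shiftDown_succ h (i + 1), map_add, map_mul, AdjoinRoot.mk_X]
  have key : dualVec h i * dualVec h i * rinv h = AdjoinRoot.mk h (X * (D * D)) +
      AdjoinRoot.mk h (C (h.coeff (i + 1))) * (AdjoinRoot.mk h (C (h.coeff (i + 1))) * rinv h) := by
    rw [e, map_mul _ X, map_mul, AdjoinRoot.mk_X]
    linear_combination (AdjoinRoot.root h * AdjoinRoot.mk h D * AdjoinRoot.mk h D) * root_mul_rinv h0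
      + (AdjoinRoot.root h * AdjoinRoot.mk h D * AdjoinRoot.mk h (C (h.coeff (i + 1))) * rinv h) *
        two_eq_zero_K (h := h)
  have hz : ∀ m, h.natDegree - 1 ≤ m → (X * (D * D)).coeff m = 0 := by
    intro m hm'
    by_cases hD : D = 0
    · simp [hD]
    have hdeg : D.natDegree + (i + 1 + 1) ≤ h.natDegree := by
      by_contra hlt
      refine leadingCoeff_ne_zero.2 hD ?_
      rw [leadingCoeff, coeff_shiftDown, coeff_eq_zero_of_natDegree_lt (by omega)]
    refine coeff_eq_zero_of_natDegree_lt ?_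
    rw [natDegree_X_mul (mul_ne_zero hD hD), natDegree_mul hD hD]
    omega
  rw [key, map_add, topCoeff_mk hm (fun m hm' => hz m (by omega)), hz _ le_rfl, topCoeff_C_mul, topCoeff_C_mul,
    topCoeff_rinv hm (by omega)]
  ring

omit [CharP F 2] in
theorem rotTerm_e (hm : h.Monic) {i : ℕ} (hi : 0 < i) (h0 : h.coeff 0 ≠ 0) :
    topCoeff hm (AdjoinRoot.root h ^ i * AdjoinRoot.root h ^ i * rinv h) =
      topCoeff hm (AdjoinRoot.mk h (X ^ (2 * i - 1))) := by
  congr 1
  rw [← pow_add, map_pow, AdjoinRoot.mk_X, show i + i = 2 * i - 1 + 1 by omega, pow_succ, mul_assoc,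
    root_mul_rinv h0, mul_one]

/-- Adding `c X` changes the invariant by a square of `c / h 0`. -/
theorem rotArf_add {h' : F[X]} (hm : h.Monic) (hm' : h'.Monic) {c : F} (he : h' = h + C c * X)
    (hn : 2 ≤ h.natDegree) (h0 : h.coeff 0 ≠ 0) :
    rotArf hm' = rotArf hm + (c / h.coeff 0) ^ 2 := by
  have hd : h'.natDegree = h.natDegree := by
    rw [he]
    refine natDegree_add_eq_left_of_natDegree_lt (lt_of_le_of_lt ?_ hn)
    exact (natDegree_C_mul_le c X).trans natDegree_X_le
  have hc : ∀ m, m ≠ 1 → h'.coeff m = h.coeff m := fun m hm1 => by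
    rw [he, coeff_add, coeff_C_mul, coeff_X_of_ne_one hm1, mul_zero, add_zero]
  have hc1 : h'.coeff 1 = h.coeff 1 + c := by rw [he, coeff_add, coeff_C_mul, coeff_X_one, mul_one]
  have h0' : h'.coeff 0 ≠ 0 := by rw [hc 0 (by norm_num)]; exact h0
  have hterm : ∀ i, 0 < i → i < h.natDegree → rotTerm hm' i = rotTerm hm i := by
    intro i hi0 hi
    rw [rotTerm, rotTerm, rotTerm_e hm hi0 h0, rotTerm_e hm' hi0 h0']
    rcases Nat.lt_or_ge (2 * i) h.natDegree with h2 | h2
    · have hz : ∀ (g : F[X]) (hg : g.Monic), g.natDegree = h.natDegree →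
          topCoeff hg (AdjoinRoot.mk g (X ^ (2 * i - 1))) = 0 := fun g hg hgd => by
        rw [topCoeff_mk hg (fun m hm'' => by rw [coeff_X_pow, if_neg (by omega)]), coeff_X_pow, if_neg (by omega)]
      rw [hz h hm rfl, hz h' hm' hd, zero_mul, zero_mul]
    · rw [rotTerm_f hm hi h2 h0, rotTerm_f hm' (by omega) (by omega) h0', hc 0 (by norm_num), hc (i + 1) (by omega)]
      congr 1
      set N := 2 * i - 1 with hN
      set Qu := X ^ N /ₘ h
      set r := X ^ N %ₘ h
      have hrep : X ^ N = r + h * Qu := (modByMonic_add_div _ h).symm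
      have e1 : topCoeff hm (AdjoinRoot.mk h (X ^ N)) = r.coeff (h.natDegree - 1) := by
        rw [topCoeff, LinearMap.comp_apply, AdjoinRoot.modByMonicHom_mk, lcoeff_apply]
      have hr : ∀ m, h.natDegree ≤ m → r.coeff m = 0 := fun m hm'' =>
        coeff_eq_zero_of_degree_lt ((degree_modByMonic_lt _ hm).trans_le (by
          rw [degree_eq_natDegree hm.ne_zero]; exact_mod_cast hm''))
      have hQ : ∀ m, h.natDegree - 1 ≤ m → (C c * X * Qu).coeff m = 0 := by
        intro m hm''
        by_cases hQ0 : Qu = 0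
        · simp [hQ0]
        have hdeg : Qu.natDegree = N - h.natDegree := by
          rw [natDegree_divByMonic _ hm, natDegree_X_pow]
        have hNn : h.natDegree ≤ N := by
          by_contra hlt
          exact hQ0 ((divByMonic_eq_zero_iff hm).2 (by
            rw [degree_X_pow, degree_eq_natDegree hm.ne_zero]; exact_mod_cast (not_le.1 hlt)))
        rw [mul_assoc, coeff_C_mul, coeff_eq_zero_of_natDegree_lt (p := X * Qu), mul_zero]
        rw [natDegree_X_mul hQ0, hdeg]
        omega
      have e2 : AdjoinRoot.mk h' (X ^ N) = AdjoinRoot.mk h' (r - C c * X * Qu) := by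
        rw [AdjoinRoot.mk_eq_mk]
        refine ⟨Qu, ?_⟩
        rw [hrep, he]
        ring
      rw [e1, e2, topCoeff_mk hm' (fun m hm'' => by rw [coeff_sub, hr m (by omega), hQ m (by omega), sub_zero]),
        coeff_sub, hd, hQ _ le_rfl, sub_zero]
  obtain ⟨d, hdn⟩ : ∃ d, h.natDegree = d + 1 := ⟨h.natDegree - 1, by omega⟩
  rw [rotArf, rotArf, hd, hdn, Finset.sum_range_succ', Finset.sum_range_succ',
    Finset.sum_congr rfl (fun i hi => hterm (i + 1) (Nat.succ_pos _) (by rw [Finset.mem_range] at hi; omega)),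
    rotTerm_zero hm (by omega) h0, rotTerm_zero hm' (by omega) h0', hc 0 (by norm_num), hc 2 (by norm_num), hc1]
  linear_combination (h.coeff 1 * c / h.coeff 0 ^ 2) * CharTwo.two_eq_zero (R := F)

end CfsgLib.IsometryClasses.Two
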