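import Cfsg.Agent.IsometryClasses.Two.RotArf
import Cfsg.Agent.Char2Forms.Arf
import Cfsg.Agent.LinAlg.Witt.Bases

/-!
# Rotations preserving a form with the given polar form, characteristic two
-/

set_option autoImplicit false
set_option linter.style.haveILetI false

namespace CfsgLib.IsometryClasses.Two

open Polynomial Module Matrix CfsgLib.Char2Forms CfsgLib.OrthoCharTwo
open scoped Classical

variable {F : Type*} [Field F]

section Symp

variable {J : Type*} [Fintype J] [DecidableEq J] {V : Type*} [AddCommGroup V] [Module F V]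

/-- A symplectic family. -/
def IsSymp (B : LinearMap.BilinForm F V) (v : J ⊕ J → V) : Prop :=
  (∀ i j, B (v (.inl i)) (v (.inr j)) = if i = j then 1 else 0) ∧
    (∀ i j, B (v (.inl i)) (v (.inl j)) = 0) ∧ (∀ i j, B (v (.inr i)) (v (.inr j)) = 0)

theorem IsSymp.linearIndependent {B : LinearMap.BilinForm F V} {v : J ⊕ J → V} (h : IsSymp B v)
    (halt : ∀ x, B x x = 0) : LinearIndependent F v := by
  obtain ⟨hef, hee, hff⟩ := h
  have hfe : ∀ i j, B (v (.inr i)) (v (.inl j)) = -(if j = i then 1 else 0) := fun i j => by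
    rw [← hef j i, ← (show B.IsAlt from halt).neg_eq]
  refine Fintype.linearIndependent_iff.2 fun c hc k => ?_
  have key : ∀ w, ∑ i, c i * B (v i) w = 0 := fun w => by
    have := congrArg (fun z => B z w) hc
    simpa only [map_sum, map_smul, LinearMap.sum_apply, LinearMap.smul_apply, smul_eq_mul, map_zero,
      LinearMap.zero_apply] using this
  rcases k with j | j
  · have := key (v (.inr j))
    simpa [Fintype.sum_sum_type, hef, hff, Finset.sum_ite_eq'] using this
  · have := key (v (.inl j))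
    simpa [Fintype.sum_sum_type, hee, hfe, Finset.sum_ite_eq] using this

end Symp

variable [Fintype F] [CharP F 2] {ι : Type} [Fintype ι] [DecidableEq ι] {Q : (ι → F) → F}

/-- The Gauss sum from the values on a symplectic basis. -/
theorem gsum_eq_arf (hQ : Form2 Q) {J : Type*} [Fintype J] [DecidableEq J]
    (b : Basis (J ⊕ J) F (ι → F)) (hb : IsSymp hQ.polarLin b) :
    gsum Q = OrthoCharTwo.psi (∑ j, Q (b (.inl j)) * Q (b (.inr j))) * (Fintype.card F : ℤ) ^ Fintype.card J := by
  obtain ⟨hef, hee, hff⟩ := hb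
  have hfe : ∀ i j, hQ.polarLin (b (.inr i)) (b (.inl j)) = if j = i then 1 else 0 := fun i j => by
    rw [← hef j i, Form2.polarLin_apply, Form2.polarLin_apply, QuadraticMap.polar_comm]
  obtain ⟨r, hr⟩ : ∃ r : F → F, ∀ x, r x ^ 2 = x := Classical.skolem.1 (bijective_frobenius F 2).2
  set a := ∑ j, (r (Q (b (.inl j))) • b (.inr j) + r (Q (b (.inr j))) • b (.inl j)) with ha
  have hzero : ∀ k, shift Q a (b k) = 0 := by
    intro k
    have hB : hQ.polarLin (b k) a = r (Q (b k)) := by
      rw [ha]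
      rcases k with i | i <;>
        simp [map_add, map_smul, hef, hee, hff, hfe, Finset.sum_add_distrib, -Form2.polarLin_apply]
    rw [shift, ← Form2.polarLin_apply hQ, hB, hr, CharTwo.add_self_eq_zero]
  let W : Submodule F (ι → F) := Submodule.span F (Set.range fun j => b (.inl j))
  have hW : Cfsg.Geo.IsTotallySingularQuad (shift Q a) W := by
    intro v hv
    have hiso : ∀ x ∈ W, ∀ y ∈ W, hQ.polarLin x y = 0 := by
      intro x hx y hy
      obtain ⟨c, rfl⟩ := (Submodule.mem_span_range_iff_exists_fun F).1 hx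
      obtain ⟨d, rfl⟩ := (Submodule.mem_span_range_iff_exists_fun F).1 hy
      simp [map_sum, map_smul, hee, -Form2.polarLin_apply]
    induction hv using Submodule.span_induction with
    | mem x hx => obtain ⟨j, rfl⟩ := hx; exact hzero _
    | zero => exact (form2_shift hQ a).map_zero
    | add x y hx hy ex ey =>
      rw [(form2_shift hQ a).map_add, ex, ey, polar_shift hQ, ← Form2.polarLin_apply hQ, hiso x hx y hy]
      ring
    | smul c x _ ex => rw [(form2_shift hQ a).smul, ex, mul_zero]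
  have hcard : Fintype.card ι = 2 * Fintype.card J := by
    have h := Module.finrank_eq_card_basis b
    rw [Module.finrank_pi, Fintype.card_sum] at h
    omega
  have hWd : finrank F W = Fintype.card J :=
    finrank_span_eq_card (b.linearIndependent.comp _ Sum.inl_injective)
  have h1 := gsum_of_plus (form2_shift hQ a) hcard hW hWd
  rw [gsum_shift hQ] at h1
  have hQa : OrthoCharTwo.psi (Q a) = OrthoCharTwo.psi (∑ j, Q (b (.inl j)) * Q (b (.inr j))) := by
    have hterm : ∀ j, OrthoCharTwo.psi (Q (r (Q (b (.inl j))) • b (.inr j) + r (Q (b (.inr j))) • b (.inl j))) =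
        OrthoCharTwo.psi (Q (b (.inl j)) * Q (b (.inr j))) := fun j => by
      rw [hQ.map_smul_add_smul, hr, hr, ← Form2.polarLin_apply hQ, hfe, if_pos rfl, mul_one,
        mul_comm (Q (b (.inr j))), CharTwo.add_self_eq_zero, zero_add, ← psi_sq, mul_pow, hr, hr]
    have hsum : ∀ s : Finset J,
        OrthoCharTwo.psi (Q (∑ j ∈ s, (r (Q (b (.inl j))) • b (.inr j) + r (Q (b (.inr j))) • b (.inl j)))) =
          OrthoCharTwo.psi (∑ j ∈ s, Q (b (.inl j)) * Q (b (.inr j))) := by
      intro s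
      induction s using Finset.induction_on with
      | empty => simp [hQ.map_zero]
      | insert j s hj ih =>
        have hort : hQ.polarLin (r (Q (b (.inl j))) • b (.inr j) + r (Q (b (.inr j))) • b (.inl j))
            (∑ i ∈ s, (r (Q (b (.inl i))) • b (.inr i) + r (Q (b (.inr i))) • b (.inl i))) = 0 := by
          rw [map_sum]
          refine Finset.sum_eq_zero fun i hi => ?_
          have hij : j ≠ i := fun e => hj (e ▸ hi)
          simp [map_add, map_smul, hef, hee, hff, hfe, hij, hij.symm, -Form2.polarLin_apply]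
        rw [Finset.sum_insert hj, Finset.sum_insert hj, hQ.eq_q, hort, add_zero, psi_add, psi_add, ih, hterm]
    exact hsum Finset.univ
  rw [← hQa, ← h1, ← mul_assoc, psi_mul_self, one_mul]

/-- A form with the same polar form is a shift. -/
theorem exists_eq_shift (hQ : Form2 Q) {Q' : (ι → F) → F} (hQ' : Form2 Q')
    (hp : ∀ u v, QuadraticMap.polar Q' u v = QuadraticMap.polar Q u v) : ∃ a, ∀ v, Q' v = shift Q a v := by
  obtain ⟨r, hr⟩ : ∃ r : F → F, ∀ x, r x ^ 2 = x := Classical.skolem.1 (bijective_frobenius F 2).2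
  have hinj : ∀ x y : F, x ^ 2 = y ^ 2 → x = y := fun x y h => (bijective_frobenius F 2).1 h
  let l : (ι → F) →ₗ[F] F :=
    { toFun := fun v => r (Q' v - Q v)
      map_add' := fun u v => hinj _ _ (by
        rw [hr, CharTwo.add_sq, hr, hr, hQ.map_add, hQ'.map_add, hp]
        ring)
      map_smul' := fun c v => hinj _ _ (by
        simp only [RingHom.id_apply, smul_eq_mul]
        rw [hr, mul_pow, hr, hQ.smul, hQ'.smul]
        ring) }
  have hinjB : Function.Injective hQ.polarLin.flip := by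
    rw [← LinearMap.ker_eq_bot, LinearMap.ker_eq_bot']
    intro z hz
    exact hQ.hnd z (fun x => LinearMap.congr_fun hz x)
  obtain ⟨a, ha⟩ := (LinearMap.injective_iff_surjective_of_finrank_eq_finrank
    Subspace.dual_finrank_eq.symm).1 hinjB l
  refine ⟨a, fun v => ?_⟩
  have h : QuadraticMap.polar Q v a = r (Q' v - Q v) := LinearMap.congr_fun ha v
  rw [shift, h, hr]
  ring

section Model

variable {h : F[X]} {i : ℕ}

/-- The space of the model. -/
abbrev RW (h : F[X]) (i : ℕ) := (AdjoinRoot h × AdjoinRoot h) × ((Fin i → F) × (Fin i → F))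

/-- The model form. -/
noncomputable def rwQ (hm : h.Monic) (δ : F) (u : RW h i) : F :=
  topCoeff hm ((u.1.1 ^ 2 + u.1.2 ^ 2) * rinv h + u.1.1 * u.1.2) +
    ∑ j, (u.2.1 j * u.2.2 j + if (j : ℕ) = 0 then u.2.1 j ^ 2 + δ * u.2.2 j ^ 2 else 0)

/-- The polar form of the model form. -/
noncomputable def rwB (hm : h.Monic) : LinearMap.BilinForm F (RW h i) :=
  LinearMap.mk₂ F (fun u v => topCoeff hm (u.1.1 * v.1.2 + v.1.1 * u.1.2) +
      ∑ j, (u.2.1 j * v.2.2 j + v.2.1 j * u.2.2 j))
    (fun a b c => by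
      simp only [Prod.fst_add, Prod.snd_add, Pi.add_apply, add_mul, mul_add, map_add, Finset.sum_add_distrib]
      ring)
    (fun t a c => by
      simp only [Prod.smul_fst, Prod.smul_snd, Pi.smul_apply, smul_mul_assoc, mul_smul_comm, ← smul_add, map_smul,
        smul_eq_mul, mul_assoc, mul_left_comm _ t, ← mul_add, ← Finset.mul_sum])
    (fun a b c => by
      simp only [Prod.fst_add, Prod.snd_add, Pi.add_apply, add_mul, mul_add, map_add, Finset.sum_add_distrib]
      ring)
    (fun t a c => by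
      simp only [Prod.smul_fst, Prod.smul_snd, Pi.smul_apply, smul_mul_assoc, mul_smul_comm, ← smul_add, map_smul,
        smul_eq_mul, mul_assoc, mul_left_comm _ t, ← mul_add, ← Finset.mul_sum])

omit [Fintype F] [CharP F 2] in
theorem rwB_apply (hm : h.Monic) (u v : RW h i) : rwB hm u v =
    topCoeff hm (u.1.1 * v.1.2 + v.1.1 * u.1.2) + ∑ j, (u.2.1 j * v.2.2 j + v.2.1 j * u.2.2 j) := rfl

omit [Fintype F] in
theorem rwB_alt (hm : h.Monic) (u : RW h i) : rwB hm u u = 0 := by
  rw [rwB_apply, ← two_mul, two_eq_zero_K, zero_mul, map_zero, zero_add]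
  exact Finset.sum_eq_zero fun j _ => CharTwo.add_self_eq_zero _

omit [Fintype F] in
theorem rwQ_add (hm : h.Monic) (δ : F) (u v : RW h i) :
    rwQ hm δ (u + v) = rwQ hm δ u + rwQ hm δ v + rwB hm u v := by
  rw [rwQ, rwQ, rwQ, rwB_apply]
  have e1 : ((u + v).1.1 ^ 2 + (u + v).1.2 ^ 2) * rinv h + (u + v).1.1 * (u + v).1.2 =
      ((u.1.1 ^ 2 + u.1.2 ^ 2) * rinv h + u.1.1 * u.1.2) + ((v.1.1 ^ 2 + v.1.2 ^ 2) * rinv h + v.1.1 * v.1.2) +
        (u.1.1 * v.1.2 + v.1.1 * u.1.2) := by
    simp only [Prod.fst_add, Prod.snd_add]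
    linear_combination (u.1.1 * v.1.1 + u.1.2 * v.1.2) * rinv h * two_eq_zero_K (h := h)
  have e2 : ∀ j : Fin i, ((u + v).2.1 j * (u + v).2.2 j +
      if (j : ℕ) = 0 then (u + v).2.1 j ^ 2 + δ * (u + v).2.2 j ^ 2 else 0) =
      (u.2.1 j * u.2.2 j + if (j : ℕ) = 0 then u.2.1 j ^ 2 + δ * u.2.2 j ^ 2 else 0) +
      (v.2.1 j * v.2.2 j + if (j : ℕ) = 0 then v.2.1 j ^ 2 + δ * v.2.2 j ^ 2 else 0) +
      (u.2.1 j * v.2.2 j + v.2.1 j * u.2.2 j) := fun j => by
    simp only [Prod.fst_add, Prod.snd_add, Pi.add_apply, CharTwo.add_sq]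
    split_ifs <;> ring
  rw [e1, map_add, map_add, Finset.sum_congr rfl fun j _ => e2 j, Finset.sum_add_distrib, Finset.sum_add_distrib]
  ring

omit [Fintype F] [CharP F 2] in
theorem rwQ_smul (hm : h.Monic) (δ c : F) (u : RW h i) : rwQ hm δ (c • u) = c ^ 2 * rwQ hm δ u := by
  rw [rwQ, rwQ, mul_add, Finset.mul_sum]
  congr 1
  · rw [← smul_eq_mul (a := c ^ 2), ← map_smul]
    congr 1
    simp only [Prod.smul_fst, Prod.smul_snd]
    simp only [Algebra.smul_def, map_pow]
    ring
  · refine Finset.sum_congr rfl fun j _ => ?_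
    simp only [Prod.smul_fst, Prod.smul_snd, Pi.smul_apply, smul_eq_mul]
    split_ifs <;> ring

/-- The symplectic family of the model. -/
noncomputable def rwFam (h : F[X]) (i : ℕ) :
    (Fin h.natDegree ⊕ Fin i) ⊕ (Fin h.natDegree ⊕ Fin i) → RW h i :=
  Sum.elim (Sum.elim (fun a => ((AdjoinRoot.root h ^ (a : ℕ), 0), 0)) fun j => (0, (Pi.single j 1, 0)))
    (Sum.elim (fun a => ((0, dualVec h a), 0)) fun j => (0, (0, Pi.single j 1)))

omit [Fintype F] [CharP F 2] in
theorem rwFam_symp (hm : h.Monic) : IsSymp (rwB (i := i) hm) (rwFam h i) := by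
  refine ⟨?_, ?_, ?_⟩ <;> rintro (a | a) (b | b) <;>
    simp [rwFam, rwB_apply, Pi.single_apply, Sum.inl.injEq, Sum.inr.injEq]
  · rw [topCoeff_pow_mul_dualVec hm b.2 a.2]
    simp [Fin.ext_iff, eq_comm]
  · exact if_congr eq_comm rfl rfl

omit [Fintype F] [CharP F 2] in
theorem rwArf (hm : h.Monic) (δ : F) :
    ∑ j : Fin h.natDegree ⊕ Fin i, rwQ hm δ (rwFam h i (.inl j)) * rwQ hm δ (rwFam h i (.inr j)) =
      rotArf hm + if i = 0 then 0 else δ := by
  rw [Fintype.sum_sum_type]
  congr 1
  · rw [rotArf, Finset.sum_range]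
    refine Finset.sum_congr rfl fun a _ => ?_
    simp [rotTerm, rwFam, rwQ, sq]
  · rcases Nat.eq_zero_or_pos i with hi | hi
    · subst hi; simp
    · rw [if_neg hi.ne', Finset.sum_eq_single (⟨0, hi⟩ : Fin i)]
      · simp only [rwFam, rwQ, Sum.elim_inl, Sum.elim_inr]
        rw [Finset.sum_eq_single (⟨0, hi⟩ : Fin i), Finset.sum_eq_single (⟨0, hi⟩ : Fin i)] <;>
          simp +contextual
      · intro b _ hb
        have hb' : (b : ℕ) ≠ 0 := fun e => hb (Fin.ext e)
        have hs : ∀ j : Fin i, (j : ℕ) = 0 → (Pi.single b (1 : F) : Fin i → F) j = 0 := fun j hj =>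
          Pi.single_eq_of_ne (fun e => hb' (by rw [← e, hj])) 1
        have hz : rwQ hm δ (rwFam h i (Sum.inl (Sum.inr b))) = 0 := by
          simp only [rwQ, rwFam, Sum.elim_inl, Sum.elim_inr, Prod.fst_zero, Prod.snd_zero, Pi.zero_apply]
          rw [show ((0 : AdjoinRoot h) ^ 2 + (0 : AdjoinRoot h) ^ 2) * rinv h + 0 * 0 = 0 by ring, map_zero, zero_add]
          refine Finset.sum_eq_zero fun j _ => ?_
          split_ifs with hj
          · rw [hs j hj]; ring
          · ring
        rw [hz, zero_mul]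
      · exact fun h => absurd (Finset.mem_univ _) h

end Model

/-- A rotation with the given polynomial, and a form it preserves. -/
theorem exists_polar_element (hQ : Form2 Q) {n : ℕ} (hn : Fintype.card ι = 2 * n) {h : F[X]}
    (hm : h.Monic) (h0 : h.coeff 0 ≠ 0) {i : ℕ} (hd : h.natDegree + i = n) (δ : F) :
    ∃ x ∈ polarGroup Q, ∃ a, (∀ v, shift Q a ((x : Matrix ι ι F) *ᵥ v) = shift Q a v) ∧
      gsum (shift Q a) = OrthoCharTwo.psi (rotArf hm + if i = 0 then 0 else δ) * (Fintype.card F : ℤ) ^ n ∧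
      (∀ p : F[X], aeval ((x : Matrix ι ι F) + ((x⁻¹ : GL ι F) : Matrix ι ι F)) p = 0 ↔
        h ∣ p ∧ (i = 0 ∨ p.eval 0 = 0)) ∧
      (i = 0 → ∀ v, (x : Matrix ι ι F) *ᵥ v = v → v = 0) := by
  haveI := (AdjoinRoot.powerBasis' hm).finite
  have hJ : Fintype.card (Fin h.natDegree ⊕ Fin i) = n := by simp [hd]
  have hW : finrank F (RW h i) = 2 * n := by
    simp only [Module.finrank_prod, Module.finrank_pi, Fintype.card_fin,
      (AdjoinRoot.powerBasis' hm).finrank, AdjoinRoot.powerBasis'_dim]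
    omega
  have hfs := rwFam_symp (i := i) hm
  let bW : Basis ((Fin h.natDegree ⊕ Fin i) ⊕ (Fin h.natDegree ⊕ Fin i)) F (RW h i) :=
    Basis.mk (hfs.linearIndependent (rwB_alt hm))
      (ge_of_eq ((hfs.linearIndependent (rwB_alt hm)).span_eq_top_of_card_eq_finrank' (by
        rw [hW, Fintype.card_sum, hJ, two_mul])))
  have hbW : ∀ j, bW j = rwFam h i j := fun j => Basis.mk_apply _ _ j
  have halt : (hQ.polarLin : LinearMap.BilinForm F (ι → F)).IsAlt := fun u => hQ.polar_self u
  obtain ⟨m, b₀, hdim, hef, hee, hff⟩ := CfsgLib.LinAlg.Witt.exists_symplectic_basis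
    (hQ.polarLin : LinearMap.BilinForm F (ι → F)) halt
    (LinearMap.ker_eq_bot'.2 fun z hz => hQ.nondeg z fun v => LinearMap.congr_fun hz v)
  obtain rfl : n = m := by rw [Module.finrank_pi, hn] at hdim; omega
  let ee := Fintype.equivFinOfCardEq hJ
  let bV : Basis ((Fin h.natDegree ⊕ Fin i) ⊕ (Fin h.natDegree ⊕ Fin i)) F (ι → F) :=
    b₀.reindex (ee.sumCongr ee).symm
  have hbV : IsSymp hQ.polarLin bV := by
    refine ⟨fun a b => ?_, fun a b => ?_, fun a b => ?_⟩ <;> simp only [bV, Basis.reindex_apply, Equiv.symm_symm,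
      Equiv.sumCongr_apply, Sum.map_inl, Sum.map_inr]
    · rw [hef]; simp [ee.injective.eq_iff]
    · exact hee _ _
    · exact hff _ _
  let e : RW h i ≃ₗ[F] (ι → F) := bW.equiv bV (Equiv.refl _)
  have he : ∀ j, e (bW j) = bV j := fun j => by simp [e]
  have heB : ∀ u v, hQ.polarLin (e u) (e v) = rwB hm u v := by
    have hext : (hQ.polarLin : LinearMap.BilinForm F (ι → F)).compl₁₂ e.toLinearMap e.toLinearMap = rwB hm := by
      refine LinearMap.BilinForm.ext_basis bW fun a b => ?_
      rw [LinearMap.compl₁₂_apply, LinearEquiv.coe_coe, he, he]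
      have hsw : ∀ u v, hQ.polarLin u v = hQ.polarLin v u := fun u v => QuadraticMap.polar_comm Q u v
      have hsw' : ∀ u v, rwB (i := i) hm u v = rwB hm v u := fun u v => by
        rw [rwB_apply, rwB_apply, add_comm (u.1.1 * v.1.2)]
        congr 1
        exact Finset.sum_congr rfl fun j _ => add_comm _ _
      rw [hbW, hbW]
      rcases a with a | a <;> rcases b with b | b
      · rw [hbV.2.1, hfs.2.1]
      · rw [hbV.1, hfs.1]
      · rw [hsw, hsw', hbV.1, hfs.1]
      · rw [hbV.2.2, hfs.2.2]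
    exact fun u v => LinearMap.congr_fun₂ hext u v
  let Q' : (ι → F) → F := fun v => rwQ hm δ (e.symm v)
  have hpol : ∀ u v, QuadraticMap.polar Q' u v = QuadraticMap.polar Q u v := fun u v => by
    show rwQ hm δ (e.symm (u + v)) - _ - _ = _
    rw [map_add, rwQ_add, ← heB, LinearEquiv.apply_symm_apply, LinearEquiv.apply_symm_apply, Form2.polarLin_apply]
    ring
  have hQ' : Form2 Q' :=
    { char2 := hQ.char2
      smul := fun c v => by show rwQ hm δ (e.symm (c • v)) = _; rw [map_smul, rwQ_smul]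
      bil := by rw [show QuadraticMap.polar Q' = QuadraticMap.polar Q from funext fun u => funext (hpol u)]; exact hQ.bil
      nondeg := fun u hu => hQ.nondeg u fun v => by rw [← hpol]; exact hu v }
  obtain ⟨a, ha⟩ := exists_eq_shift hQ hQ' hpol
  have hgs : gsum (shift Q a) = OrthoCharTwo.psi (rotArf hm + if i = 0 then 0 else δ) * (Fintype.card F : ℤ) ^ n := by
    rw [show shift Q a = Q' from (funext ha).symm, gsum_eq_arf hQ' bV ?_, hJ]
    · congr 2
      rw [← rwArf hm δ]
      refine Finset.sum_congr rfl fun j _ => ?_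
      simp only [Q']
      rw [← he, ← he, LinearEquiv.symm_apply_apply, LinearEquiv.symm_apply_apply, hbW, hbW]
    · refine ⟨fun p q => ?_, fun p q => ?_, fun p q => ?_⟩ <;> rw [Form2.polarLin_apply, hpol, ← Form2.polarLin_apply hQ]
      exacts [hbV.1 p q, hbV.2.1 p q, hbV.2.2 p q]
  set x₀ := AdjoinRoot.root h with hx₀
  let G : Module.End F (RW h i) :=
    { toFun := fun u => ((x₀ * u.1.1 + u.1.2, u.1.1), u.2)
      map_add' := fun u v => by ext <;> simp <;> ring
      map_smul' := fun t u => by ext <;> simp [smul_add] }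
  let G' : Module.End F (RW h i) :=
    { toFun := fun u => ((u.1.2, x₀ * u.1.2 + u.1.1), u.2)
      map_add' := fun u v => by ext <;> simp <;> ring
      map_smul' := fun t u => by ext <;> simp [smul_add] }
  have h2K := two_eq_zero_K (h := h)
  have hGG' : G * G' = 1 := LinearMap.ext fun u => by
    show ((x₀ * u.1.2 + (x₀ * u.1.2 + u.1.1), u.1.2), u.2) = u
    rw [show x₀ * u.1.2 + (x₀ * u.1.2 + u.1.1) = u.1.1 by linear_combination (x₀ * u.1.2) * h2K]
  have hG'G : G' * G = 1 := LinearMap.ext fun u => by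
    show ((u.1.1, x₀ * u.1.1 + (x₀ * u.1.1 + u.1.2)), u.2) = u
    rw [show x₀ * u.1.1 + (x₀ * u.1.1 + u.1.2) = u.1.2 by linear_combination (x₀ * u.1.1) * h2K]
  have hGQ : ∀ u, rwQ hm δ (G u) = rwQ hm δ u := fun u => by
    show topCoeff hm (((x₀ * u.1.1 + u.1.2) ^ 2 + u.1.1 ^ 2) * rinv h + (x₀ * u.1.1 + u.1.2) * u.1.1) + _ = _
    rw [show ((x₀ * u.1.1 + u.1.2) ^ 2 + u.1.1 ^ 2) * rinv h + (x₀ * u.1.1 + u.1.2) * u.1.1 =
        (u.1.1 ^ 2 + u.1.2 ^ 2) * rinv h + u.1.1 * u.1.2 by
      linear_combination (x₀ * u.1.1 ^ 2 + 2 * u.1.1 * u.1.2) * root_mul_rinv h0 +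
        (x₀ * u.1.1 ^ 2 + u.1.1 * u.1.2) * h2K]
    rfl
  let bb := Basis.ofEquivFun e
  let T := LinearMap.toMatrixAlgEquiv bb
  have hMu : ∀ f : Module.End F (RW h i), ∀ v, T f *ᵥ v = e (f (e.symm v)) := fun f v => by
    have := LinearMap.toMatrix_mulVec_repr bb bb f (e.symm v)
    simp only [bb] at this
    have hv : ⇑(bb.repr (e.symm v)) = v := funext fun a => by
      rw [Basis.ofEquivFun_repr_apply, LinearEquiv.apply_symm_apply]
    rw [hv] at this
    exact this.trans (funext fun a => Basis.ofEquivFun_repr_apply _ _ _)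
  let M : GL ι F := ⟨T G, T G', by rw [← map_mul, hGG', map_one], by rw [← map_mul, hG'G, map_one]⟩
  have hMQ : ∀ v, Q' ((M : Matrix ι ι F) *ᵥ v) = Q' v := fun v => by
    show rwQ hm δ (e.symm (T G *ᵥ v)) = _
    rw [hMu, LinearEquiv.symm_apply_apply, hGQ]
  have hMpol : M ∈ polarGroup Q := mem_polarGroup.2 fun u v => by
    rw [← hpol, ← hpol]
    show Q' (_ + _) - Q' _ - Q' _ = _
    rw [← Matrix.mulVec_add, hMQ, hMQ, hMQ]
    rfl
  refine ⟨M, hMpol, a, fun v => by rw [← ha, ← ha, hMQ], hgs, fun p => ?_, fun hi v hv => ?_⟩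
  · show aeval (T G + T G') p = 0 ↔ _
    rw [← map_add, aeval_algHom_apply, EmbeddingLike.map_eq_zero_iff]
    have hsum : ∀ u, (G + G') u = ((x₀ * u.1.1, x₀ * u.1.2), (0 : F) • u.2) := fun u => by
      show ((x₀ * u.1.1 + u.1.2 + u.1.2, u.1.1 + (x₀ * u.1.2 + u.1.1)), u.2 + u.2) = _
      rw [zero_smul, show x₀ * u.1.1 + u.1.2 + u.1.2 = x₀ * u.1.1 by linear_combination u.1.2 * h2K,
        show u.1.1 + (x₀ * u.1.2 + u.1.1) = x₀ * u.1.2 by linear_combination u.1.1 * h2K, ← two_smul F u.2,
        CharTwo.two_eq_zero, zero_smul]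
    have hpu : ∀ u, aeval (G + G') p u =
        ((AdjoinRoot.mk h p * u.1.1, AdjoinRoot.mk h p * u.1.2), p.eval 0 • u.2) := by
      induction p using Polynomial.induction_on with
      | C c =>
        intro u
        rw [aeval_C, Module.algebraMap_end_apply, AdjoinRoot.mk_C, ← AdjoinRoot.algebraMap_eq, ← Algebra.smul_def,
          ← Algebra.smul_def, eval_C]
        rfl
      | add p q hp hq =>
        intro u; rw [map_add, LinearMap.add_apply, hp, hq, map_add, eval_add]; ext <;> simp [add_mul]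
      | monomial k c ih =>
        intro u
        rw [show C c * X ^ (k + 1) = (C c * X ^ k) * X by ring, map_mul, map_mul (AdjoinRoot.mk h) _ X, aeval_X,
          Module.End.mul_apply, hsum, ih, AdjoinRoot.mk_X]
        simp [mul_assoc, x₀]
    rw [← AdjoinRoot.mk_eq_zero (f := h)]
    constructor
    · intro e0
      refine ⟨?_, ?_⟩
      · have h1 := hpu ((1, 0), 0)
        rw [e0, LinearMap.zero_apply] at h1
        simpa using (congrArg (fun z => z.1.1) h1).symm
      · rcases Nat.eq_zero_or_pos i with hi | hi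
        · exact Or.inl hi
        · refine Or.inr ?_
          have h1 := hpu ((0, 0), (fun _ => 1, 0))
          rw [e0, LinearMap.zero_apply] at h1
          simpa using (congrFun (congrArg (fun z => z.2.1) h1) ⟨0, hi⟩).symm
    · rintro ⟨e1, hi⟩
      refine LinearMap.ext fun u => ?_
      rw [hpu, e1, LinearMap.zero_apply]
      rcases hi with hi | hi
      · subst hi
        exact Prod.ext (by simp) (Prod.ext (funext fun j => j.elim0) (funext fun j => j.elim0))
      · simp [hi]
  · subst hi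
    have hu : G (e.symm v) = e.symm v := by
      have h1 : T G *ᵥ v = v := hv
      rw [hMu] at h1
      apply e.injective
      rw [h1, LinearEquiv.apply_symm_apply]
    set u := e.symm v
    have h1 : x₀ * u.1.1 + u.1.2 = u.1.1 := congrArg (fun z => z.1.1) hu
    have h2' : u.1.1 = u.1.2 := congrArg (fun z => z.1.2) hu
    have h3 : x₀ * u.1.1 = 0 := by linear_combination h1 + h2'
    have h4 : u.1.1 = 0 := by linear_combination (rinv h) * h3 - u.1.1 * root_mul_rinv h0
    have hu0 : u = 0 :=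
      Prod.ext (Prod.ext h4 (h2'.symm.trans h4)) (Prod.ext (funext fun j => j.elim0) (funext fun j => j.elim0))
    exact e.symm.injective (by rw [map_zero]; exact hu0)

end CfsgLib.IsometryClasses.Two
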