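import Cfsg.Agent.IsometryClasses.Decomp
import Cfsg.Agent.Classical.CharTwoOrthoConj

/-!
# The unipotent atom in characteristic two

The algebra `F[X] / (X - 1) ^ k` with the inversion of the root: the elements `T = root + 1` and
`s = root + root⁻¹`, functionals vanishing on the powers of `s`.
-/

set_option autoImplicit false
set_option linter.style.haveILetI false

namespace CfsgLib.IsometryClasses.Two

open Polynomial Module

variable {F : Type*} [Field F]

/-- The unipotent modulus. -/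
noncomputable abbrev uMod (F : Type*) [Field F] (k : ℕ) : F[X] := (X - C 1) ^ k

/-- The unipotent algebra. -/
abbrev UA (F : Type*) [Field F] (k : ℕ) := AdjoinRoot (uMod F k)

theorem recip_uLin : Recip (X - C (1 : F)) := by
  refine ⟨monic_X_sub_C 1, by simp, ?_⟩
  have hx : reflect 1 (X : F[X]) = 1 := by simp
  rw [reverse, natDegree_X_sub_C, reflect_sub, hx, reflect_C, pow_one]
  simp

theorem recip_uMod (k : ℕ) : Recip (uMod F k) := recip_uLin.pow k

/-- `root + 1`. -/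
noncomputable def tU (F : Type*) [Field F] (k : ℕ) : UA F k := AdjoinRoot.root _ + 1

/-- `root + root⁻¹`. -/
noncomputable def sU (F : Type*) [Field F] (k : ℕ) : UA F k := AdjoinRoot.root _ + rinv _

/-- The inversion. -/
noncomputable abbrev sigU (F : Type*) [Field F] (k : ℕ) : UA F k →ₐ[F] UA F k := sig (recip_uMod k)

/-- The subalgebra generated by `s`. -/
noncomputable def Rs (F : Type*) [Field F] (k : ℕ) : Subalgebra F (UA F k) := (aeval (sU F k)).range

variable {k l : ℕ}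

theorem mem_Rs {a : UA F k} : a ∈ Rs F k ↔ ∃ p : F[X], aeval (sU F k) p = a := AlgHom.mem_range _

theorem sU_mem : sU F k ∈ Rs F k := mem_Rs.2 ⟨X, aeval_X _⟩

theorem sU_pow_mem (j : ℕ) : sU F k ^ j ∈ Rs F k := pow_mem sU_mem j

theorem root_mul_rinv_U : AdjoinRoot.root (uMod F k) * rinv (uMod F k) = 1 :=
  root_mul_rinv (recip_uMod k).coeff_zero

section CharTwo

variable [CharP F 2]

theorem two_eq_zero_U : (2 : UA F k) = 0 := by
  rw [← map_ofNat (algebraMap F (UA F k)) 2, CharTwo.two_eq_zero, map_zero]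

omit [CharP F 2] in
theorem sig_sU : sigU F k (sU F k) = sU F k := by
  rw [sU, map_add, sig_root, sig_rinv, add_comm]

omit [CharP F 2] in
theorem sig_Rs {a : UA F k} (ha : a ∈ Rs F k) : sigU F k a = a := by
  obtain ⟨p, rfl⟩ := mem_Rs.1 ha
  rw [← aeval_algHom_apply, sig_sU]

theorem sig_tU : sigU F k (tU F k) = tU F k + sU F k := by
  rw [tU, sU, map_add, sig_root, map_one]
  linear_combination -(AdjoinRoot.root (uMod F k)) * two_eq_zero_U (F := F) (k := k)

theorem root_mul_sU : AdjoinRoot.root (uMod F k) * sU F k = tU F k ^ 2 := by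
  rw [tU, sU, mul_add, root_mul_rinv_U]
  linear_combination -(AdjoinRoot.root (uMod F k)) * two_eq_zero_U (F := F) (k := k)

theorem tU_sq : tU F k ^ 2 = sU F k * tU F k + sU F k := by
  rw [← root_mul_sU, tU]
  linear_combination -(sU F k) * two_eq_zero_U (F := F) (k := k)

theorem mk_uLin : AdjoinRoot.mk (uMod F k) (X - C 1) = tU F k := by
  rw [map_sub, AdjoinRoot.mk_X, AdjoinRoot.mk_C, map_one, tU]
  linear_combination -(two_eq_zero_U (F := F) (k := k))

theorem tU_pow_eq_zero {j : ℕ} (h : k ≤ j) : tU F k ^ j = 0 := by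
  refine pow_eq_zero_of_le h ?_
  rw [← mk_uLin, ← map_pow, AdjoinRoot.mk_self]

theorem top_eq_pow : top (X - C (1 : F)) k = tU F k ^ (k - 1) := by
  rw [top, map_pow]
  exact congrArg (· ^ (k - 1)) mk_uLin

theorem sU_eq : sU F k = rinv (uMod F k) * tU F k ^ 2 := by
  rw [← root_mul_sU, ← mul_assoc, mul_comm (rinv _), root_mul_rinv_U, one_mul]

theorem sU_pow_eq (j : ℕ) : sU F k ^ j = rinv (uMod F k) ^ j * tU F k ^ (2 * j) := by
  rw [sU_eq, mul_pow, ← pow_mul]

theorem sU_pow_eq_zero {j : ℕ} (h : k ≤ 2 * j) : sU F k ^ j = 0 := by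
  rw [sU_pow_eq, tU_pow_eq_zero h, mul_zero]

theorem tU_sU_pow_eq (j : ℕ) : tU F k * sU F k ^ j = rinv (uMod F k) ^ j * tU F k ^ (2 * j + 1) := by
  rw [sU_pow_eq, pow_succ]; ring

theorem tU_sU_pow_eq_zero {j : ℕ} (h : k ≤ 2 * j + 1) : tU F k * sU F k ^ j = 0 := by
  rw [tU_sU_pow_eq, tU_pow_eq_zero h, mul_zero]

theorem top_mul_rinv_pow (j : ℕ) :
    rinv (uMod F k) ^ j * tU F k ^ (k - 1) = tU F k ^ (k - 1) := by
  have h0 : tU F k ^ (k - 1) * tU F k = 0 := by
    rw [← pow_succ]; exact tU_pow_eq_zero (by omega)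
  have h1 : tU F k ^ (k - 1) * rinv (uMod F k) = tU F k ^ (k - 1) := by
    rw [tU] at h0 ⊢
    linear_combination (rinv (uMod F k)) * h0
      - ((AdjoinRoot.root (uMod F k) + 1) ^ (k - 1)) * root_mul_rinv_U (F := F) (k := k)
      - ((AdjoinRoot.root (uMod F k) + 1) ^ (k - 1)) * two_eq_zero_U (F := F) (k := k)
  induction j with
  | zero => rw [pow_zero, one_mul]
  | succ j ih => rw [pow_succ, mul_assoc, mul_comm (rinv _), h1, ih]

theorem tU_pow_top_odd : tU F (2 * l + 1) ^ (2 * l + 1 - 1) = sU F (2 * l + 1) ^ l := by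
  rw [sU_pow_eq, show 2 * l + 1 - 1 = 2 * l by omega]
  exact (show 2 * l + 1 - 1 = 2 * l by omega) ▸ (top_mul_rinv_pow (k := 2 * l + 1) l).symm

theorem tU_pow_top_even :
    tU F (2 * (l + 1)) ^ (2 * (l + 1) - 1) = tU F (2 * (l + 1)) * sU F (2 * (l + 1)) ^ l := by
  rw [tU_sU_pow_eq, show 2 * (l + 1) - 1 = 2 * l + 1 by omega]
  exact (show 2 * (l + 1) - 1 = 2 * l + 1 by omega) ▸ (top_mul_rinv_pow (k := 2 * (l + 1)) l).symm

/-! ### Evaluation at `1` -/

omit [CharP F 2] in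
theorem aeval_one_uMod (hk : k ≠ 0) : aeval (1 : F) (uMod F k) = 0 := by
  simp [zero_pow hk]

/-- Evaluation at `1`. -/
noncomputable def evU (hk : k ≠ 0) : UA F k →ₐ[F] F :=
  AdjoinRoot.liftAlgHom _ (Algebra.ofId F F) 1 (aeval_one_uMod hk)

omit [CharP F 2] in
theorem evU_mk (hk : k ≠ 0) (p : F[X]) : evU hk (AdjoinRoot.mk _ p) = p.eval 1 := by
  refine (AdjoinRoot.liftAlgHom_mk _ (Algebra.ofId F F) (1 : F) (aeval_one_uMod hk) p).trans ?_
  rfl

omit [CharP F 2] in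
theorem evU_root (hk : k ≠ 0) : evU hk (AdjoinRoot.root (uMod F k)) = 1 := by
  rw [← AdjoinRoot.mk_X, evU_mk, eval_X]

omit [CharP F 2] in
theorem evU_rinv (hk : k ≠ 0) : evU hk (rinv (uMod F k)) = 1 := by
  have h := congrArg (evU hk) (root_mul_rinv_U (F := F) (k := k))
  rwa [map_mul, evU_root, one_mul, map_one] at h

omit [CharP F 2] in
theorem evU_sig (hk : k ≠ 0) (a : UA F k) : evU hk (sigU F k a) = evU hk a := by
  have h : (evU hk).comp (sigU F k) = evU hk :=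
    AdjoinRoot.algHom_ext (by rw [AlgHom.comp_apply, sig_root, evU_rinv, evU_root])
  exact AlgHom.congr_fun h a

theorem evU_sU (hk : k ≠ 0) : evU hk (sU F k) = 0 := by
  rw [sU, map_add, evU_root, evU_rinv, CharTwo.add_self_eq_zero]

theorem evU_tU (hk : k ≠ 0) : evU hk (tU F k) = 0 := by
  rw [tU, map_add, evU_root, map_one, CharTwo.add_self_eq_zero]

theorem exists_sub_evU (hk : k ≠ 0) (a : UA F k) :
    ∃ b, a = algebraMap F _ (evU hk a) + tU F k * b := by
  induction a using AdjoinRoot.induction_on with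
  | ih p =>
    obtain ⟨q, hq⟩ := X_sub_C_dvd_sub_C_eval (a := (1 : F)) (p := p)
    refine ⟨AdjoinRoot.mk _ q, ?_⟩
    rw [evU_mk, ← mk_uLin, ← map_mul, ← hq, map_sub, AdjoinRoot.mk_C, AdjoinRoot.algebraMap_eq]
    ring

theorem isUnit_of_evU (hk : k ≠ 0) {a : UA F k} (h : evU hk a ≠ 0) : IsUnit a := by
  obtain ⟨b, hb⟩ := exists_sub_evU hk a
  rw [hb, add_comm]
  refine IsNilpotent.isUnit_add_right_of_commute ?_ ((IsUnit.mk0 _ h).map _) (Commute.all _ _)
  exact ⟨k, by rw [mul_pow, tU_pow_eq_zero le_rfl, zero_mul]⟩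

theorem top_mul_evU (hk : k ≠ 0) (a : UA F k) :
    tU F k ^ (k - 1) * a = evU hk a • tU F k ^ (k - 1) := by
  obtain ⟨b, hb⟩ := exists_sub_evU hk a
  conv_lhs => rw [hb]
  rw [mul_add, ← mul_assoc, ← pow_succ, tU_pow_eq_zero (j := k - 1 + 1) (by omega), zero_mul, add_zero,
    Algebra.smul_def, mul_comm]

theorem socle (hk : k ≠ 0) {a : UA F k} (h : tU F k * a = 0) : ∃ c : F, a = c • tU F k ^ (k - 1) := by
  obtain ⟨p, rfl⟩ := AdjoinRoot.mk_surjective a
  rw [← mk_uLin, ← map_mul, AdjoinRoot.mk_eq_zero, uMod, show (X - C (1 : F)) ^ k = (X - C 1) * (X - C 1) ^ (k - 1) by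
    rw [← pow_succ', show k - 1 + 1 = k by omega]] at h
  obtain ⟨q, rfl⟩ := (mul_dvd_mul_iff_left (X_sub_C_ne_zero 1)).1 h
  exact ⟨evU hk (AdjoinRoot.mk _ q), by rw [← top_mul_evU, map_mul, map_pow, mk_uLin]⟩

/-- A functional which is non-zero on the socle is non-degenerate. -/
theorem nd_linear (hk : k ≠ 0) {φ : UA F k →ₗ[F] F} (h : φ (tU F k ^ (k - 1)) ≠ 0) : Nd φ := by
  intro a ha
  classical
  by_contra ha0
  have hex : ∃ m, tU F k ^ m * a = 0 := ⟨k, by rw [tU_pow_eq_zero le_rfl, zero_mul]⟩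
  obtain ⟨m, hm⟩ : ∃ m, Nat.find hex = m + 1 := Nat.exists_eq_succ_of_ne_zero fun h0 => ha0 (by
    have := Nat.find_spec hex
    rwa [h0, pow_zero, one_mul] at this)
  have h1 : tU F k ^ m * a ≠ 0 := Nat.find_min hex (by omega)
  obtain ⟨c, hc⟩ := socle hk (a := tU F k ^ m * a) (by
    rw [← mul_assoc, ← pow_succ', ← hm]; exact Nat.find_spec hex)
  have h2 := ha (tU F k ^ m)
  rw [mul_comm, hc, map_smul, smul_eq_mul, mul_eq_zero] at h2
  refine h1 ?_
  rw [hc, h2.resolve_right h, zero_smul]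

/-- The pair matrix with vanishing diagonal on the socle is non-degenerate. -/
theorem nd_two (hk : k ≠ 0) {α β γ : UA F k →ₗ[F] F} (hα : α (tU F k ^ (k - 1)) = 0)
    (hβ : β (tU F k ^ (k - 1)) = 0) (hγ : γ (tU F k ^ (k - 1)) ≠ 0) {a₀ a₁ : UA F k}
    (h₀ : ∀ c, α (a₀ * c) + γ (sigU F k (a₁ * c)) = 0)
    (h₁ : ∀ c, γ (a₀ * c) + β (a₁ * c) = 0) : a₀ = 0 ∧ a₁ = 0 := by
  classical
  by_contra hne
  have hex : ∃ m, tU F k ^ m * a₀ = 0 ∧ tU F k ^ m * a₁ = 0 :=
    ⟨k, by rw [tU_pow_eq_zero le_rfl, zero_mul], by rw [tU_pow_eq_zero le_rfl, zero_mul]⟩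
  obtain ⟨m, hm⟩ : ∃ m, Nat.find hex = m + 1 := Nat.exists_eq_succ_of_ne_zero fun h0 => hne (by
    have := Nat.find_spec hex
    simp only [h0, pow_zero, one_mul] at this
    exact this)
  obtain ⟨e₀, e₁⟩ : tU F k ^ (m + 1) * a₀ = 0 ∧ tU F k ^ (m + 1) * a₁ = 0 := hm ▸ Nat.find_spec hex
  obtain ⟨c₀, hc₀⟩ := socle hk (a := tU F k ^ m * a₀) (by rw [← mul_assoc, ← pow_succ', e₀])
  obtain ⟨c₁, hc₁⟩ := socle hk (a := tU F k ^ m * a₁) (by rw [← mul_assoc, ← pow_succ', e₁])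
  have hσ : sigU F k (tU F k ^ (k - 1)) = tU F k ^ (k - 1) := by
    have := sig_top_linear (c := (1 : F)) (by rw [one_mul]) recip_uLin hk
    rwa [CharTwo.neg_eq, one_pow, one_smul, top_eq_pow] at this
  have f₀ := h₀ (tU F k ^ m)
  have f₁ := h₁ (tU F k ^ m)
  rw [mul_comm a₀, mul_comm a₁, hc₀, hc₁, map_smul, map_smul, map_smul, hσ, hα, smul_zero, zero_add,
    smul_eq_mul, mul_eq_zero] at f₀
  rw [mul_comm a₀, mul_comm a₁, hc₀, hc₁, map_smul, map_smul, hβ, smul_zero, add_zero,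
    smul_eq_mul, mul_eq_zero] at f₁
  refine Nat.find_min hex (show m < Nat.find hex by omega) ⟨?_, ?_⟩
  · rw [hc₀, f₁.resolve_right hγ, zero_smul]
  · rw [hc₁, f₀.resolve_right hγ, zero_smul]

/-! ### The form `P + Q T` -/

theorem exists_split (a : UA F k) : ∃ P ∈ Rs F k, ∃ Q ∈ Rs F k, a = P + Q * tU F k := by
  induction a using AdjoinRoot.induction_on with
  | ih p =>
    induction p using Polynomial.induction_on with
    | C c => exact ⟨algebraMap F _ c, Subalgebra.algebraMap_mem _ c, 0, zero_mem _, by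
        rw [zero_mul, add_zero]; rfl⟩
    | add p q hp hq =>
      obtain ⟨P, hP, Q, hQ, e⟩ := hp
      obtain ⟨P', hP', Q', hQ', e'⟩ := hq
      exact ⟨P + P', add_mem hP hP', Q + Q', add_mem hQ hQ', by rw [map_add, e, e']; ring⟩
    | monomial n c ih =>
      obtain ⟨P, hP, Q, hQ, e⟩ := ih
      refine ⟨P + Q * sU F k, add_mem hP (mul_mem hQ sU_mem), P + Q + Q * sU F k,
        add_mem (add_mem hP hQ) (mul_mem hQ sU_mem), ?_⟩
      rw [show C c * X ^ (n + 1) = (C c * X ^ n) * X by ring, map_mul, AdjoinRoot.mk_X, e,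
        show AdjoinRoot.root (uMod F k) = tU F k - 1 by rw [tU]; ring]
      linear_combination Q * tU_sq (F := F) (k := k)
        - (P + Q * tU F k) * two_eq_zero_U (F := F) (k := k)

omit [CharP F 2] in
theorem exists_Rs_split {a : UA F k} (ha : a ∈ Rs F k) :
    ∃ c : F, ∃ w ∈ Rs F k, a = algebraMap F _ c + sU F k * w := by
  obtain ⟨p, rfl⟩ := mem_Rs.1 ha
  refine ⟨p.coeff 0, aeval (sU F k) p.divX, mem_Rs.2 ⟨_, rfl⟩, ?_⟩
  conv_lhs => rw [← divX_mul_X_add p]
  rw [map_add, map_mul, aeval_X, aeval_C]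
  ring

/-- The norm. -/
noncomputable def nmU (a : UA F k) : UA F k := a * sigU F k a

theorem nmU_split {P Q : UA F k} (hP : P ∈ Rs F k) (hQ : Q ∈ Rs F k) :
    nmU (P + Q * tU F k) = P ^ 2 + P * Q * sU F k + Q ^ 2 * sU F k := by
  rw [nmU, map_add, map_mul, sig_Rs hP, sig_Rs hQ, sig_tU]
  linear_combination Q ^ 2 * tU_sq (F := F) (k := k)
    + (P * Q * tU F k + Q ^ 2 * sU F k * tU F k) * two_eq_zero_U (F := F) (k := k)

omit [CharP F 2] in
theorem nmU_Rs {P : UA F k} (hP : P ∈ Rs F k) : nmU P = P ^ 2 := by rw [nmU, sig_Rs hP, sq]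

theorem nmU_tU : nmU (tU F k) = sU F k := by
  simpa using nmU_split (F := F) (k := k) (zero_mem _) (one_mem _)

omit [CharP F 2] in
theorem nmU_mul (a b : UA F k) : nmU (a * b) = nmU a * nmU b := by
  rw [nmU, nmU, nmU, map_mul]; ring

theorem nmU_mem (a : UA F k) : nmU a ∈ Rs F k := by
  obtain ⟨P, hP, Q, hQ, rfl⟩ := exists_split a
  rw [nmU_split hP hQ]
  exact add_mem (add_mem (pow_mem hP 2) (mul_mem (mul_mem hP hQ) sU_mem)) (mul_mem (pow_mem hQ 2) sU_mem)

theorem add_sig_mem (a : UA F k) : ∃ w ∈ Rs F k, a + sigU F k a = sU F k * w := by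
  obtain ⟨P, hP, Q, hQ, rfl⟩ := exists_split a
  refine ⟨Q, hQ, ?_⟩
  rw [map_add, map_mul, sig_Rs hP, sig_Rs hQ, sig_tU]
  linear_combination (P + Q * tU F k) * two_eq_zero_U (F := F) (k := k)

omit [CharP F 2] in
theorem exists_inv_Rs [Finite F] {a : UA F k} (ha : a ∈ Rs F k) (hu : IsUnit a) :
    ∃ b ∈ Rs F k, a * b = 1 := by
  haveI := finite_adjoinRoot (recip_uMod (F := F) k).monic
  have hinj : Function.Injective (fun b : Rs F k => (⟨a * b.1, mul_mem ha b.2⟩ : Rs F k)) := fun b b' h =>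
    Subtype.ext (hu.mul_left_cancel (congrArg Subtype.val h))
  obtain ⟨b, hb⟩ := Finite.surjective_of_injective hinj ⟨1, one_mem _⟩
  exact ⟨b.1, b.2, congrArg Subtype.val hb⟩

theorem exists_norm_one_add [Finite F] {w : UA F k} (hw : w ∈ Rs F k) :
    ∃ a, nmU a = 1 + sU F k ^ 2 * w := by
  haveI := finite_adjoinRoot (recip_uMod (F := F) k).monic
  let h : Rs F k → Rs F k := fun b => ⟨b.1 + sU F k * b.1 ^ 2, add_mem b.2 (mul_mem sU_mem (pow_mem b.2 2))⟩
  have hinj : Function.Injective h := fun b b' e => by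
    have e' : b.1 + sU F k * b.1 ^ 2 = b'.1 + sU F k * b'.1 ^ 2 := congrArg Subtype.val e
    have hu : IsUnit (1 + sU F k * (b.1 - b'.1)) :=
      IsNilpotent.isUnit_one_add ⟨k, by rw [mul_pow, sU_pow_eq_zero (by omega), zero_mul]⟩
    refine Subtype.ext (sub_eq_zero.1 (hu.mul_left_eq_zero.1 ?_))
    linear_combination e' - sU F k * (b.1 * b'.1 - b'.1 ^ 2) * two_eq_zero_U (F := F) (k := k)
  obtain ⟨b, hb⟩ := Finite.surjective_of_injective hinj ⟨w, hw⟩
  have hb' : b.1 + sU F k * b.1 ^ 2 = w := congrArg Subtype.val hb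
  refine ⟨1 + sU F k * b.1 * tU F k, ?_⟩
  rw [nmU_split (one_mem _) (mul_mem sU_mem b.2), ← hb']
  ring

theorem exists_norm_eq_of_AS [Finite F] {c₀ c₁ : F} {w : UA F k} (hw : w ∈ Rs F k) (hc : c₀ ≠ 0)
    (hAS : ∃ β, β ^ 2 + β = c₁ / c₀) :
    ∃ a, nmU a = algebraMap F _ c₀ + algebraMap F _ c₁ * sU F k + sU F k ^ 2 * w := by
  haveI := Fintype.ofFinite F
  obtain ⟨β, hβ⟩ := hAS
  obtain ⟨c, hc2⟩ : ∃ c, c ^ 2 = c₀ := (bijective_frobenius F 2).2 c₀
  by_cases hk : k = 0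
  · subst hk
    haveI : Subsingleton (UA F 0) := subsingleton_of_zero_eq_one (by
      rw [← map_one (AdjoinRoot.mk (uMod F 0)), eq_comm, AdjoinRoot.mk_eq_zero, uMod, pow_zero])
    exact ⟨0, Subsingleton.elim _ _⟩
  set u := algebraMap F (UA F k) c₀ + algebraMap F _ c₁ * sU F k with hu
  have huR : u ∈ Rs F k :=
    add_mem (Subalgebra.algebraMap_mem _ _) (mul_mem (Subalgebra.algebraMap_mem _ _) sU_mem)
  have huu : IsUnit u := isUnit_of_evU hk (by
    rw [hu, map_add, map_mul, evU_sU, mul_zero, add_zero, AlgHom.commutes]; simpa using hc)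
  obtain ⟨u', hu', huu'⟩ := exists_inv_Rs huR huu
  obtain ⟨a, ha⟩ := exists_norm_one_add (mul_mem hw hu')
  refine ⟨(algebraMap F _ c + algebraMap F _ (c * β) * tU F k) * a, ?_⟩
  rw [nmU_mul, ha, nmU_split (Subalgebra.algebraMap_mem _ _) (Subalgebra.algebraMap_mem _ _), hu] at *
  have e1 : c₁ = c₀ * β ^ 2 + c₀ * β := by rw [← mul_add, hβ]; field_simp
  have huu2 : (algebraMap F (UA F k) c₀ + algebraMap F _ c₁ * sU F k) * u' = 1 := huu'
  rw [e1, ← hc2] at huu2 ⊢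
  simp only [map_add, map_mul, map_pow] at huu2 ⊢
  linear_combination (sU F k ^ 2 * w) * huu2

end CharTwo

end CfsgLib.IsometryClasses.Two
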